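import Mathlib.Tactic

/-!
# The arithmetic of the degrees when an element of order four is its own centraliser
-/

set_option autoImplicit false

namespace CfsgLib.SelfCentFour

/-- The relations between the group order, the three degrees with signs and the parameters
`a = |A|`, `b = |B|`. -/
structure Rel (g a b : ℕ) (X Y Z : ℤ) : Prop where
  hX : 9 ≤ |X|
  hY : 9 ≤ |Y|
  hZ : 9 ≤ |Z|
  sum : X + Y + Z = -1
  count : (g : ℚ) * (1 + 1 / (X : ℚ) + 1 / (Y : ℚ) + 1 / (Z : ℚ)) = 256 * (a : ℚ) ^ 2 * b ^ 2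
  order : (g : ℚ) * ((X : ℚ) - 1) ^ 2 =
    64 * (X : ℚ) * ((X : ℚ) + 1) * a * b * ((a : ℚ) + b) ^ 2

variable {g a b : ℕ} {X Y Z : ℤ}

theorem inv_ge {W : ℤ} (h : 9 ≤ |W|) : -(1 / 9 : ℚ) ≤ 1 / (W : ℚ) := by
  rcases le_total 0 W with hW | hW
  · exact le_trans (by norm_num) (div_nonneg zero_le_one (by exact_mod_cast hW))
  · rw [abs_of_nonpos hW] at h
    have h' : (W : ℚ) ≤ -9 := by exact_mod_cast (by omega : W ≤ -9)
    rw [le_div_iff_of_neg (by linarith)]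
    linarith

theorem inv_pos' {W : ℤ} (h0 : 0 < W) : (0 : ℚ) ≤ 1 / (W : ℚ) :=
  div_nonneg zero_le_one (by exact_mod_cast h0.le)

theorem Rel.count_lower (h : Rel g a b X Y Z) :
    (7 / 9 : ℚ) ≤ 1 + 1 / (X : ℚ) + 1 / (Y : ℚ) + 1 / (Z : ℚ) := by
  have hx := inv_ge h.hX
  have hy := inv_ge h.hY
  have hz := inv_ge h.hZ
  have : 0 < X ∨ 0 < Y ∨ 0 < Z := by
    by_contra hc
    push Not at hc
    have := h.hX
    rw [abs_of_nonpos hc.1] at this
    have := h.sum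
    omega
  rcases this with p | p | p
  · have := inv_pos' p; linarith
  · have := inv_pos' p; linarith
  · have := inv_pos' p; linarith

/-- The order is at most `9/7` of `256 a² b²`. -/
theorem Rel.le_order (h : Rel g a b X Y Z) : 7 * g ≤ 9 * 256 * a ^ 2 * b ^ 2 := by
  have h1 := mul_le_mul_of_nonneg_left h.count_lower (Nat.cast_nonneg (α := ℚ) g)
  rw [h.count] at h1
  have h2 : (7 * g : ℚ) ≤ 9 * 256 * (a : ℚ) ^ 2 * b ^ 2 := by linarith
  exact_mod_cast h2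

theorem Rel.order_coeff_lower (h : Rel g a b X Y Z) :
    18 * ((X : ℚ) - 1) ^ 2 ≤ 25 * ((X : ℚ) * ((X : ℚ) + 1)) := by
  have hX := h.hX
  rcases le_total 0 X with hW | hW
  · rw [abs_of_nonneg hW] at hX
    have h' : (9 : ℚ) ≤ X := by exact_mod_cast hX
    nlinarith
  · rw [abs_of_nonpos hW] at hX
    have h' : (X : ℚ) ≤ -9 := by exact_mod_cast (by omega : X ≤ -9)
    nlinarith [mul_nonneg (by linarith : (0 : ℚ) ≤ -9 - X) (by linarith : (0 : ℚ) ≤ -(7 * X) - 2)]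

/-- One side trivial: only `A₇` remains. -/
theorem Rel.order_eq (h : Rel g 1 b X Y Z) (hg : 0 < g) (hb : Odd b) (hb1 : b ≠ 1)
    (hodd : Odd X ∧ Odd Y ∧ Odd Z) : g = 2520 := by
  have hX := h.hX
  have hX0 : (X : ℚ) ≠ 0 := by
    intro e; norm_cast at e; simp [e] at hX
  have hX1 : (X : ℚ) - 1 ≠ 0 := by
    intro e
    have : (X : ℚ) = 1 := by linarith
    norm_cast at this; simp [this] at hX
  have hXp : (X : ℚ) + 1 ≠ 0 := by
    intro e
    have e' : (X : ℚ) = ((-1 : ℤ) : ℚ) := by push_cast; linarith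
    norm_cast at e'; simp [e'] at hX
  have hbq : (3 : ℚ) ≤ b := by
    obtain ⟨k, rfl⟩ := hb
    exact_mod_cast (by omega : 3 ≤ 2 * k + 1)
  have hgq : (0 : ℚ) < g := by exact_mod_cast hg
  have hord := h.order
  have hcnt := h.count
  push_cast at hord hcnt
  set c2 := 1 + 1 / (X : ℚ) + 1 / (Y : ℚ) + 1 / (Z : ℚ) with hc2
  -- `c₁ c₂ = 4 b / (1 + b)²`
  have key : c2 * ((X : ℚ) * ((X : ℚ) + 1)) * (1 + (b : ℚ)) ^ 2 =
      4 * b * ((X : ℚ) - 1) ^ 2 := by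
    refine mul_left_cancel₀ (mul_ne_zero hgq.ne'
      (mul_ne_zero (by norm_num : (64 : ℚ) ≠ 0) (by linarith : (b : ℚ) ≠ 0))) ?_
    linear_combination (-(g : ℚ) * c2) * hord + (g : ℚ) * ((X : ℚ) - 1) ^ 2 * hcnt
  have hb5 : b = 3 := by
    by_contra hne
    have hb' : (5 : ℚ) ≤ b := by
      obtain ⟨k, rfl⟩ := hb
      exact_mod_cast (by omega : 5 ≤ 2 * k + 1)
    have h1 := h.order_coeff_lower
    have h2 := h.count_lower
    rw [← hc2] at h2
    have h3 : (7 / 9 : ℚ) * (18 / 25 * ((X : ℚ) - 1) ^ 2) * (1 + (b : ℚ)) ^ 2 ≤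
        4 * b * ((X : ℚ) - 1) ^ 2 := by
      rw [← key]
      refine mul_le_mul_of_nonneg_right (mul_le_mul h2 (by linarith) ?_ (by linarith)) (sq_nonneg _)
      exact mul_nonneg (by norm_num) (sq_nonneg _)
    have h4 : (0 : ℚ) < ((X : ℚ) - 1) ^ 2 := by positivity
    have h5 : (14 / 25 : ℚ) * (1 + (b : ℚ)) ^ 2 ≤ 4 * b := by
      refine le_of_mul_le_mul_right ?_ h4
      linarith
    nlinarith
  subst hb5
  have hsum := h.sum
  have hY0 : (Y : ℚ) ≠ 0 := by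
    intro e; norm_cast at e; have := h.hY; simp [e] at this
  have hZ0 : (Z : ℚ) ≠ 0 := by
    intro e; norm_cast at e; have := h.hZ; simp [e] at this
  push_cast at key
  rw [hc2] at key
  field_simp at key
  have hsq : ((X : ℚ) + Y + Z) = -1 := by exact_mod_cast hsum
  have hQ : (Y : ℚ) * Z * ((X : ℚ) ^ 2 + 14 * X + 1) = 4 * X * ((X : ℚ) + 1) ^ 2 := by
    refine mul_left_cancel₀ (by norm_num : (4 : ℚ) ≠ 0) ?_
    linear_combination key - 16 * X * ((X : ℚ) + 1) * hsq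
  have hQ' : Y * Z * (X ^ 2 + 14 * X + 1) = 4 * X * (X + 1) ^ 2 := by exact_mod_cast hQ
  have h48 : (X ^ 2 + 14 * X + 1) ∣ 48 := by
    have h1 : (X ^ 2 + 14 * X + 1) ∣ 4 * X * (X + 1) ^ 2 := hQ' ▸ dvd_mul_left _ _
    have h2 : (X ^ 2 + 14 * X + 1) ∣ 48 * X ^ 2 := by
      have h2 := dvd_sub (dvd_mul_left (X ^ 2 + 14 * X + 1) (4 * X)) h1
      rwa [show 4 * X * (X ^ 2 + 14 * X + 1) - 4 * X * (X + 1) ^ 2 = 48 * X ^ 2 by ring] at h2
    have hcop : IsCoprime (X ^ 2 + 14 * X + 1) X := ⟨1, -(X + 14), by ring⟩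
    exact hcop.pow_right.dvd_of_dvd_mul_right h2
  obtain ⟨oX, oY, oZ⟩ := hodd
  have hle : |X ^ 2 + 14 * X + 1| ≤ 48 := Int.le_of_dvd (by norm_num) ((abs_dvd _ _).2 h48)
  rw [abs_le] at hle
  have hXlo : -16 ≤ X := by nlinarith
  have hXhi : X ≤ 2 := by nlinarith
  rcases le_total 0 X with hW | hW
  · rw [abs_of_nonneg hW] at hX; omega
  rw [abs_of_nonpos hW] at hX
  obtain ⟨k, rfl⟩ := oX
  have hk : k = -5 ∨ k = -6 ∨ k = -7 ∨ k = -8 := by omega
  rcases hk with rfl | rfl | rfl | rfl <;> norm_num at h48 <;>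
    norm_num at hQ' hsum hord
  · exfalso
    nlinarith [sq_nonneg (Y - Z), show Y + Z = 12 by linarith]
  · exact_mod_cast (by linarith : (g : ℚ) = 2520)

end CfsgLib.SelfCentFour
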