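import Cfsg.Agent.Lib.SelfCentFour.Sig

/-!
# Both parts non-trivial: the counting contradiction
-/

set_option autoImplicit false
set_option linter.unusedSectionVars false
set_option linter.style.haveILetI false

namespace CfsgLib.SelfCentFour

open Cfsg CfsgLib CfsgLib.Involutions

universe u

variable {G : Type u} [Group G] [Finite G] {P : Sylow 2 G} {d : DihData P 3}
  (hC : IsSelfCent d) (hall : ∀ x : G, orderOf x = 2 → IsConj d.J x)
  (hA : fixPart d ≠ ⊥) (hB : fixPart (swap d) ≠ ⊥)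
include hC hall hA hB

theorem hA_swap : fixPart (swap (swap d)) ≠ ⊥ := by
  intro h
  obtain ⟨a0, ha0, ha01⟩ := (fixPart d).bot_or_exists_ne_one.resolve_left hA
  refine ha01 ?_
  have hmem : a0 ∈ fixPart (swap (swap d)) := by
    rw [mem_fixPart, swap_O, swap_O, swap_τ, swap_σ, swap_τ,
      show d.σ * (d.σ * d.τ) = d.J * d.τ by rw [← mul_assoc, σ_sq_mul]]
    exact ⟨fixPart_le d ha0, by
      rw [← mul_assoc, J_comm_O d (fixPart_le d ha0), mul_assoc, ((mem_fixPart d).1 ha0).2,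
        mul_assoc]⟩
  rwa [h, Subgroup.mem_bot] at hmem

/-- Four parts lie independently in the subgroup. -/
theorem card_sigPart_ge :
    Nat.card (fixPart d) * Nat.card (fixPart (swap d)) ^ 3 ≤ Nat.card (sigPart d) := by
  haveI := Fintype.ofFinite G
  obtain ⟨g, g1, g2, g3, gA⟩ := exists_three hC hall
  have gi3 : g⁻¹ * d.J * g⁻¹⁻¹ = d.J * d.τ := by
    rw [show g⁻¹ * d.J * g⁻¹⁻¹ = g⁻¹ * (g * (d.J * d.τ) * g⁻¹) * g by rw [g3, inv_inv]]
    group
  have gi2 : g⁻¹ * (d.J * d.τ) * g⁻¹⁻¹ = d.τ := by rw [← g2]; group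
  have gi1 : g⁻¹ * d.τ * g⁻¹⁻¹ = d.J := by rw [← g1]; group
  have hJinv : d.J⁻¹ = d.J := inv_eq_self d.orderOf_J
  have hτinv : d.τ⁻¹ = d.τ := inv_eq_self d.ordτ
  have hb' : ∀ {b : G}, b ∈ fixPart (swap d) → d.J * d.τ * b * (d.J * d.τ)⁻¹ = b⁻¹ := by
    intro b hb
    obtain ⟨hbO, hbτ⟩ := (mem_fixPart_swap hC).1 hb
    rw [show d.J * d.τ * b * (d.J * d.τ)⁻¹ = d.J * (d.τ * b * d.τ⁻¹) * d.J⁻¹ by group, hbτ,
      J_conj_O (inv_mem hbO)]
  have hbτ : ∀ {b : G}, b ∈ fixPart (swap d) → d.τ * b * d.τ⁻¹ = b⁻¹ := fun hb =>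
    ((mem_fixPart_swap hC).1 hb).2
  have hbJ : ∀ {b : G}, b ∈ fixPart (swap d) → d.J * b * d.J⁻¹ = b := fun hb =>
    J_conj_O ((mem_fixPart_swap hC).1 hb).1
  -- membership
  have mO : ∀ {x : G}, x ∈ d.O → x ∈ sigPart d := fun {x} hx =>
    odd_cent_mem hC hall hA hB (Or.inl rfl) (odd_of_mem_O d hx) (J_comm_O d hx)
  have mg : ∀ {x : G}, x ∈ d.O → g * x * g⁻¹ ∈ sigPart d := fun {x} hx =>
    three_normalizes hC hall hA hB g1 g2 g3 (mO hx)
  have mgi : ∀ {x : G}, x ∈ d.O → g⁻¹ * x * g⁻¹⁻¹ ∈ sigPart d := fun {x} hx =>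
    odd_cent_mem hC hall hA hB (Or.inr (Or.inr rfl)) (odd_conj (odd_of_mem_O d hx)) (by
      have := comm_conj (g := g⁻¹) (J_comm_O d hx)
      rwa [gi3] at this)
  haveI : IsMulCommutative (sigPart d) :=
    ⟨⟨fun a b => Subtype.ext (sigPart_comm hC hall hA hB a.2 b.2)⟩⟩
  have hBO : ∀ {b : G}, b ∈ fixPart (swap d) → b ∈ d.O := fun hb =>
    ((mem_fixPart_swap hC).1 hb).1
  let f : fixPart d × fixPart (swap d) × fixPart (swap d) × fixPart (swap d) → sigPart d :=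
    fun q => ⟨(q.1 : G) * q.2.1 * (g * q.2.2.1 * g⁻¹) * (g⁻¹ * q.2.2.2 * g⁻¹⁻¹),
      mul_mem (mul_mem (mul_mem (mO (fixPart_le d q.1.2)) (mO (hBO q.2.1.2))) (mg (hBO q.2.2.1.2)))
        (mgi (hBO q.2.2.2.2))⟩
  have hfix : ∀ v : G, ∀ a b c e : G, v * (a * b * c * e) * v⁻¹ =
      v * a * v⁻¹ * (v * b * v⁻¹) * (v * c * v⁻¹) * (v * e * v⁻¹) := fun v a b c e => by group
  have hact : ∀ (a b c e : G), a ∈ fixPart d → b ∈ fixPart (swap d) → c ∈ fixPart (swap d) →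
      e ∈ fixPart (swap d) →
      (d.τ * (a * b * (g * c * g⁻¹) * (g⁻¹ * e * g⁻¹⁻¹)) * d.τ⁻¹ =
        a * b⁻¹ * (g * c * g⁻¹) * (g⁻¹ * e * g⁻¹⁻¹)⁻¹) ∧
      (d.J * (a * b * (g * c * g⁻¹) * (g⁻¹ * e * g⁻¹⁻¹)) * d.J⁻¹ =
        a * b * (g * c * g⁻¹)⁻¹ * (g⁻¹ * e * g⁻¹⁻¹)⁻¹) := by
    intro a b c e ha hb hc he
    constructor
    · rw [hfix, τ_conj_fix ha, hbτ hb]
      have q1 : d.τ * (g * c * g⁻¹) * d.τ⁻¹ = g * c * g⁻¹ := by
        rw [← g1, show g * d.J * g⁻¹ * (g * c * g⁻¹) * (g * d.J * g⁻¹)⁻¹ =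
          g * (d.J * c * d.J⁻¹) * g⁻¹ by group, hbJ hc]
      have q2 : d.τ * (g⁻¹ * e * g⁻¹⁻¹) * d.τ⁻¹ = (g⁻¹ * e * g⁻¹⁻¹)⁻¹ := by
        rw [← gi2, show g⁻¹ * (d.J * d.τ) * g⁻¹⁻¹ * (g⁻¹ * e * g⁻¹⁻¹) *
          (g⁻¹ * (d.J * d.τ) * g⁻¹⁻¹)⁻¹ = g⁻¹ * (d.J * d.τ * e * (d.J * d.τ)⁻¹) * g⁻¹⁻¹ by group,
          hb' he]
        group
      rw [q1, q2]
    · rw [hfix, J_conj_O (fixPart_le d ha), hbJ hb]
      have q1 : d.J * (g * c * g⁻¹) * d.J⁻¹ = (g * c * g⁻¹)⁻¹ := by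
        rw [← g3, show g * (d.J * d.τ) * g⁻¹ * (g * c * g⁻¹) * (g * (d.J * d.τ) * g⁻¹)⁻¹ =
          g * (d.J * d.τ * c * (d.J * d.τ)⁻¹) * g⁻¹ by group, hb' hc]
        group
      have q2 : d.J * (g⁻¹ * e * g⁻¹⁻¹) * d.J⁻¹ = (g⁻¹ * e * g⁻¹⁻¹)⁻¹ := by
        rw [← gi1, show g⁻¹ * d.τ * g⁻¹⁻¹ * (g⁻¹ * e * g⁻¹⁻¹) * (g⁻¹ * d.τ * g⁻¹⁻¹)⁻¹ =
          g⁻¹ * (d.τ * e * d.τ⁻¹) * g⁻¹⁻¹ by group, hbτ he]
        group
      rw [q1, q2]
  have hinj : Function.Injective f := by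
    rintro ⟨a, b, c, e⟩ ⟨a', b', c', e'⟩ h
    have h0 := congrArg Subtype.val h
    simp only [f] at h0
    obtain ⟨t1, j1⟩ := hact a b c e a.2 b.2 c.2 e.2
    obtain ⟨t2, j2⟩ := hact a' b' c' e' a'.2 b'.2 c'.2 e'.2
    rw [h0, t2] at t1
    rw [h0, j2] at j1
    -- move to the abelian group
    obtain ⟨Aa, hAa⟩ : ∃ x : sigPart d, (x : G) = a := ⟨⟨a, mO (fixPart_le d a.2)⟩, rfl⟩
    obtain ⟨Aa', hAa'⟩ : ∃ x : sigPart d, (x : G) = a' := ⟨⟨a', mO (fixPart_le d a'.2)⟩, rfl⟩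
    obtain ⟨Bb, hBb⟩ : ∃ x : sigPart d, (x : G) = b := ⟨⟨b, mO (hBO b.2)⟩, rfl⟩
    obtain ⟨Bb', hBb'⟩ : ∃ x : sigPart d, (x : G) = b' := ⟨⟨b', mO (hBO b'.2)⟩, rfl⟩
    obtain ⟨Cc, hCc⟩ : ∃ x : sigPart d, (x : G) = g * c * g⁻¹ := ⟨⟨_, mg (hBO c.2)⟩, rfl⟩
    obtain ⟨Cc', hCc'⟩ : ∃ x : sigPart d, (x : G) = g * c' * g⁻¹ := ⟨⟨_, mg (hBO c'.2)⟩, rfl⟩
    obtain ⟨Ee, hEe⟩ : ∃ x : sigPart d, (x : G) = g⁻¹ * e * g⁻¹⁻¹ := ⟨⟨_, mgi (hBO e.2)⟩, rfl⟩
    obtain ⟨Ee', hEe'⟩ : ∃ x : sigPart d, (x : G) = g⁻¹ * e' * g⁻¹⁻¹ :=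
      ⟨⟨_, mgi (hBO e'.2)⟩, rfl⟩
    rw [← hAa, ← hBb, ← hCc, ← hEe, ← hAa', ← hBb', ← hCc', ← hEe'] at h0 t1 j1
    have e0 : Aa * Bb * Cc * Ee = Aa' * Bb' * Cc' * Ee' := Subtype.ext h0
    have eτ : Aa' * Bb'⁻¹ * Cc' * Ee'⁻¹ = Aa * Bb⁻¹ * Cc * Ee⁻¹ := Subtype.ext t1
    have eJ : Aa' * Bb' * Cc'⁻¹ * Ee'⁻¹ = Aa * Bb * Cc⁻¹ * Ee⁻¹ := Subtype.ext j1
    have cc : ∀ x y : sigPart d, x * y = y * x := fun x y => IsMulCommutative.is_comm.comm x y
    letI : CommGroup (sigPart d) :=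
      { (inferInstance : Group (sigPart d)) with mul_comm := cc }
    have eτJ := congrArg₂ (· * ·) eτ eJ
    have hodd : ∀ x : sigPart d, x ^ 2 = 1 → x = 1 := fun x hx =>
      eq_one_of_inv_eq ((odd_card_sigPart hC hall hA hB).of_dvd_nat (orderOf_dvd_natCard x))
        (inv_eq_of_mul_eq_one_right (by rw [← pow_two, hx]))
    have hac : Aa * Cc = Aa' * Cc' := by
      refine mul_inv_eq_one.1 (hodd _ ?_)
      have h1 : (Aa * Bb * Cc * Ee) * (Aa * Bb⁻¹ * Cc * Ee⁻¹) *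
          ((Aa' * Bb' * Cc' * Ee') * (Aa' * Bb'⁻¹ * Cc' * Ee'⁻¹))⁻¹ = 1 := by
        rw [e0, eτ, mul_inv_cancel]
      rw [← h1, pow_two]
      simp [mul_comm, mul_left_comm, mul_assoc]
    have hab : Aa * Bb = Aa' * Bb' := by
      refine mul_inv_eq_one.1 (hodd _ ?_)
      have h1 : (Aa * Bb * Cc * Ee) * (Aa * Bb * Cc⁻¹ * Ee⁻¹) *
          ((Aa' * Bb' * Cc' * Ee') * (Aa' * Bb' * Cc'⁻¹ * Ee'⁻¹))⁻¹ = 1 := by
        rw [e0, eJ, mul_inv_cancel]
      rw [← h1, pow_two]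
      simp [mul_comm, mul_left_comm, mul_assoc]
    have haa' : Aa = Aa' := by
      have : ∀ x ∈ fixPart d, ∀ y ∈ fixPart (swap d), ∀ x' ∈ fixPart d, ∀ y' ∈ fixPart (swap d),
          x * y = x' * y' → x = x' := by
        intro x hx y hy x' hx' y' hy' he
        have hq : x'⁻¹ * x = y' * y⁻¹ := by
          rw [eq_mul_inv_iff_mul_eq, mul_assoc, he, inv_mul_cancel_left]
        exact (inv_mul_eq_one.1 (fixPart_inter hC (mul_mem (inv_mem hx') hx)
          (hq ▸ mul_mem hy' (inv_mem hy)))).symm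
      refine Subtype.ext (hAa.trans (Eq.trans ?_ hAa'.symm))
      refine this a a.2 b b.2 a' a'.2 b' b'.2 ?_
      rw [← hAa, ← hBb, ← hAa', ← hBb']
      exact congrArg Subtype.val hab
    subst haa'
    have hbb' := mul_left_cancel hab
    have hcc' := mul_left_cancel hac
    subst hbb'
    subst hcc'
    have hee' := mul_left_cancel e0
    subst hee'
    refine Prod.ext (Subtype.ext (hAa.symm.trans hAa')) (Prod.ext (Subtype.ext (hBb.symm.trans hBb'))
      (Prod.ext (Subtype.ext ?_) (Subtype.ext ?_)))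
    · exact mul_left_cancel (mul_right_cancel (hCc.symm.trans hCc'))
    · exact mul_left_cancel (mul_right_cancel (hEe.symm.trans hEe'))
  have h := Nat.card_le_card_of_injective f hinj
  simpa only [Nat.card_prod, pow_succ, pow_zero, one_mul, mul_assoc] using h

theorem card_sigPart_sq :
    (Nat.card (fixPart d) * Nat.card (fixPart (swap d))) ^ 2 ≤ Nat.card (sigPart d) := by
  have h1 := card_sigPart_ge hC hall hA hB
  have h2 := card_sigPart_ge (d := swap d) (isSelfCent_swap hC) hall hB (hA_swap hC hall hA hB)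
  have hA2 : fixPart (swap (swap d)) = fixPart d := by
    ext x
    rw [mem_fixPart, mem_fixPart, swap_O, swap_O, swap_τ, swap_σ, swap_τ,
      show d.σ * (d.σ * d.τ) = d.J * d.τ by rw [← mul_assoc, σ_sq_mul]]
    refine and_congr_right fun hx => ?_
    rw [← mul_assoc, J_comm_O d hx, mul_assoc, mul_assoc]
    exact mul_right_inj d.J
  rw [hA2, sigPart_swap] at h2
  obtain ⟨a, ha⟩ : ∃ a, a = Nat.card (fixPart d) := ⟨_, rfl⟩
  obtain ⟨b, hb⟩ : ∃ b, b = Nat.card (fixPart (swap d)) := ⟨_, rfl⟩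
  rw [← ha, ← hb] at h1 h2 ⊢
  rcases le_total a b with hle | hle
  · calc (a * b) ^ 2 = a * (b ^ 2 * a) := by ring
      _ ≤ a * (b ^ 2 * b) := by gcongr
      _ = a * b ^ 3 := by ring
      _ ≤ _ := h1
  · calc (a * b) ^ 2 = b * (a ^ 2 * b) := by ring
      _ ≤ b * (a ^ 2 * a) := by gcongr
      _ = b * a ^ 3 := by ring
      _ ≤ _ := h2

theorem odd_cent_le {v : G} (hv : orderOf v = 2) (R : Subgroup G)
    (hR : ∀ x ∈ R, Odd (orderOf x) ∧ x * v = v * x) : Nat.card R ≤ Nat.card d.O := by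
  obtain ⟨g, hg⟩ := isConj_iff.1 (hall v hv).symm
  refine Nat.card_le_card_of_injective
    (fun x : R => (⟨g * (x : G) * g⁻¹, mem_O_iff.2 ⟨odd_conj (hR x x.2).1,
      hg ▸ comm_conj (hR x x.2).2⟩⟩ : d.O)) fun x y h => ?_
  exact Subtype.ext (mul_left_cancel (mul_right_cancel (congrArg Subtype.val h)))

theorem H_le_normalizer : d.H ≤ Subgroup.normalizer (sigPart d : Set G) := by
  intro h hh
  rw [Subgroup.mem_normalizer_iff]
  refine fun z => ⟨fun hz => sigPart_conj_H hC hall hA hB hh hz, fun hz => ?_⟩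
  have := sigPart_conj_H hC hall hA hB (inv_mem hh) hz
  rwa [show h⁻¹ * (h * z * h⁻¹) * h⁻¹⁻¹ = z by group] at this

theorem isConj_in_normalizer {x : G} (hxM : x ∈ Subgroup.normalizer (sigPart d : Set G))
    (hx : orderOf x = 2) :
    ∃ m ∈ Subgroup.normalizer (sigPart d : Set G), m * x * m⁻¹ = d.J := by
  haveI : Fact (Nat.Prime 2) := ⟨Nat.prime_two⟩
  haveI := Fintype.ofFinite G
  set M := Subgroup.normalizer (sigPart d : Set G) with hM
  have hPM : (P : Subgroup G) ≤ M := d.P_le_H.trans (H_le_normalizer hC hall hA hB)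
  obtain ⟨c, hc⟩ := exists_conj_mem_of_involution (P.subtype hPM)
    (t := (⟨x, hxM⟩ : M)) (by rw [Subgroup.orderOf_mk]; exact hx)
  have hcP : (c : G) * x * (c : G)⁻¹ ∈ (P : Subgroup G) := hc
  have hnorm : ∀ g : G, (∀ y ∈ sigPart d, g * y * g⁻¹ ∈ sigPart d) → g ∈ M := by
    intro g hg
    rw [hM, Subgroup.mem_normalizer_iff]
    refine fun z => ⟨fun hz => hg z hz, fun hz => ?_⟩
    let F : sigPart d → sigPart d := fun y => ⟨g * y * g⁻¹, hg y y.2⟩
    have hF : Function.Injective F := fun a b h =>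
      Subtype.ext (mul_left_cancel (mul_right_cancel (congrArg Subtype.val h)))
    obtain ⟨y, hy⟩ := Finite.surjective_of_injective hF ⟨_, hz⟩
    rw [← mul_left_cancel (mul_right_cancel (congrArg Subtype.val hy))]
    exact y.2
  obtain ⟨g, g1, g2, g3, -⟩ := exists_three hC hall
  obtain ⟨h, k1, k2, k3, -⟩ := exists_three (d := swap d) (isSelfCent_swap hC) hall
  have hgM : g ∈ M := hnorm g fun y hy => three_normalizes hC hall hA hB g1 g2 g3 hy
  have hhM : h ∈ M := hnorm h fun y hy => by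
    have := three_normalizes (d := swap d) (isSelfCent_swap hC) hall hB (hA_swap hC hall hA hB)
      k1 k2 k3 (by rw [sigPart_swap]; exact hy)
    rwa [sigPart_swap] at this
  rcases d.involution_cases hcP ((orderOf_conj (c : G) x).trans hx) with e | ⟨j, e⟩
  · exact ⟨c, c.2, e⟩
  · rcases Nat.even_or_odd' j with ⟨m, rfl | rfl⟩
    · have e2 : d.σ ^ m * d.τ * (d.σ ^ m)⁻¹ = d.σ ^ (2 * m) * d.τ := by
        have := d.conj_refl m 0
        rwa [pow_zero, one_mul, add_zero] at this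
      refine ⟨g⁻¹ * (d.σ ^ m)⁻¹ * c, mul_mem (mul_mem (inv_mem hgM)
        (inv_mem (pow_mem (hPM d.hσ) m))) c.2, ?_⟩
      rw [show g⁻¹ * (d.σ ^ m)⁻¹ * c * x * (g⁻¹ * (d.σ ^ m)⁻¹ * c)⁻¹ =
        g⁻¹ * (d.σ ^ m)⁻¹ * ((c : G) * x * (c : G)⁻¹) * d.σ ^ m * g by group, e, ← e2, ← g1]
      group
    · have e2 : d.σ ^ m * (d.σ * d.τ) * (d.σ ^ m)⁻¹ = d.σ ^ (2 * m + 1) * d.τ := by
        have := d.conj_refl m 1
        rwa [pow_one] at this
      rw [swap_J, swap_τ] at k1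
      refine ⟨h⁻¹ * (d.σ ^ m)⁻¹ * c, mul_mem (mul_mem (inv_mem hhM)
        (inv_mem (pow_mem (hPM d.hσ) m))) c.2, ?_⟩
      rw [show h⁻¹ * (d.σ ^ m)⁻¹ * c * x * (h⁻¹ * (d.σ ^ m)⁻¹ * c)⁻¹ =
        h⁻¹ * (d.σ ^ m)⁻¹ * ((c : G) * x * (c : G)⁻¹) * d.σ ^ m * h by group, e, ← e2, ← k1]
      group

open scoped Classical in
theorem involutions_normalizer :
    5 * Nat.card (sigPart d) ≤ Nat.card d.O *
      Nat.card {x : G // x ∈ Subgroup.normalizer (sigPart d : Set G) ∧ orderOf x = 2} := by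
  haveI := Fintype.ofFinite G
  set R := sigPart d
  set M := Subgroup.normalizer (R : Set G)
  let five : Finset G :=
    (Finset.range 4).image (fun j => d.σ ^ j * d.τ) ∪ {d.J}
  have hfive : five.card = 5 := by
    rw [Finset.card_union_of_disjoint, Finset.card_image_of_injOn, Finset.card_range,
      Finset.card_singleton]
    · intro i hi j hj h
      simp only [Finset.coe_range, Set.mem_Iio] at hi hj
      exact pow_injOn_Iio_orderOf (by rw [orderOf_σ]; exact hi) (by rw [orderOf_σ]; exact hj)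
        (mul_right_cancel h)
    · rw [Finset.disjoint_singleton_right, Finset.mem_image]
      rintro ⟨j, -, hj⟩
      exact d.refl_not_mem j (hj ▸ Subgroup.npow_mem_zpowers d.σ _)
  have hfive' : ∀ p ∈ five, p ∈ (P : Subgroup G) ∧ orderOf p = 2 := by
    intro p hp
    rcases Finset.mem_union.1 hp with h | h
    · obtain ⟨j, -, rfl⟩ := Finset.mem_image.1 h
      exact ⟨mul_mem (pow_mem d.hσ j) d.hτ, d.orderOf_refl j⟩
    · rw [Finset.mem_singleton.1 h]
      exact ⟨d.J_mem, d.orderOf_J⟩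
  let Rf : Finset G := Finset.univ.filter (· ∈ R)
  let I : Finset G := Finset.univ.filter fun x => x ∈ M ∧ orderOf x = 2
  let φ : G × G → G := fun q => q.2 * q.1 * q.2⁻¹
  have hImg : ((five ×ˢ Rf).image φ) ⊆ I := by
    intro y hy
    obtain ⟨⟨p, r⟩, hq, rfl⟩ := Finset.mem_image.1 hy
    obtain ⟨hp, hr⟩ := Finset.mem_product.1 hq
    have hrR : r ∈ R := (Finset.mem_filter.1 hr).2
    refine Finset.mem_filter.2 ⟨Finset.mem_univ _, ?_, ?_⟩
    · exact mul_mem (mul_mem (Subgroup.le_normalizer hrR)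
        (H_le_normalizer hC hall hA hB (d.P_le_H (hfive' p hp).1)))
        (inv_mem (Subgroup.le_normalizer hrR))
    · rw [orderOf_conj]; exact (hfive' p hp).2
  have hPR : ∀ {x : G}, x ∈ (P : Subgroup G) → x ∈ R → x = 1 := fun {x} hxP hxR => by
    obtain ⟨k, hk⟩ := P.isPGroup'.exists_card_eq
    exact orderOf_eq_one_iff.1 (Nat.eq_one_of_dvd_coprimes
      ((Nat.coprime_two_left.2 ((mem_sigPart hC hall hA hB).1 hxR).1).pow_left k)
      (hk ▸ Subgroup.orderOf_dvd_natCard _ hxP) dvd_rfl)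
  have hfib : ∀ y ∈ (five ×ˢ Rf).image φ,
      ((five ×ˢ Rf).filter fun q => φ q = y).card ≤ Nat.card d.O := by
    intro y hy
    obtain ⟨⟨p, r⟩, hq, rfl⟩ := Finset.mem_image.1 hy
    obtain ⟨hp, hr⟩ := Finset.mem_product.1 hq
    have hrR : r ∈ R := (Finset.mem_filter.1 hr).2
    obtain ⟨hpP, hp2⟩ := hfive' p hp
    set C := R ⊓ Subgroup.centralizer ({p} : Set G)
    refine le_trans ?_ (odd_cent_le hC hall hA hB hp2 C fun x hx =>
      ⟨((mem_sigPart hC hall hA hB).1 hx.1).1, mem_centralizer_singleton.1 hx.2⟩)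
    rw [Nat.card_eq_fintype_card, ← Finset.card_univ, ← Finset.card_map (Function.Embedding.subtype _)]
    refine Finset.card_le_card_of_injOn (fun q => r⁻¹ * q.2) ?_ ?_
    · intro q hq'
      obtain ⟨hq1, hq2⟩ := Finset.mem_filter.1 (Finset.mem_coe.1 hq')
      obtain ⟨hp', hr'⟩ := Finset.mem_product.1 hq1
      have hrR' : q.2 ∈ R := (Finset.mem_filter.1 hr').2
      have hq2' : q.2 * q.1 * q.2⁻¹ = r * p * r⁻¹ := hq2
      obtain ⟨x, hx⟩ : ∃ x, x = r⁻¹ * q.2 := ⟨_, rfl⟩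
      have hxR : x ∈ R := hx ▸ mul_mem (inv_mem hrR) hrR'
      have hxp : x * q.1 * x⁻¹ = p := by
        rw [hx, show r⁻¹ * q.2 * q.1 * (r⁻¹ * q.2)⁻¹ = r⁻¹ * (q.2 * q.1 * q.2⁻¹) * r by group, hq2']
        group
      have hp'P := (hfive' q.1 hp').1
      have h1 : p * q.1⁻¹ = 1 := by
        refine hPR (mul_mem hpP (inv_mem hp'P)) ?_
        rw [← hxp, show x * q.1 * x⁻¹ * q.1⁻¹ = x * (q.1 * x⁻¹ * q.1⁻¹) by group]
        exact mul_mem hxR (sigPart_conj_H hC hall hA hB (d.P_le_H hp'P) (inv_mem hxR))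
      rw [← mul_inv_eq_one.1 h1] at hxp
      have : x ∈ C := ⟨hxR, mem_centralizer_singleton.2 (mul_inv_eq_iff_eq_mul.1 hxp)⟩
      simpa [← hx] using this
    · intro q hq' q' hq'' h
      obtain ⟨-, e1⟩ := Finset.mem_filter.1 (Finset.mem_coe.1 hq')
      obtain ⟨-, e2⟩ := Finset.mem_filter.1 (Finset.mem_coe.1 hq'')
      have h2 : q.2 = q'.2 := mul_left_cancel h
      refine Prod.ext ?_ h2
      have : q.2 * q.1 * q.2⁻¹ = q'.2 * q'.1 * q'.2⁻¹ := e1.trans e2.symm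
      rw [h2] at this
      exact mul_left_cancel (mul_right_cancel this)
  have h1 := Finset.card_le_mul_card_image (f := φ) (five ×ˢ Rf) (Nat.card d.O) hfib
  have h2 := Finset.card_le_card hImg
  have hI : Nat.card {x : G // x ∈ M ∧ orderOf x = 2} = I.card := by
    rw [Nat.card_eq_fintype_card, Fintype.card_subtype]
  have hRf : Rf.card = Nat.card R := by
    rw [Nat.card_eq_fintype_card, Fintype.card_subtype]
  rw [hI]
  rw [Finset.card_product, hfive, hRf] at h1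
  exact h1.trans (Nat.mul_le_mul_left _ h2)

/-- The normalizer of the subgroup is large. -/
theorem card_normalizer_ge :
    40 * Nat.card (sigPart d) ≤ Nat.card (Subgroup.normalizer (sigPart d : Set G)) := by
  haveI := Fintype.ofFinite G
  set M := Subgroup.normalizer (sigPart d : Set G) with hM
  have hJM : d.J ∈ M := H_le_normalizer hC hall hA hB d.J_mem_H
  obtain ⟨J', hJ'⟩ : ∃ J' : M, (J' : G) = d.J := ⟨⟨d.J, hJM⟩, rfl⟩
  have e1 : Nat.card {x : G // x ∈ M ∧ orderOf x = 2} = Nat.card {y : M // IsConj J' y} := by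
    refine Nat.card_congr
      { toFun := fun x => ⟨⟨x.1, x.2.1⟩, by
          obtain ⟨m, hm, he⟩ := isConj_in_normalizer hC hall hA hB x.2.1 x.2.2
          exact (isConj_iff.2 ⟨⟨m, hm⟩, Subtype.ext (he.trans hJ'.symm)⟩ :
            IsConj (⟨x.1, x.2.1⟩ : M) J').symm⟩
        invFun := fun y => ⟨y.1, y.1.2, by
          obtain ⟨m, hm⟩ := isConj_iff.1 y.2
          rw [← hm, Subgroup.orderOf_coe, orderOf_conj, ← Subgroup.orderOf_coe, hJ', d.orderOf_J]⟩
        left_inv := fun x => rfl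
        right_inv := fun y => rfl }
  have e2 : Nat.card (Subgroup.centralizer ({J'} : Set M)) = Nat.card d.H := by
    have : Subgroup.centralizer ({J'} : Set M) = d.H.subgroupOf M := by
      ext y
      rw [Subgroup.mem_subgroupOf, mem_centralizer_singleton, DihData.H, mem_centralizer_singleton,
        ← hJ']
      exact ⟨fun h => congrArg Subtype.val h, fun h => Subtype.ext h⟩
    rw [this]
    exact Nat.card_congr (Subgroup.subgroupOfEquivOfLe (H_le_normalizer hC hall hA hB)).toEquiv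
  have h := involutions_normalizer hC hall hA hB
  rw [← hM, e1, CharTheory.card_isConj] at h
  have := (Subgroup.centralizer ({J'} : Set M)).card_mul_index
  rw [e2, card_H_eq] at this
  rw [← this]
  calc 40 * Nat.card (sigPart d) = 8 * (5 * Nat.card (sigPart d)) := by ring
    _ ≤ 8 * (Nat.card d.O * _) := Nat.mul_le_mul_left _ h
    _ = _ := by ring

/-- The normalizer has index at least nine in a simple group. -/
theorem nine_le_index [IsSimpleGroup G] :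
    9 ≤ (Subgroup.normalizer (sigPart d : Set G)).index := by
  classical
  set M := Subgroup.normalizer (sigPart d : Set G) with hM
  have hHM := H_le_normalizer hC hall hA hB
  obtain ⟨g, hg⟩ : ∃ g : G, g ∉ M := by
    by_contra hcon
    push Not at hcon
    have hn : (sigPart d).Normal := Subgroup.normalizer_eq_top_iff.1 (eq_top_iff.2 fun x _ => hcon x)
    rcases hn.eq_bot_or_eq_top with h | h
    · obtain ⟨a0, ha0, ha01⟩ := (fixPart d).bot_or_exists_ne_one.resolve_left hA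
      refine ha01 (Subgroup.mem_bot.1 (h ▸ ?_))
      exact odd_cent_mem hC hall hA hB (Or.inl rfl) (odd_of_mem_O d (fixPart_le d ha0))
        (J_comm_O d (fixPart_le d ha0))
    · have := ((mem_sigPart hC hall hA hB).1 (h ▸ Subgroup.mem_top d.J : d.J ∈ sigPart d)).1
      rw [d.orderOf_J] at this
      exact absurd this (by decide)
  have key : ∀ p ∈ (P : Subgroup G), g⁻¹ * p * g ∈ M → p = 1 := by
    intro p hp hpM
    by_contra hp1
    haveI : Fact (Nat.Prime 2) := ⟨Nat.prime_two⟩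
    obtain ⟨k, hk⟩ : ∃ k : ℕ, orderOf (p ^ k) = 2 := by
      obtain ⟨n, hn⟩ := IsPGroup.iff_orderOf.1 P.isPGroup' ⟨p, hp⟩
      rw [Subgroup.orderOf_mk] at hn
      refine ⟨orderOf p / 2, orderOf_half ?_ (orderOf_pos p).ne'⟩
      rcases n with _ | n
      · exact absurd (orderOf_eq_one_iff.1 (by rw [hn, pow_zero])) hp1
      · rw [hn, pow_succ]; exact ⟨2 ^ n, by ring⟩
    have hqM : g⁻¹ * p ^ k * g⁻¹⁻¹ ∈ M := by
      rw [← conj_pow, inv_inv]
      exact pow_mem hpM k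
    obtain ⟨m, hm, he⟩ := isConj_in_normalizer hC hall hA hB hqM (by rw [orderOf_conj, hk])
    obtain ⟨c, hc, he'⟩ := isConj_in_normalizer hC hall hA hB
      (hHM (d.P_le_H (pow_mem hp k))) hk
    have hmc : m * g⁻¹ * c⁻¹ ∈ d.H := by
      refine mem_centralizer_singleton.2 (mul_inv_eq_iff_eq_mul.1 ?_)
      calc m * g⁻¹ * c⁻¹ * d.J * (m * g⁻¹ * c⁻¹)⁻¹
          = m * g⁻¹ * c⁻¹ * (c * p ^ k * c⁻¹) * (m * g⁻¹ * c⁻¹)⁻¹ := by rw [he']
        _ = m * (g⁻¹ * p ^ k * g⁻¹⁻¹) * m⁻¹ := by group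
        _ = d.J := he
    apply hg
    have h2 := mul_mem (mul_mem (inv_mem hm) (hHM hmc)) hc
    rw [show m⁻¹ * (m * g⁻¹ * c⁻¹) * c = g⁻¹ by group] at h2
    exact (M.inv_mem_iff).1 h2
  let F : Option (P : Subgroup G) → G ⧸ M := fun o =>
    o.elim (QuotientGroup.mk 1) fun p => QuotientGroup.mk ((p : G) * g)
  have hF : Function.Injective F := by
    rintro (_ | p) (_ | q) h
    · rfl
    · exfalso
      have h' := QuotientGroup.eq.1 h
      rw [inv_one, one_mul] at h'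
      exact hg ((M.mul_mem_cancel_left (hHM (d.P_le_H q.2))).1 h')
    · exfalso
      have h' := QuotientGroup.eq.1 h.symm
      rw [inv_one, one_mul] at h'
      exact hg ((M.mul_mem_cancel_left (hHM (d.P_le_H p.2))).1 h')
    · have h' := QuotientGroup.eq.1 h
      rw [show ((p : G) * g)⁻¹ * ((q : G) * g) = g⁻¹ * ((p : G)⁻¹ * q) * g by group] at h'
      exact congrArg some (Subtype.ext (inv_mul_eq_one.1 (key _ (mul_mem (inv_mem p.2) q.2) h')))
  have h := Nat.card_le_card_of_injective F hF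
  rwa [Finite.card_option, d.card_P] at h

/-- Both parts cannot be non-trivial when the order is small. -/
theorem false_of_both [IsSimpleGroup G]
    (hle : 7 * Nat.card G ≤
      9 * 256 * Nat.card (fixPart d) ^ 2 * Nat.card (fixPart (swap d)) ^ 2) : False := by
  have h1 := card_sigPart_sq hC hall hA hB
  have h2 := card_normalizer_ge hC hall hA hB
  have h3 := nine_le_index hC hall hA hB
  set M := Subgroup.normalizer (sigPart d : Set G)
  have h4 := M.card_mul_index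
  obtain ⟨q, hq⟩ : ∃ q, q = (Nat.card (fixPart d) * Nat.card (fixPart (swap d))) ^ 2 := ⟨_, rfl⟩
  have hq0 : 0 < q := by rw [hq]; exact pow_pos (Nat.mul_pos Nat.card_pos Nat.card_pos) 2
  have hle' : 7 * Nat.card G ≤ 9 * 256 * q := by rw [hq, mul_pow, ← mul_assoc]; exact hle
  rw [← hq] at h1
  have h5 : 360 * q ≤ Nat.card G := by
    rw [← h4]
    calc 360 * q = (40 * q) * 9 := by ring
      _ ≤ Nat.card M * M.index := Nat.mul_le_mul (le_trans (Nat.mul_le_mul_left 40 h1) h2) h3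
  omega

end CfsgLib.SelfCentFour
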