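import Cfsg.Agent.Lib.SelfCentFour.Twist

/-!
# Pairs of involutions of one class with product near the central involution
-/

set_option autoImplicit false
set_option linter.unusedSectionVars false
set_option linter.style.haveILetI false

open scoped ComplexConjugate
open Cfsg CfsgLib.CharTheory CfsgLib.Involutions

namespace CfsgLib.SelfCentFour

universe u

variable {G : Type u} [Group G] [Fintype G] {P : Sylow 2 G} {d : DihData P 3}

section

variable (X : Subgroup G) (hX : X.index = 2) (hσ : d.σ ∉ X) (hτ : d.τ ∈ X)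
  (h1 : IsConj d.J d.τ) (h2 : IsConj d.J (d.J * d.τ))
include hX hσ hτ h1 h2

theorem J_mul_refl_cases {r : G} (hr : r = d.τ ∨ r = d.J * d.τ) :
    r ∈ (P : Subgroup G) ∧ orderOf r = 2 ∧ orderOf (d.J * r) = 2 ∧
      IsConj d.J r ∧ IsConj d.J (d.J * r) ∧ d.τ * d.J = d.J * d.τ := by
  refine ⟨?_, ?_, ?_, ?_, ?_, τ_comm_J⟩
  all_goals rcases hr with rfl | rfl
  · exact d.hτ
  · exact mul_mem d.J_mem d.hτ
  · exact d.ordτ
  · exact d.orderOf_refl 2
  · exact d.orderOf_refl 2
  · rw [← mul_assoc, mul_self_eq_one d.orderOf_J, one_mul]; exact d.ordτ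
  · exact h1
  · exact h2
  · exact h2
  · rw [← mul_assoc, mul_self_eq_one d.orderOf_J, one_mul]; exact h1

/-- Both reflections of `X` invert the second part. -/
theorem inv_of_refl (hC : IsSelfCent d) {r o : G} (hr : r = d.τ ∨ r = d.J * d.τ)
    (ho : o ∈ fixPart (swap d)) : r * o * r⁻¹ = o⁻¹ := by
  obtain ⟨hoO, he⟩ := (mem_fixPart_swap hC).1 ho
  rcases hr with rfl | rfl
  · exact he
  · rw [show d.J * d.τ * o * (d.J * d.τ)⁻¹ = d.J * (d.τ * o * d.τ⁻¹) * d.J⁻¹ by group, he,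
      ← J_comm_O d (inv_mem hoO), mul_inv_cancel_right]

theorem orderOf_mul_refl (hC : IsSelfCent d) {r o : G} (hr : r = d.τ ∨ r = d.J * d.τ)
    (ho : o ∈ fixPart (swap d)) : orderOf (o * r) = 2 := by
  obtain ⟨hrP, hr2, -⟩ := J_mul_refl_cases X hX hσ hτ h1 h2 hr
  refine orderOf_eq_two_iff.2 ⟨?_, fun e => ?_⟩
  · have hi : r * o = o⁻¹ * r := by
      rw [← inv_of_refl X hX hσ hτ h1 h2 hC hr ho, inv_mul_cancel_right]
    rw [mul_assoc, ← mul_assoc r, hi, mul_assoc, mul_self_eq_one hr2, mul_one, mul_inv_cancel]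
  · refine ne_one hr2 (d.eq_one_of_mem hrP ?_)
    rw [eq_inv_of_mul_eq_one_right e]
    exact inv_mem ((mem_fixPart_swap hC).1 ho).1

open scoped Classical in
/-- The pairs of involutions in the class of `J` with product in `J O`. -/
theorem card_pairs_JO (hC : IsSelfCent d) (hO : d.O ≤ X) :
    (((Finset.univ.filter (IsConj d.J)) ×ˢ (Finset.univ.filter (IsConj d.J))).filter
      (fun p => p.1 * p.2 ∈ ({x | ∃ o ∈ d.O, x = o * d.J} : Set G))).card =
      2 * Nat.card (fixPart (swap d)) ^ 2 := by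
  haveI := Subgroup.normal_of_index_eq_two hX
  haveI := Fintype.ofFinite (fixPart (swap d))
  let R : Finset G := {d.τ, d.J * d.τ}
  have hR : ∀ {r : G}, r ∈ R ↔ (r = d.τ ∨ r = d.J * d.τ) := fun {r} => by simp [R]
  have hRcard : R.card = 2 := Finset.card_pair fun h => ne_one d.orderOf_J (mul_eq_right.1 h.symm)
  have hJr : ∀ {r : G}, (r = d.τ ∨ r = d.J * d.τ) → (d.J * r = d.τ ∨ d.J * r = d.J * d.τ) := by
    rintro r (rfl | rfl)
    · exact Or.inr rfl
    · left; rw [← mul_assoc, mul_self_eq_one d.orderOf_J, one_mul]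
  have e : ((Finset.univ.filter (IsConj d.J)) ×ˢ (Finset.univ.filter (IsConj d.J))).filter
      (fun p => p.1 * p.2 ∈ ({x | ∃ o ∈ d.O, x = o * d.J} : Set G)) =
      ((Finset.univ : Finset (fixPart (swap d))) ×ˢ
        ((Finset.univ : Finset (fixPart (swap d))) ×ˢ R)).image
        (fun q => ((q.1 : G) * q.2.2, (q.2.1 : G) * (d.J * q.2.2))) := by
    ext ⟨u, v⟩
    simp only [Finset.mem_filter, Finset.mem_product, Finset.mem_univ, true_and, Finset.mem_image,
      Set.mem_ofPred_eq, Prod.mk.injEq]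
    constructor
    · rintro ⟨⟨q1, q2⟩, o, ho, huv⟩
      have hord : ∀ {y : G}, IsConj d.J y → orderOf y = 2 := fun {y} h => by
        obtain ⟨g, rfl⟩ := isConj_iff.1 h
        rw [orderOf_conj, d.orderOf_J]
      have hu2 := hord q1
      have hv2 := hord q2
      have hxH : u * v ∈ d.H := huv ▸ mul_mem (d.O_le_H ho) d.J_mem_H
      have huH : u ∈ d.H := by
        have hcJ : Commute o d.J := J_comm_O d ho
        obtain ⟨k, hk⟩ := odd_of_mem_O d ho
        have hpow : (u * v) ^ (2 * k + 1) = d.J := by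
          rw [huv, hcJ.mul_pow, ← hk, pow_orderOf_eq_one, one_mul, hk, pow_succ, pow_mul, pow_two,
            mul_self_eq_one d.orderOf_J, one_pow, one_mul]
        have hinv : u * (u * v) * u⁻¹ = (u * v)⁻¹ := by
          rw [mul_inv_rev, inv_eq_self hu2, inv_eq_self hv2, ← mul_assoc, mul_self_eq_one hu2,
            one_mul]
        have := congrArg (· ^ (2 * k + 1)) hinv
        simp only [conj_pow, inv_pow, hpow, inv_eq_self d.orderOf_J] at this
        exact mem_centralizer_singleton.2 (mul_inv_eq_iff_eq_mul.1 this)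
      have hvH : v ∈ d.H := by
        have := mul_mem (inv_mem huH) hxH
        rwa [inv_mul_cancel_left] at this
      have hproj : d.proj u * d.proj v = d.J := by
        rw [← d.proj_mul huH hvH, huv, d.proj_mul (d.O_le_H ho) d.J_mem_H, d.proj_of_mem_O ho,
          d.proj_of_mem_P d.J_mem, one_mul]
      obtain ⟨hup, huo⟩ := d.proj_spec huH
      obtain ⟨hvp, hvo⟩ := d.proj_spec hvH
      have huX : d.proj u ∈ X := by
        have := mul_mem (inv_mem (hO huo)) (mem_of_isConj X hX hσ hτ h1 h2 q1)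
        rwa [mul_inv_rev, inv_inv, inv_mul_cancel_right] at this
      have hur : d.proj u = d.τ ∨ d.proj u = d.J * d.τ := by
        have hsq : d.proj u * d.proj u = 1 := by
          rw [← d.proj_mul huH huH, mul_self_eq_one hu2, d.proj_of_mem_P (one_mem _)]
        rcases P_cases_mem X hX hσ hτ hup huX with h | h | h | h
        · exfalso
          have : u ∈ d.O := by rwa [h, inv_one, mul_one] at huo
          have := odd_of_mem_O d this
          rw [hu2] at this
          exact absurd this (by decide)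
        · exfalso
          rw [h] at hproj
          have hv1 : d.proj v = 1 := mul_eq_left.1 hproj
          have : v ∈ d.O := by rwa [hv1, inv_one, mul_one] at hvo
          have := odd_of_mem_O d this
          rw [hv2] at this
          exact absurd this (by decide)
        · exact Or.inl h
        · exact Or.inr h
      obtain ⟨hrP, hr2, -, -, -, -⟩ := J_mul_refl_cases X hX hσ hτ h1 h2 hur
      have hvr : d.proj v = d.J * d.proj u := by
        have h' : d.proj v = d.proj u * d.J := by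
          rw [← hproj, ← mul_assoc, mul_self_eq_one hr2, one_mul]
        rw [h', d.J_commute hrP]
      have key : ∀ {w r : G}, orderOf w = 2 → (r = d.τ ∨ r = d.J * d.τ) → w * r⁻¹ ∈ d.O →
          w * r⁻¹ ∈ fixPart (swap d) := by
        intro w r hw hr hmem
        obtain ⟨hrP', hr2', -⟩ := J_mul_refl_cases X hX hσ hτ h1 h2 hr
        have hi : r * (w * r⁻¹) * r⁻¹ = (w * r⁻¹)⁻¹ := by
          rw [mul_inv_rev, inv_inv, inv_eq_self hw, mul_assoc r, mul_assoc w, inv_eq_self hr2',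
            mul_self_eq_one hr2', mul_one]
        refine (mem_fixPart_swap hC).2 ⟨hmem, ?_⟩
        rcases hr with rfl | rfl
        · exact hi
        · set y := w * (d.J * d.τ)⁻¹
          rw [show d.J * d.τ * y * (d.J * d.τ)⁻¹ = d.J * (d.τ * y * d.τ⁻¹) * d.J⁻¹ by group,
            ← J_comm_O d (d.conj_mem_O d.τ_mem_H hmem), mul_inv_cancel_right] at hi
          exact hi
      have hbu := key hu2 hur huo
      have hbv := key hv2 (hJr hur) (hvr ▸ hvo)
      exact ⟨(⟨_, hbu⟩, ⟨_, hbv⟩, d.proj u), hR.2 hur,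
        inv_mul_cancel_right u _, inv_mul_cancel_right v _⟩
    · rintro ⟨⟨b, b', r⟩, hr, rfl, rfl⟩
      have hr' := hR.1 hr
      obtain ⟨hrP, hr2, -, -, -, -⟩ := J_mul_refl_cases X hX hσ hτ h1 h2 hr'
      have hbO := ((mem_fixPart_swap hC).1 b.2).1
      have hbO' := ((mem_fixPart_swap hC).1 b'.2).1
      have hrX : r ∈ X := by
        rcases hr' with rfl | rfl
        · exact hτ
        · exact mul_mem (J_mem_X X hX hσ) hτ
      refine ⟨⟨isConj_of_mem X hX hσ hτ h1 h2 (orderOf_mul_refl X hX hσ hτ h1 h2 hC hr' b.2)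
          (mul_mem (hO hbO) hrX),
        isConj_of_mem X hX hσ hτ h1 h2 (orderOf_mul_refl X hX hσ hτ h1 h2 hC (hJr hr') b'.2)
          (mul_mem (hO hbO') (mul_mem (J_mem_X X hX hσ) hrX))⟩,
        (b : G) * (r * b' * r⁻¹), mul_mem hbO (d.conj_mem_O (d.P_le_H hrP) hbO'), ?_⟩
      show (b : G) * r * (b' * (d.J * r)) = _
      rw [show d.J * r = r * d.J from (d.J_commute hrP).symm, inv_eq_self hr2]
      simp only [mul_assoc]
  rw [e, Finset.card_image_of_injOn, Finset.card_product, Finset.card_product, hRcard,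
    Finset.card_univ, ← Nat.card_eq_fintype_card]
  · ring
  · rintro ⟨b, b', r⟩ hq ⟨c, c', r'⟩ hq' h
    simp only [Finset.mem_coe, Finset.mem_product, Finset.mem_univ, true_and] at hq hq'
    simp only [Prod.mk.injEq] at h ⊢
    obtain ⟨hrP, -⟩ := J_mul_refl_cases X hX hσ hτ h1 h2 (hR.1 hq)
    obtain ⟨hrP', -⟩ := J_mul_refl_cases X hX hσ hτ h1 h2 (hR.1 hq')
    have he := congrArg d.proj h.1
    rw [d.proj_mul (d.O_le_H ((mem_fixPart_swap hC).1 b.2).1) (d.P_le_H hrP),
      d.proj_mul (d.O_le_H ((mem_fixPart_swap hC).1 c.2).1) (d.P_le_H hrP'),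
      d.proj_of_mem_O ((mem_fixPart_swap hC).1 b.2).1,
      d.proj_of_mem_O ((mem_fixPart_swap hC).1 c.2).1,
      d.proj_of_mem_P hrP, d.proj_of_mem_P hrP', one_mul, one_mul] at he
    subst he
    exact ⟨Subtype.ext (mul_right_cancel h.1), Subtype.ext (mul_right_cancel h.2), rfl⟩

open scoped Classical in
/-- The pair count in characters. -/
theorem second_equation (hC : IsSelfCent d) (hO : d.O ≤ X) {M : Ideal AlgInt}
    (hM : IsPModular 2 M) (b : DihBlock d M Complex.I) :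
    (Nat.card G : ℂ) * ((b.δ1 : ℂ) * (charDegree (b.χ1 : G → ℂ) : ℂ) - 1) ^ 2 =
      8 * (Nat.card (fixPart (swap d)) : ℂ) ^ 2 * (Nat.card d.H : ℂ) *
        ((b.δ1 : ℂ) * (charDegree (b.χ1 : G → ℂ) : ℂ)) *
        (1 + (b.δ1 : ℂ) * (charDegree (b.χ1 : G → ℂ) : ℂ)) := by
  haveI := Fintype.ofFinite (IrrCharacter G)
  haveI := Blocks.isPrime_of_isPModular hM
  haveI : Fact (Nat.Prime 2) := ⟨Nat.prime_two⟩
  haveI := Subgroup.normal_of_index_eq_two hX
  obtain ⟨j1, -, -⟩ := J_vals b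
  let θ := b.χ' ⟨0, by norm_num⟩
  have hθJ : (θ : G → ℂ) d.J = -2 * (b.δ1 : ℂ) := by
    show (b.χ' _ : G → ℂ) (d.σ ^ 2) = _
    rw [b.val' 2 two_pos (by norm_num)]
    simp only [zero_add, one_mul]
    rw [Complex.I_sq]
    norm_num
    ring
  let F : G → ℂ := fun x => 1 + (b.δ1 : ℂ) * (b.χ1 : G → ℂ) x - (b.δ1 : ℂ) * (θ : G → ℂ) x
  have hFcl : IsClassFunction G F := fun x y => by
    simp only [F, BrauerCharacters.apply_conj_elem]
  have s1 : (b.δ1 : ℂ) * b.δ1 = 1 := by rcases b.hδ1 with q | q <;> rw [q] <;> norm_num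
  have hFJ : ∀ o ∈ d.O, F (o * d.J) = 4 := by
    intro o ho
    have hk : ∀ {χ : IrrCharacter G}, χ ∈ principalBlock M G →
        (χ : G → ℂ) (o * d.J) = (χ : G → ℂ) d.J := fun {χ} hχ => by
      rw [J_comm_O d ho]
      exact apply_mul_eq_apply hM hχ (z := d.J) (k := 1) (by rw [pow_one]; exact d.orderOf_J)
        (ne_one d.orderOf_J) d.O (fun x hx => d.O_le_H hx) (fun c hc n hn => d.conj_mem_O hc hn)
        (fun h => Nat.not_even_iff_odd.2 d.odd_card_O (even_iff_two_dvd.2 h)) ho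
    simp only [F]
    rw [hk ((b.mem _).2 (Or.inr (Or.inl rfl))),
      hk ((b.mem θ).2 (Or.inr (Or.inr (Or.inr (Or.inr ⟨_, rfl⟩))))), j1, hθJ, s1]
    linear_combination 2 * s1
  have hF0 : ∀ x, Odd (orderOf x) → F x = 0 := fun x hx => by
    simp only [F]
    linear_combination b.reg' x hx ⟨0, by norm_num⟩
  let T : Finset G := Finset.univ.filter (IsConj d.J)
  have hT : ∀ g, ∀ u ∈ T, g * u * g⁻¹ ∈ T := fun g u hu => by
    simp only [T, Finset.mem_filter, Finset.mem_univ, true_and] at hu ⊢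
    exact hu.trans (isConj_iff.2 ⟨g, rfl⟩)
  have h := card_mul_sum_pairs T hT hFcl d.H {x | ∃ o ∈ d.O, x = o * d.J} ?_ ?_ ?_
  · have gen : ∀ i : DecidablePred fun p : G × G =>
        p.1 * p.2 ∈ ({x | ∃ o ∈ d.O, x = o * d.J} : Set G),
        ∑ p ∈ @Finset.filter (G × G) _ i (T ×ˢ T), F (p.1 * p.2) =
          ((@Finset.filter (G × G) _ i (T ×ˢ T)).card : ℂ) * 4 := fun i => by
      rw [Finset.sum_congr rfl (g := fun _ => (4 : ℂ)) fun p hp => by
        obtain ⟨o, ho, he⟩ := (Finset.mem_filter.1 hp).2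
        rw [he, hFJ o ho], Finset.sum_const, nsmul_eq_mul]
    rw [gen] at h
    have hc := card_pairs_JO X hX hσ hτ h1 h2 hC hO
    have key : ∀ i : DecidablePred fun p : G × G =>
        p.1 * p.2 ∈ ({x | ∃ o ∈ d.O, x = o * d.J} : Set G),
        (@Finset.filter (G × G) _ i (T ×ˢ T)).card = 2 * Nat.card (fixPart (swap d)) ^ 2 :=
      fun i => by convert hc
    rw [key] at h
    simp only [F, Finset.sum_add_distrib, Finset.sum_sub_distrib, ← Finset.mul_sum] at h
    have sp : ∀ χ : IrrCharacter G, ∑ p ∈ T ×ˢ T, (χ : G → ℂ) (p.1 * p.2) =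
        ((T.card : ℂ) * (χ : G → ℂ) d.J) ^ 2 / (χ : G → ℂ) 1 := fun χ => by
      convert sum_pairs_mul χ d.J
    rw [sp b.χ1, sp θ, j1, hθJ, Finset.sum_const, nsmul_eq_mul,
      Finset.card_product] at h
    obtain ⟨d1, p1, -⟩ := BrauerCharacters.charDegree_spec b.χ1
    have hθ1 := b.reg' 1 (by rw [orderOf_one]; exact odd_one) ⟨0, by norm_num⟩
    obtain ⟨dθ, pθ, -⟩ := BrauerCharacters.charDegree_spec θ
    rw [d1, show (b.χ' ⟨0, _⟩ : G → ℂ) 1 = _ from dθ] at hθ1
    rw [d1, dθ] at h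
    have hTc : ((Finset.univ.filter (IsConj d.J)).card : ℂ) =
        (Nat.card G : ℂ) / (Nat.card d.H : ℂ) := by
      rw [show d.H = Subgroup.centralizer ({d.J} : Set G) from rfl, ← index_eq,
        ← CharTheory.card_isConj, Nat.card_eq_fintype_card, Fintype.card_subtype]
    simp only [T, Nat.cast_mul, Nat.cast_ofNat, Nat.cast_pow] at h
    rw [hTc] at h
    have hg : (Nat.card G : ℂ) ≠ 0 := by exact_mod_cast Nat.card_pos.ne'
    have hh : (Nat.card d.H : ℂ) ≠ 0 := by exact_mod_cast Nat.card_pos.ne'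
    have n1 : (charDegree (b.χ1 : G → ℂ) : ℂ) ≠ 0 := by exact_mod_cast p1.ne'
    have nθ : (charDegree (θ : G → ℂ) : ℂ) ≠ 0 := by exact_mod_cast pθ.ne'
    set D := (charDegree (b.χ1 : G → ℂ) : ℂ)
    set E := (charDegree (θ : G → ℂ) : ℂ)
    have hE : E = (b.δ1 : ℂ) + D := by
      linear_combination -(b.δ1 : ℂ) * hθ1 - (E - D) * s1
    field_simp at h
    rcases b.hδ1 with q | q <;> rw [q] at h hE ⊢ <;> push_cast at h hE ⊢ <;> rw [hE] at h
    · linear_combination h
    · linear_combination h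
  · rintro c hc x ⟨o, ho, rfl⟩
    refine ⟨c * o * c⁻¹, d.conj_mem_O hc ho, ?_⟩
    rw [show c * (o * d.J) * c⁻¹ = c * o * c⁻¹ * (c * d.J * c⁻¹) by group,
      mem_centralizer_singleton.1 hc, mul_inv_cancel_right]
  · rintro g x ⟨o, ho, rfl⟩ ⟨o', ho', he⟩
    have hk : ∀ {y : G}, y ∈ d.O → (y * d.J) ^ Nat.card d.O = d.J := fun {y} hy => by
      obtain ⟨k, hk⟩ := d.odd_card_O
      rw [(show Commute y d.J from J_comm_O d hy).mul_pow,
        show y ^ Nat.card d.O = 1 from congrArg Subtype.val (pow_card_eq_one' (x := (⟨y, hy⟩ : d.O))),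
        one_mul, hk, pow_succ, pow_mul, pow_two, mul_self_eq_one d.orderOf_J, one_pow, one_mul]
    have := congrArg (· ^ Nat.card d.O) he
    simp only [conj_pow, hk ho, hk ho'] at this
    exact mem_centralizer_singleton.2 (mul_inv_eq_iff_eq_mul.1 this)
  · intro u hu v hv hne
    simp only [T, Finset.mem_filter, Finset.mem_univ, true_and] at hu hv
    obtain ⟨x, hx⟩ : ∃ x, x = u * v := ⟨_, rfl⟩
    have hxX : x ∈ X :=
      hx ▸ mul_mem (mem_of_isConj X hX hσ hτ h1 h2 hu) (mem_of_isConj X hX hσ hτ h1 h2 hv)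
    rw [← hx] at hne ⊢
    obtain ⟨z, hz⟩ := Blocks.exists_isPPart 2 x
    obtain ⟨y, hzy, hcomm, ⟨k, hk⟩, hy⟩ := (Blocks.isPPart_iff).1 hz
    have hzX : z ∈ X := Subgroup.zpowers_le.2 hxX (Blocks.mem_zpowers_of_isPPart hz)
    have hz1 : z ≠ 1 := fun e => hne (hF0 x (by
      rw [← hzy, e, one_mul]
      exact Nat.not_even_iff_odd.1 fun e => hy (even_iff_two_dvd.1 e)))
    obtain ⟨c, hc⟩ := exists_conj_mem_sylow P (isPGroup_zpowers_of_orderOf_eq (p := 2) hk)
    have hcz : c * z * c⁻¹ ∈ (P : Subgroup G) := hc z (Subgroup.mem_zpowers z)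
    have hz2 : orderOf z = 2 := by
      have hsq : c * z * c⁻¹ * (c * z * c⁻¹) = 1 := by
        rcases P_cases_mem X hX hσ hτ hcz ((inferInstance : X.Normal).conj_mem z hzX c) with
          h | h | h | h <;> rw [h]
        · rw [one_mul]
        · exact mul_self_eq_one d.orderOf_J
        · exact mul_self_eq_one d.ordτ
        · exact d.refl_sq 2
      rw [← orderOf_conj c z]
      exact orderOf_eq_two_iff.2 ⟨hsq, fun e => hz1 (conj_eq_one_iff.1 e)⟩
    obtain ⟨g, hg⟩ := isConj_iff.1 (isConj_of_mem X hX hσ hτ h1 h2 hz2 hzX).symm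
    refine ⟨g, g * y * g⁻¹, d.mem_O.2 ⟨mem_centralizer_singleton.2 ?_, ?_⟩, ?_⟩
    · rw [← hg]
      have e := (hcomm.map (MulAut.conj g).toMonoidHom).symm.eq
      exact e
    · rw [orderOf_conj]
      exact Nat.not_even_iff_odd.1 fun e => hy (even_iff_two_dvd.1 e)
    · rw [← hg, ← hzy, hcomm.eq]
      group

/-- No group with a twisted pair of reflection classes and `b ≠ 1`. -/
theorem false_of_twist (hC : IsSelfCent d) (hO : d.O ≤ X)
    (hcent : Nat.card (Subgroup.centralizer ({d.σ * d.τ} : Set G)) =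
      4 * Nat.card (fixPart (swap d))) (hb : Nat.card (fixPart (swap d)) ≠ 1) : False := by
  obtain ⟨M, hM⟩ := exists_isPModular Nat.prime_two
  obtain ⟨b⟩ := d.exists_dihBlock hM isPrimitiveRoot_I
  have e1 := first_equation X hX hσ hτ h1 h2 hC b
  have e2 := second_equation X hX hσ hτ h1 h2 hC hO hM b
  rw [hcent] at e1
  obtain ⟨-, p1, -⟩ := BrauerCharacters.charDegree_spec b.χ1
  obtain ⟨W, hW⟩ : ∃ W : ℤ, W = b.δ1 * (charDegree (b.χ1 : G → ℂ) : ℤ) := ⟨_, rfl⟩
  have hW0 : W ≠ 0 := by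
    rw [hW]; rcases b.hδ1 with q | q <;> rw [q] <;> omega
  obtain ⟨β, hβ⟩ : ∃ β, β = Nat.card (fixPart (swap d)) := ⟨_, rfl⟩
  obtain ⟨g, hg⟩ : ∃ g, g = Nat.card G := ⟨_, rfl⟩
  obtain ⟨η, hη⟩ : ∃ η, η = Nat.card d.H := ⟨_, rfl⟩
  have hg0 : 0 < g := hg ▸ Nat.card_pos
  have hη0 : 0 < η := hη ▸ Nat.card_pos
  have hβ0 : 0 < β := hβ ▸ Nat.card_pos
  rw [← hβ, ← hg, ← hη] at e1 e2
  have f1 : (g : ℤ) * (W - 1) = η * (4 * β) * W := by
    apply Int.cast_injective (α := ℂ)
    rw [hW]; push_cast at e1 ⊢; linear_combination e1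
  have f2 : (g : ℤ) * (W - 1) ^ 2 = 8 * (β : ℤ) ^ 2 * η * W * (1 + W) := by
    apply Int.cast_injective (α := ℂ)
    rw [hW]; push_cast at e2 ⊢; linear_combination e2
  have key : W - 1 = 2 * (β : ℤ) * (1 + W) := by
    refine mul_left_cancel₀ (by positivity : ((η : ℤ) * (4 * β)) ≠ 0) ?_
    refine mul_left_cancel₀ hW0 ?_
    linear_combination (-(W - 1)) * f1 + f2
  have hβ1 : β ≠ 1 := hβ ▸ hb
  have hdiv : (2 * (β : ℤ) - 1) * (-W - 1) = 2 := by linear_combination key
  have hle : 2 * (β : ℤ) - 1 ≤ 2 := Int.le_of_dvd two_pos ⟨_, hdiv.symm⟩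
  omega

end

end CfsgLib.SelfCentFour
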