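import Cfsg.Agent.Lib.SelfCentFour.Signal
import Cfsg.Agent.Lib.SelfCentFour.TwistPairs

/-!
# The element permuting a Klein group and the degenerate case
-/

set_option autoImplicit false
set_option linter.unusedSectionVars false
set_option linter.style.haveILetI false

namespace CfsgLib.SelfCentFour

open Cfsg CfsgLib CfsgLib.Involutions

universe u

variable {G : Type u} [Group G] [Finite G] {P : Sylow 2 G} {d : DihData P 3}

/-- An element permuting `J, τ, Jτ` cyclically and centralising `A`. -/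
theorem exists_three (hC : IsSelfCent d) (hall : ∀ x : G, orderOf x = 2 → IsConj d.J x) :
    ∃ g : G, g * d.J * g⁻¹ = d.τ ∧ g * d.τ * g⁻¹ = d.J * d.τ ∧ g * (d.J * d.τ) * g⁻¹ = d.J ∧
      ∀ a ∈ fixPart d, g * a * g⁻¹ = a := by
  haveI : Fact (Nat.Prime 2) := ⟨Nat.prime_two⟩
  haveI := Fintype.ofFinite G
  obtain ⟨k0, hk0⟩ := isConj_iff.1 (hall _ d.ordτ)
  haveI : IsMulCommutative
    ((P : Subgroup G) ⊓ Subgroup.centralizer ({d.τ} : Set G) : Subgroup G) := klein_comm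
  -- move the Klein group of `τ` into `P`, fixing `J`
  set V := (P : Subgroup G) ⊓ Subgroup.centralizer ({d.τ} : Set G) with hV
  obtain ⟨c, hc, hcP⟩ := d.exists_conj_mem (Q := V.map (MulAut.conj k0⁻¹).toMonoidHom)
    ((P.isPGroup'.to_le inf_le_left).map _) (by
      rintro _ ⟨v, hv, rfl⟩
      refine mem_centralizer_singleton.2 ?_
      have := comm_conj (g := k0⁻¹) (mem_centralizer_singleton.1 hv.2)
      rw [show k0⁻¹ * d.τ * k0⁻¹⁻¹ = d.J by rw [← hk0]; group] at this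
      simpa using this)
  obtain ⟨k, hk⟩ : ∃ k, k = k0 * c⁻¹ := ⟨_, rfl⟩
  have hkJ : k * d.J * k⁻¹ = d.τ := by
    have hc' := mem_centralizer_singleton.1 (inv_mem hc)
    rw [hk, show k0 * c⁻¹ * d.J * (k0 * c⁻¹)⁻¹ = k0 * (c⁻¹ * d.J * c⁻¹⁻¹) * k0⁻¹ by group, hc',
      mul_inv_cancel_right, hk0]
  obtain ⟨r, hr⟩ : ∃ r, r = k⁻¹ * d.J * k := ⟨_, rfl⟩
  have hrP : r ∈ (P : Subgroup G) := by
    have := hcP _ ⟨d.J, ⟨d.J_mem, mem_centralizer_singleton.2 τ_comm_J.symm⟩, rfl⟩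
    rw [hr, hk]
    simpa [mul_assoc] using this
  have hr2 : orderOf r = 2 := by
    rw [hr, show k⁻¹ * d.J * k = k⁻¹ * d.J * k⁻¹⁻¹ by rw [inv_inv], orderOf_conj, d.orderOf_J]
  obtain ⟨j, rfl⟩ : ∃ j : ℕ, r = d.σ ^ j * d.τ := by
    rcases d.involution_cases hrP hr2 with e | e
    · exfalso
      refine J_ne_τ (d := d) ?_
      rw [← hkJ]
      nth_rewrite 2 [← e]
      rw [hr]; group
    · exact e
  have hkr : k * (d.σ ^ j * d.τ) * k⁻¹ = d.J := by rw [hr]; group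
  have hσr : d.σ * (d.σ ^ j * d.τ) * d.σ⁻¹ = d.J * (d.σ ^ j * d.τ) := by
    have e := d.τ_mul_pow 3
    have hs : d.σ⁻¹ = d.σ ^ 3 := inv_eq_of_mul_eq_one_right (by
      rw [← pow_succ']; exact σ_four)
    calc d.σ * (d.σ ^ j * d.τ) * d.σ⁻¹ = d.σ * d.σ ^ j * (d.τ * d.σ⁻¹ * d.τ⁻¹) * d.τ := by group
      _ = d.σ * d.σ ^ j * d.σ * d.τ := by
        rw [show d.τ * d.σ⁻¹ * d.τ⁻¹ = (d.τ * d.σ * d.τ⁻¹)⁻¹ by group, d.rel, inv_inv]
      _ = d.J * (d.σ ^ j * d.τ) := by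
        rw [J_eq_sq, ← pow_succ', ← pow_succ, ← mul_assoc, ← pow_add]
        ring_nf
  obtain ⟨u, hu⟩ : ∃ u, u = k * d.σ * k⁻¹ := ⟨_, rfl⟩
  have huτ : u * d.τ * u⁻¹ = d.τ := by
    rw [← hkJ, hu, show k * d.σ * k⁻¹ * (k * d.J * k⁻¹) * (k * d.σ * k⁻¹)⁻¹ =
      k * (d.σ * d.J * d.σ⁻¹) * k⁻¹ by group, d.J_commute d.hσ, mul_inv_cancel_right]
  have huJ : u * d.J * u⁻¹ = d.J * d.τ := by
    rw [hu]
    nth_rewrite 1 [← hkr]
    rw [show k * d.σ * k⁻¹ * (k * (d.σ ^ j * d.τ) * k⁻¹) * (k * d.σ * k⁻¹)⁻¹ =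
      k * (d.σ * (d.σ ^ j * d.τ) * d.σ⁻¹) * k⁻¹ by group, hσr,
      show k * (d.J * (d.σ ^ j * d.τ)) * k⁻¹ = k * d.J * k⁻¹ * (k * (d.σ ^ j * d.τ) * k⁻¹) by group,
      hkJ, hkr, τ_comm_J]
  have hστ : d.σ * d.τ * d.σ⁻¹ = d.J * d.τ := by
    have := d.conj_refl 1 0
    rwa [pow_one, pow_zero, one_mul, add_zero, mul_one, ← J_eq_sq] at this
  have hσJ : d.σ * d.J * d.σ⁻¹ = d.J := by rw [d.J_commute d.hσ, mul_inv_cancel_right]
  have g1 : d.σ * u * d.J * (d.σ * u)⁻¹ = d.τ := by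
    rw [show d.σ * u * d.J * (d.σ * u)⁻¹ = d.σ * (u * d.J * u⁻¹) * d.σ⁻¹ by group, huJ,
      show d.σ * (d.J * d.τ) * d.σ⁻¹ = d.σ * d.J * d.σ⁻¹ * (d.σ * d.τ * d.σ⁻¹) by group, hσJ, hστ,
      ← mul_assoc, mul_self_eq_one d.orderOf_J, one_mul]
  have g2 : d.σ * u * d.τ * (d.σ * u)⁻¹ = d.J * d.τ := by
    rw [show d.σ * u * d.τ * (d.σ * u)⁻¹ = d.σ * (u * d.τ * u⁻¹) * d.σ⁻¹ by group, huτ, hστ]
  refine ⟨d.σ * u, g1, g2, ?_, fun a ha => ?_⟩
  · rw [show d.σ * u * (d.J * d.τ) * (d.σ * u)⁻¹ =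
      d.σ * u * d.J * (d.σ * u)⁻¹ * (d.σ * u * d.τ * (d.σ * u)⁻¹) by group, g1, g2, ← mul_assoc,
      τ_comm_J, mul_assoc, mul_self_eq_one d.ordτ, mul_one]
  · obtain ⟨haO, haτ⟩ := (mem_fixPart d).1 ha
    have hb : k⁻¹ * a * k⁻¹⁻¹ ∈ d.O := by
      refine mem_O_iff.2 ⟨odd_conj (odd_of_mem_O d haO), ?_⟩
      rw [show d.J = k⁻¹ * d.τ * k⁻¹⁻¹ by rw [← hkJ]; group]
      exact comm_conj haτ
    rw [show d.σ * u * a * (d.σ * u)⁻¹ = d.σ * (k * (d.σ * (k⁻¹ * a * k⁻¹⁻¹) * d.σ⁻¹) * k⁻¹) *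
      d.σ⁻¹ by rw [hu]; group, σ_conj_inv hC hb,
      show k * (k⁻¹ * a * k⁻¹⁻¹)⁻¹ * k⁻¹ = a⁻¹ by group, σ_conj_inv hC (inv_mem haO), inv_inv]

/-- An element of `G` normalising a subgroup `X` makes `X ∪ X σ` a subgroup. -/
def doubled (X : Subgroup G) (σ : G) (hsq : σ * σ ∈ X) (hn : ∀ x ∈ X, σ * x * σ⁻¹ ∈ X) :
    Subgroup G where
  carrier := {y | y ∈ X ∨ y * σ⁻¹ ∈ X}
  one_mem' := Or.inl (one_mem X)
  mul_mem' := by
    rintro a b (ha | ha) (hb | hb)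
    · exact Or.inl (mul_mem ha hb)
    · exact Or.inr (by rw [mul_assoc]; exact mul_mem ha hb)
    · refine Or.inr ?_
      rw [show a * b * σ⁻¹ = a * σ⁻¹ * (σ * b * σ⁻¹) by group]
      exact mul_mem ha (hn b hb)
    · refine Or.inl ?_
      rw [show a * b = a * σ⁻¹ * (σ * (b * σ⁻¹) * σ⁻¹) * (σ * σ) by group]
      exact mul_mem (mul_mem ha (hn _ hb)) hsq
  inv_mem' := by
    rintro a (ha | ha)
    · exact Or.inl (inv_mem ha)
    · refine Or.inr ?_
      have h1 := hn _ (inv_mem ha)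
      rw [show σ * (a * σ⁻¹)⁻¹ * σ⁻¹ = σ * σ * (a⁻¹ * σ⁻¹) by group] at h1
      exact (X.mul_mem_cancel_left hsq).1 h1

theorem mem_doubled {X : Subgroup G} {σ : G} {hsq : σ * σ ∈ X} {hn : ∀ x ∈ X, σ * x * σ⁻¹ ∈ X}
    {y : G} : y ∈ doubled X σ hsq hn ↔ y ∈ X ∨ y * σ⁻¹ ∈ X := Iff.rfl

/-- The degenerate case does not occur: the centraliser of `στ` meets the centraliser of `A` in more
than `B`. -/
theorem exists_extra (hC : IsSelfCent d) (hall : ∀ x : G, orderOf x = 2 → IsConj d.J x)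
    (hA : fixPart d ≠ ⊥) (hB : fixPart (swap d) ≠ ⊥) :
    ∃ z : G, Odd (orderOf z) ∧ z * (d.σ * d.τ) = d.σ * d.τ * z ∧
      (∀ a ∈ fixPart d, z * a = a * z) ∧ z ∉ d.O := by
  by_contra hcon
  push Not at hcon
  haveI := Fintype.ofFinite G
  obtain ⟨a0, ha0, ha01⟩ := (fixPart d).bot_or_exists_ne_one.resolve_left hA
  obtain ⟨b0, hb0, hb01⟩ := (fixPart (swap d)).bot_or_exists_ne_one.resolve_left hB
  set X := Subgroup.centralizer (fixPart d : Set G) with hXdef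
  have hmem : ∀ {y : G}, y ∈ X ↔ ∀ a ∈ fixPart d, y * a = a * y := fun {y} =>
    ⟨fun h a ha => (Subgroup.mem_centralizer_iff.1 h a ha).symm,
      fun h => Subgroup.mem_centralizer_iff.2 fun a ha => (h a ha).symm⟩
  have hJX : d.J ∈ X := hmem.2 fun a ha => (J_comm_O d (fixPart_le d ha)).symm
  have hτX : d.τ ∈ X := hmem.2 fun a ha => ((mem_fixPart d).1 ha).2.symm
  have hσX : d.σ ∉ X := fun h => ha01 (by
    have e := σ_conj_inv hC (fixPart_le d ha0)
    rw [hmem.1 h a0 ha0, mul_inv_cancel_right] at e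
    exact eq_one_of_inv_eq (odd_of_mem_O d (fixPart_le d ha0)) e.symm)
  have hOX : d.O ≤ X := fun o ho => hmem.2 fun a ha => O_comm hC ho (fixPart_le d ha)
  have hn : ∀ x ∈ X, d.σ * x * d.σ⁻¹ ∈ X := fun x hx => hmem.2 fun a ha => by
    have := comm_conj (g := d.σ) (hmem.1 hx _ (inv_mem ha))
    rwa [σ_conj_inv hC (inv_mem (fixPart_le d ha)), inv_inv] at this
  set Y := doubled X d.σ (σ_sq_mul d ▸ hJX) hn with hYdef
  have hXY : X ≤ Y := fun x hx => Or.inl hx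
  have hσY : d.σ ∈ Y := Or.inr (by rw [mul_inv_cancel]; exact one_mem X)
  have hPY : (P : Subgroup G) ≤ Y := fun x hx => by
    obtain ⟨j, rfl | rfl⟩ := d.cover x hx
    · exact pow_mem hσY j
    · exact mul_mem (pow_mem hσY j) (hXY hτX)
  have hστY : d.σ * d.τ ∈ Y := mul_mem hσY (hXY hτX)
  let d' : DihData (P.subtype hPY) 3 :=
    { σ := ⟨d.σ, hσY⟩
      τ := ⟨d.τ, hXY hτX⟩
      hn := d.hn
      hσ := d.hσ
      hτ := d.hτ
      ordσ := by rw [Subgroup.orderOf_mk]; exact d.ordσ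
      ordτ := by rw [Subgroup.orderOf_mk]; exact d.ordτ
      rel := Subtype.ext d.rel
      cover := fun x hx => by
        obtain ⟨j, h | h⟩ := d.cover (x : G) hx
        · exact ⟨j, Or.inl (Subtype.ext h)⟩
        · exact ⟨j, Or.inr (Subtype.ext h)⟩ }
  have hC' : IsSelfCent d' := fun y hy => by
    obtain ⟨i, hi⟩ := Subgroup.mem_zpowers_iff.1 (hC (y : G) (congrArg Subtype.val hy))
    exact Subgroup.mem_zpowers_iff.2 ⟨i, Subtype.ext (by simpa using hi)⟩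
  have hO' : ∀ y : Y, y ∈ d'.O ↔ (y : G) ∈ d.O := fun y => by
    rw [mem_O_iff, mem_O_iff, Subgroup.orderOf_coe]
    refine and_congr Iff.rfl ⟨fun h => congrArg Subtype.val h, fun h => Subtype.ext h⟩
  have hB' : fixPart (swap d') = (fixPart (swap d)).subgroupOf Y := by
    ext y
    rw [Subgroup.mem_subgroupOf, mem_fixPart, mem_fixPart, swap_O, swap_O, hO']
    exact and_congr Iff.rfl ⟨fun h => congrArg Subtype.val h, fun h => Subtype.ext h⟩
  have hBY : fixPart (swap d) ≤ Y := fun x hx =>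
    hXY (hOX ((mem_fixPart_swap hC).1 hx).1)
  have hcardB : Nat.card (fixPart (swap d')) = Nat.card (fixPart (swap d)) := by
    rw [hB']; exact Nat.card_congr (Subgroup.subgroupOfEquivOfLe hBY).toEquiv
  have hidx : (X.subgroupOf Y).index = 2 := by
    rw [Subgroup.index_eq_two_iff]
    refine ⟨⟨d.σ, hσY⟩, fun b => ?_⟩
    rcases (mem_doubled.1 b.2 : (b : G) ∈ X ∨ (b : G) * d.σ⁻¹ ∈ X) with h | h
    · refine Or.inr ⟨h, fun hb => hσX ?_⟩
      exact (X.mul_mem_cancel_left h).1 hb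
    · refine Or.inl ⟨?_, fun hb => hσX ?_⟩
      · show (b : G) * d.σ ∈ X
        have := mul_mem h (σ_sq_mul d ▸ hJX : d.σ * d.σ ∈ X)
        rwa [← mul_assoc, inv_mul_cancel_right] at this
      · have hb' : (b : G) ∈ X := hb
        exact (Subgroup.inv_mem_iff X).1 ((X.mul_mem_cancel_left hb').1 h)
  obtain ⟨g, g1, g2, g3, gA⟩ := exists_three hC hall
  have hgX : g ∈ X := hmem.2 fun a ha => by
    nth_rewrite 2 [← gA a ha]
    rw [inv_mul_cancel_right]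
  have h1 : IsConj d'.J d'.τ := isConj_iff.2 ⟨⟨g, hXY hgX⟩, Subtype.ext g1⟩
  have h2 : IsConj d'.J (d'.J * d'.τ) := isConj_iff.2 ⟨⟨g⁻¹, hXY (inv_mem hgX)⟩, Subtype.ext (by
    show g⁻¹ * d.J * g⁻¹⁻¹ = d.J * d.τ
    rw [show g⁻¹ * d.J * g⁻¹⁻¹ = g⁻¹ * (g * (d.J * d.τ) * g⁻¹) * g by rw [g3, inv_inv]]
    group)⟩
  -- the centraliser of `στ` in `X`
  set K := X ⊓ Subgroup.centralizer ({d.σ * d.τ} : Set G) with hK
  obtain ⟨R, hRK, -, hKcard, hR⟩ := exists_oddPart K (t := d.J)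
    (Subgroup.mem_inf.2 ⟨hJX, mem_centralizer_singleton.2
      (d.J_commute (mul_mem d.hσ d.hτ)).symm⟩) d.orderOf_J
    (fun w hw hwJ hw2 => by
      obtain ⟨hwX, hwc⟩ := Subgroup.mem_inf.1 hw
      have hwH : w ∈ d.H := mem_centralizer_singleton.2 hwJ
      obtain ⟨hp, ho⟩ := d.proj_spec hwH
      have e := congrArg d.proj (mem_centralizer_singleton.1 hwc)
      have hstH := d.P_le_H (mul_mem d.hσ d.hτ)
      rw [d.proj_mul hwH hstH, d.proj_mul hstH hwH,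
        d.proj_of_mem_P (mul_mem d.hσ d.hτ)] at e
      have hp' : d.proj w ∈ (P : Subgroup G) ⊓ Subgroup.centralizer ({(swap d).τ} : Set G) :=
        Subgroup.mem_inf.2 ⟨hp, mem_centralizer_singleton.2 e⟩
      have hpX : d.proj w ∈ X := by
        have := mul_mem (inv_mem (hOX ho)) hwX
        rwa [mul_inv_rev, inv_inv, inv_mul_cancel_right] at this
      have hpc : d.proj w = 1 ∨ d.proj w = d.J := by
        have hn1 : d.σ * d.τ ∉ X := fun h => hσX ((X.mul_mem_cancel_right hτX).1 h)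
        rcases P_cases_comm hp'.1 (mem_centralizer_singleton.1 hp'.2) with q | q | q | q
        · exact Or.inl q
        · exact Or.inr q
        · rw [q, swap_τ] at hpX
          exact absurd hpX hn1
        · rw [q, swap_J, swap_τ] at hpX
          exact absurd ((X.mul_mem_cancel_left hJX).1 hpX) hn1
      -- `w` is its own projection
      obtain ⟨k, hk⟩ := hw2
      have hcy : Commute (w * (d.proj w)⁻¹) (d.proj w) := by
        rcases hpc with q | q <;> rw [q]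
        · exact Commute.one_right _
        · exact J_comm_O d (q ▸ ho)
      have hsq : d.proj w ^ 2 = 1 := by
        rcases hpc with q | q <;> rw [q, pow_two]
        · rw [one_mul]
        · exact mul_self_eq_one d.orderOf_J
      have hk' : (w * (d.proj w)⁻¹) ^ (2 ^ (k + 1)) = 1 := by
        have : w ^ (2 ^ (k + 1)) = 1 := by
          rw [pow_succ, pow_mul, ← hk, pow_orderOf_eq_one, one_pow]
        rw [← inv_mul_cancel_right w (d.proj w), hcy.mul_pow] at this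
        rwa [pow_succ' 2 k, pow_mul (d.proj w), hsq, one_pow, mul_one, ← pow_succ'] at this
      have h1 : w * (d.proj w)⁻¹ = 1 := orderOf_eq_one_iff.1 (Nat.eq_one_of_dvd_coprimes
        ((Nat.coprime_two_left.2 (odd_of_mem_O d ho)).pow_left (k + 1))
        (orderOf_dvd_of_pow_eq_one hk') dvd_rfl)
      rw [mul_inv_eq_one.1 h1]
      exact hpc)
  have hRB : R = fixPart (swap d) := by
    ext z
    rw [hR, mem_fixPart, swap_O, swap_τ]
    constructor
    · rintro ⟨hz, hzo⟩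
      obtain ⟨hzX, hzc⟩ := Subgroup.mem_inf.1 hz
      exact ⟨hcon z hzo (mem_centralizer_singleton.1 hzc) (hmem.1 hzX),
        mem_centralizer_singleton.1 hzc⟩
    · rintro ⟨hzO, hzc⟩
      exact ⟨Subgroup.mem_inf.2 ⟨hOX hzO, mem_centralizer_singleton.2 hzc⟩, odd_of_mem_O d hzO⟩
  have hcent : Nat.card (Subgroup.centralizer ({d'.σ * d'.τ} : Set Y)) =
      4 * Nat.card (fixPart (swap d')) := by
    rw [hcardB, ← hRB, show 4 * Nat.card R = Nat.card K * Nat.card Bool by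
      rw [hKcard, Nat.card_eq_fintype_card (α := Bool), Fintype.card_bool]; ring, ← Nat.card_prod]
    have hKY : ∀ y ∈ K, y ∈ Y := fun y hy => hXY (Subgroup.mem_inf.1 hy).1
    have hKc : ∀ y ∈ K, y * (d.σ * d.τ) = d.σ * d.τ * y := fun y hy =>
      mem_centralizer_singleton.1 (Subgroup.mem_inf.1 hy).2
    have hn1 : d.σ * d.τ ∉ X := fun h => hσX ((X.mul_mem_cancel_right hτX).1 h)
    refine (Nat.card_eq_of_bijective (fun p : K × Bool =>
      (⟨⟨(p.1 : G) * cond p.2 (d.σ * d.τ) 1, mul_mem (hKY _ p.1.2) (by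
          cases p.2
          · exact one_mem Y
          · exact hστY)⟩, mem_centralizer_singleton.2 (Subtype.ext (by
          show (p.1 : G) * cond p.2 (d.σ * d.τ) 1 * (d.σ * d.τ) =
            d.σ * d.τ * ((p.1 : G) * cond p.2 (d.σ * d.τ) 1)
          cases p.2
          · rw [cond, mul_one, hKc _ p.1.2]
          · rw [cond, ← mul_assoc (d.σ * d.τ), ← hKc _ p.1.2]))⟩ :
        Subgroup.centralizer ({d'.σ * d'.τ} : Set Y))) ⟨?_, ?_⟩).symm
    · rintro ⟨a, i⟩ ⟨b, j⟩ h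
      have h' : (a : G) * cond i (d.σ * d.τ) 1 = (b : G) * cond j (d.σ * d.τ) 1 :=
        congrArg Subtype.val (congrArg Subtype.val h)
      have hcase : ∀ (x y : K), (x : G) * (d.σ * d.τ) ≠ (y : G) * 1 := fun x y e => hn1 (by
        rw [mul_one] at e
        exact (X.mul_mem_cancel_left (Subgroup.mem_inf.1 x.2).1).1 (e ▸ (Subgroup.mem_inf.1 y.2).1))
      cases i <;> cases j <;> simp only [cond] at h'
      · exact Prod.ext (Subtype.ext (mul_right_cancel h')) rfl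
      · exact absurd h'.symm (hcase b a)
      · exact absurd h' (hcase a b)
      · exact Prod.ext (Subtype.ext (mul_right_cancel h')) rfl
    · rintro ⟨⟨y, hyY⟩, hy⟩
      have hy' : y * (d.σ * d.τ) = d.σ * d.τ * y :=
        congrArg Subtype.val (mem_centralizer_singleton.1 hy)
      by_cases hyX : y ∈ X
      · exact ⟨(⟨y, Subgroup.mem_inf.2 ⟨hyX, mem_centralizer_singleton.2 hy'⟩⟩, false),
          Subtype.ext (Subtype.ext (mul_one y))⟩
      · have hyσ := (mem_doubled.1 hyY).resolve_left hyX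
        refine ⟨(⟨y * (d.σ * d.τ)⁻¹, Subgroup.mem_inf.2 ⟨?_, mem_centralizer_singleton.2 ?_⟩⟩,
          true), Subtype.ext (Subtype.ext (inv_mul_cancel_right y _))⟩
        · rw [show y * (d.σ * d.τ)⁻¹ = y * d.σ⁻¹ * (d.σ * d.τ⁻¹ * d.σ⁻¹) by group]
          exact mul_mem hyσ (hn _ (inv_mem hτX))
        · rw [inv_mul_cancel_right, ← mul_assoc, ← hy', mul_inv_cancel_right]
  haveI := Fintype.ofFinite Y
  refine false_of_twist (d := d') (X.subgroupOf Y) hidx (fun h => hσX h) hτX h1 h2 hC'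
    (fun y hy => hOX ((hO' y).1 hy)) hcent ?_
  rw [hcardB]
  intro h
  exact hb01 (Subgroup.mem_bot.1 ((Subgroup.eq_bot_of_card_eq _ h) ▸ hb0))

end CfsgLib.SelfCentFour
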