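import Cfsg.Agent.Lib.CharTheory.Inflation
import Cfsg.Agent.Lib.CharTheory.Ito
import Cfsg.Agent.Lib.CharTheory.Orthogonality
import Cfsg.Agent.Lib.BrauerCharacters.ClassMul

/-!
# A lower bound for a degree from constancy on cosets of a Klein group
-/

set_option autoImplicit false
set_option linter.unusedSectionVars false
set_option linter.style.haveILetI false

open scoped ComplexConjugate
open Cfsg CfsgLib.CharTheory

namespace CfsgLib.SelfCentFour

/-- A linear character of an odd abelian group equal to its inverse is trivial. -/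
theorem eq_one_of_linear_inv {A : Type*} [Group A] [Finite A] (hodd : Odd (Nat.card A))
    {f : A → ℂ} (hf : IsCharacter A f) (h1 : f 1 = 1) (hinv : ∀ a, f a⁻¹ = f a) (a : A) :
    f a = 1 := by
  obtain ⟨d, ρ, rfl⟩ := hf
  have hd : d = 1 := by
    rw [Representation.char_one, Module.finrank_fin_fun] at h1
    exact_mod_cast h1
  subst hd
  have key : ∀ x : A, ρ.character x = LinearMap.toMatrix' (ρ x) 0 0 := by
    intro x
    show LinearMap.trace ℂ _ (ρ x) = _
    rw [LinearMap.trace_eq_matrix_trace ℂ (Pi.basisFun ℂ (Fin 1)), LinearMap.toMatrix_eq_toMatrix']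
    exact Matrix.trace_fin_one _
  have hmul : ∀ x y : A, ρ.character (x * y) = ρ.character x * ρ.character y := by
    intro x y
    rw [key, key, key, map_mul, Module.End.mul_eq_comp, LinearMap.toMatrix'_comp]
    simp [Matrix.mul_apply]
  have hpow : ∀ n : ℕ, ρ.character (a ^ n) = ρ.character a ^ n := by
    intro n
    induction n with
    | zero => rw [pow_zero, pow_zero, h1]
    | succ n ih => rw [pow_succ, pow_succ, hmul, ih]
  have hsq : ρ.character a ^ 2 = 1 := by
    rw [pow_two]
    nth_rewrite 1 [← hinv a]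
    rw [← hmul, inv_mul_cancel, h1]
  obtain ⟨k, hk⟩ := hodd
  have := hpow (Nat.card A)
  rw [pow_card_eq_one', h1, hk, pow_succ, pow_mul, hsq, one_pow, one_mul] at this
  exact this.symm

variable {G : Type*} [Group G] [Fintype G]

open scoped Classical in
/-- A faithful character, real on an odd abelian group `A ≠ 1`, that takes one value on `vA` for the
three involutions `v` of a Klein group commuting with `A`, has degree at least eight. -/
theorem eight_le_degree (χ : IrrCharacter G) (A V : Subgroup G)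
    (hA : ∀ a ∈ A, ∀ b ∈ A, a * b = b * a) (hAodd : Odd (Nat.card A)) (hA1 : A ≠ ⊥)
    (hV : Nat.card V = 4) (hAV : ∀ a ∈ A, ∀ v ∈ V, a * v = v * a) (s : ℂ)
    (hval : ∀ a ∈ A, ∀ v ∈ V, v ≠ 1 → (χ : G → ℂ) (a * v) = s)
    (hinv : ∀ a ∈ A, (χ : G → ℂ) a⁻¹ = (χ : G → ℂ) a)
    (hfaith : ∀ g, (χ : G → ℂ) g = (χ : G → ℂ) 1 → g = 1) :
    8 ≤ charDegree (χ : G → ℂ) := by
  haveI := Fintype.ofFinite (IrrCharacter A)
  haveI := Fintype.ofFinite A
  haveI := Fintype.ofFinite V
  obtain ⟨hdeg, -, -⟩ := BrauerCharacters.charDegree_spec χ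
  obtain ⟨D, hD⟩ : ∃ D, D = charDegree (χ : G → ℂ) := ⟨_, rfl⟩
  rw [← hD] at hdeg ⊢
  have hres : IsCharacter A (fun a => (χ : G → ℂ) a) := by
    obtain ⟨n, ρ, -, hc⟩ := χ.2
    exact ⟨n, ρ.comp A.subtype, funext fun a => by rw [← hc]; rfl⟩
  obtain ⟨m, hm⟩ := IsCharacter.exists_sum hres
  have hm' : ∀ θ : IrrCharacter A,
      classInner (fun a : A => (χ : G → ℂ) a) (θ : A → ℂ) = m θ := fun θ => by
    rw [hm, classInner_sum_irr]
  have hθ1 : ∀ θ : IrrCharacter A, (θ : A → ℂ) 1 = 1 := fun θ =>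
    apply_one_eq_one_of_comm (fun a b => Subtype.ext (hA a a.2 b b.2)) θ.2
  have hone : (D : ℂ) = ∑ θ : IrrCharacter A, (m θ : ℂ) := by
    have := congrFun hm 1
    simp only [Finset.sum_apply, Pi.smul_apply, hθ1, smul_eq_mul, mul_one] at this
    rw [← this, OneMemClass.coe_one, hdeg]
  -- a non-trivial constituent
  obtain ⟨θ, hθne, hθpos⟩ : ∃ θ : IrrCharacter A, θ ≠ trivIrr A ∧ m θ ≠ 0 := by
    by_contra hcon
    push Not at hcon
    refine hA1 (A.eq_bot_iff_forall.2 fun a ha => hfaith a ?_)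
    have e : ∀ x : A, (χ : G → ℂ) x = (m (trivIrr A) : ℂ) := fun x => by
      have := congrFun hm x
      rw [this, Finset.sum_apply, Finset.sum_eq_single (trivIrr A)]
      · simp [trivIrr_apply]
      · intro θ _ hθ
        simp [hcon θ hθ]
      · simp
    have h1 := e 1
    rw [OneMemClass.coe_one] at h1
    rw [h1]
    exact e ⟨a, ha⟩
  -- the multiplicity is a multiple of four
  have hsum0 : ∑ a : A, conj ((θ : A → ℂ) a) = 0 := by
    have h := classInner_irrCharacter (trivIrr A) θ
    rw [if_neg (Ne.symm hθne), classInner] at h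
    simp only [trivIrr_apply, one_mul] at h
    exact (mul_eq_zero.1 h).resolve_left (inv_ne_zero (by simp))
  let f : A × V →* G :=
    { toFun := fun p => (p.1 : G) * p.2
      map_one' := by simp
      map_mul' := fun p q => by
        show (p.1 : G) * q.1 * ((p.2 : G) * q.2) = p.1 * p.2 * (q.1 * q.2)
        rw [mul_assoc, ← mul_assoc (q.1 : G), hAV q.1 q.1.2 p.2 p.2.2]
        simp only [mul_assoc] }
  have hfch : IsCharacter (A × V) (fun p => (χ : G → ℂ) (f p)) := by
    obtain ⟨n, ρ, -, hc⟩ := χ.2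
    exact ⟨n, ρ.comp f, funext fun a => by rw [← hc]; rfl⟩
  obtain ⟨k, hk⟩ := IsCharacter.exists_classInner_eq_nat hfch
    (⟨_, isIrrCharacter_comp θ.2 (f := MonoidHom.fst A V) (fun a => ⟨(a, 1), rfl⟩)⟩ :
      IrrCharacter (A × V))
  have hin : ∀ a : A, ∑ v : V, (χ : G → ℂ) ((a : G) * v) = (χ : G → ℂ) a + 3 * s := by
    intro a
    rw [← Finset.add_sum_erase _ _ (Finset.mem_univ (1 : V)), OneMemClass.coe_one, mul_one,
      Finset.sum_congr rfl (g := fun _ : V => s) fun (v : V) hv => hval a a.2 v v.2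
        (fun e => (Finset.mem_erase.1 hv).1 (Subtype.ext e)), Finset.sum_const,
      Finset.card_erase_of_mem (Finset.mem_univ _), Finset.card_univ,
      ← Nat.card_eq_fintype_card, hV]
    simp
  have hfour : m θ = 4 * k := by
    have hθm := hm' θ
    rw [classInner] at hθm
    have e : classInner (fun p : A × V => (χ : G → ℂ) (f p))
        (fun p : A × V => (θ : A → ℂ) p.1) = (m θ : ℂ) / 4 := by
      rw [classInner, Nat.card_prod, hV, Fintype.sum_prod_type]
      show _ * ∑ a : A, ∑ v : V, (χ : G → ℂ) ((a : G) * v) * conj ((θ : A → ℂ) a) = _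
      simp only [← Finset.sum_mul, hin, add_mul, Finset.sum_add_distrib, ← Finset.mul_sum,
        hsum0, mul_zero, add_zero]
      rw [← hθm, Nat.cast_mul, mul_inv]
      push_cast
      ring
    have e' : (m θ : ℂ) / 4 = k := e.symm.trans hk
    rw [div_eq_iff (by norm_num)] at e'
    have : m θ = k * 4 := by exact_mod_cast e'
    omega
  -- the conjugate constituent
  haveI : IsMulCommutative A := ⟨⟨fun a b => Subtype.ext (hA a a.2 b b.2)⟩⟩
  let e : A ≃* A :=
    { Equiv.inv A with
      map_mul' := fun a b => by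
        show (a * b)⁻¹ = a⁻¹ * b⁻¹
        rw [mul_inv_rev]
        exact Subtype.ext (hA _ (b⁻¹).2 _ (a⁻¹).2) }
  let θ' : IrrCharacter A := ⟨_, isIrrCharacter_comp_mulEquiv θ.2 e⟩
  have hne : θ' ≠ θ := by
    intro he
    refine hθne (Subtype.ext (funext fun a => ?_))
    rw [trivIrr_apply]
    exact eq_one_of_linear_inv hAodd (IsIrrCharacter.isCharacter θ.2) (hθ1 θ)
      (fun x => congrFun (congrArg Subtype.val he) x) a
  have hmθ' : m θ' = m θ := by
    have e1 : classInner (fun a : A => (χ : G → ℂ) a) (θ' : A → ℂ) =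
        classInner (fun a : A => (χ : G → ℂ) a) (θ : A → ℂ) := by
      rw [classInner, classInner]
      congr 1
      refine Fintype.sum_equiv (Equiv.inv A) _ _ fun a => ?_
      show (χ : G → ℂ) a * conj ((θ : A → ℂ) a⁻¹) =
        (χ : G → ℂ) ((a⁻¹ : A) : G) * conj ((θ : A → ℂ) a⁻¹)
      rw [InvMemClass.coe_inv, hinv a a.2]
    rw [hm', hm'] at e1
    exact_mod_cast e1
  have hle : m θ' + m θ ≤ ∑ φ : IrrCharacter A, m φ := by
    rw [← Finset.sum_pair hne]
    exact Finset.sum_le_sum_of_subset (Finset.subset_univ _)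
  have hD' : D = ∑ φ : IrrCharacter A, m φ := by exact_mod_cast hone
  have : 1 ≤ k := by omega
  omega

end CfsgLib.SelfCentFour
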