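import Cfsg.Agent.Lib.SelfCentFour.Local
import Cfsg.Agent.Lib.SelfCentFour.Degree
import Cfsg.Agent.Lib.Involutions.DihedralOrder
import Cfsg.Agent.Lib.SmallGroups.BrauerReynoldsBasic

/-!
# The principal block when an element of order four is its own centraliser
-/

set_option autoImplicit false
set_option linter.unusedSectionVars false
set_option linter.style.haveILetI false

open scoped ComplexConjugate
open Cfsg CfsgLib.CharTheory CfsgLib.Involutions

namespace CfsgLib.SelfCentFour

universe u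

variable {G : Type u} [Group G] [Fintype G] {P : Sylow 2 G} {d : DihData P 3} {M : Ideal AlgInt}

theorem card_centralizer_σ (hC : IsSelfCent d) :
    Nat.card (Subgroup.centralizer ({d.σ} : Set G)) = 4 := by
  have e : Subgroup.centralizer ({d.σ} : Set G) = Subgroup.zpowers d.σ := by
    refine le_antisymm (fun g hg => hC g (mem_centralizer_singleton.1 hg))
      (Subgroup.zpowers_le.2 (mem_centralizer_singleton.2 rfl))
  rw [e, Nat.card_zpowers, orderOf_σ]

theorem isPrimitiveRoot_I : IsPrimitiveRoot Complex.I (2 ^ (3 - 1)) := by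
  rw [IsPrimitiveRoot.iff (by norm_num)]
  refine ⟨by rw [show (2 : ℕ) ^ (3 - 1) = 4 by norm_num]; exact Complex.I_pow_four, ?_⟩
  intro l hl0 hl
  have hl' : l < 4 := by simpa using hl
  interval_cases l <;> norm_num [Complex.ext_iff, pow_succ]

/-- The values at the element of order four. -/
theorem sigma_vals (b : DihBlock d M Complex.I) :
    (b.χ1 : G → ℂ) d.σ = b.δ1 ∧ (b.χ2 : G → ℂ) d.σ = b.δ2 ∧ (b.χ3 : G → ℂ) d.σ = b.δ3 := by
  have h1 := b.val1 1 one_pos (by norm_num)
  have h2 := b.val2 1 one_pos (by norm_num)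
  have h3 := b.val3 1 one_pos (by norm_num)
  rw [pow_one] at h1 h2 h3
  exact ⟨h1, by rw [h2]; norm_num, by rw [h3]; norm_num⟩

/-- The values at the central involution. -/
theorem J_vals (b : DihBlock d M Complex.I) :
    (b.χ1 : G → ℂ) d.J = b.δ1 ∧ (b.χ2 : G → ℂ) d.J = -(b.δ2 : ℂ) ∧
      (b.χ3 : G → ℂ) d.J = -(b.δ3 : ℂ) := by
  refine ⟨b.val1 2 two_pos (by norm_num), ?_, ?_⟩
  · rw [J_eq_sq, b.val2 2 two_pos (by norm_num)]; ring
  · rw [J_eq_sq, b.val3 2 two_pos (by norm_num)]; ring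

/-- All other irreducible characters vanish at the element of order four. -/
theorem vanish (hC : IsSelfCent d) (b : DihBlock d M Complex.I) (χ : IrrCharacter G)
    (h0 : χ ≠ trivIrr G) (h1 : χ ≠ b.χ1) (h2 : χ ≠ b.χ2) (h3 : χ ≠ b.χ3) :
    (χ : G → ℂ) d.σ = 0 := by
  classical
  haveI := Fintype.ofFinite (IrrCharacter G)
  have h := CharTheory.sum_mul_conj d.σ d.σ
  rw [if_pos (IsConj.refl _), card_centralizer_σ hC] at h
  have hre := congrArg Complex.re h
  rw [Complex.re_sum, Complex.natCast_re] at hre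
  simp only [Complex.mul_conj, Complex.ofReal_re] at hre
  obtain ⟨e1, e2, e3⟩ := sigma_vals b
  have hsub : ∑ ψ ∈ ({trivIrr G, b.χ1, b.χ2, b.χ3} : Finset (IrrCharacter G)),
      Complex.normSq ((ψ : G → ℂ) d.σ) = 4 := by
    rw [Finset.sum_insert, Finset.sum_insert, Finset.sum_insert, Finset.sum_singleton, e1, e2, e3,
      trivIrr_apply]
    · rcases b.hδ1 with q1 | q1 <;> rcases b.hδ2 with q2 | q2 <;> rcases b.hδ3 with q3 | q3 <;>
        rw [q1, q2, q3] <;> norm_num
    · simp [b.h23]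
    · simp [b.h12, b.h13]
    · simp [b.ne1.symm, b.ne2.symm, b.ne3.symm]
  rw [← Finset.sum_sdiff (Finset.subset_univ _), hsub] at hre
  have hz : ∑ ψ ∈ Finset.univ \ ({trivIrr G, b.χ1, b.χ2, b.χ3} : Finset (IrrCharacter G)),
      Complex.normSq ((ψ : G → ℂ) d.σ) = 0 := by
    push_cast at hre
    linarith
  exact Complex.normSq_eq_zero.1 ((Finset.sum_eq_zero_iff_of_nonneg
    fun ψ _ => Complex.normSq_nonneg _).1 hz χ (by simp [h0, h1, h2, h3]))

/-- The involutions multiplying the element of order four to an involution. -/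
theorem inverting_cases (hC : IsSelfCent d) {x : G} (h : x * d.σ * x⁻¹ = d.σ⁻¹) :
    ∃ j : ℕ, j < 4 ∧ x = d.σ ^ j * d.τ := by
  have hc : x * d.τ * d.σ = d.σ * (x * d.τ) := by
    have e : d.τ * d.σ = d.σ⁻¹ * d.τ := by rw [← d.rel, inv_mul_cancel_right]
    have e2 : x * d.σ⁻¹ = d.σ * x := by
      have := congrArg Inv.inv h
      rw [inv_inv, mul_inv_rev, mul_inv_rev, inv_inv, ← mul_assoc] at this
      calc x * d.σ⁻¹ = x * d.σ⁻¹ * x⁻¹ * x := (inv_mul_cancel_right _ _).symm
        _ = _ := by rw [this]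
    rw [mul_assoc, e, ← mul_assoc, e2, mul_assoc]
  obtain ⟨j, hj⟩ := (mem_powers_iff_mem_zpowers (x := d.σ)).2 (hC _ hc)
  refine ⟨j % 4, Nat.mod_lt _ (by norm_num), ?_⟩
  rw [← orderOf_σ d, pow_mod_orderOf, show d.σ ^ j = x * d.τ from hj, mul_assoc,
    mul_self_eq_one d.ordτ, mul_one]

open scoped Classical in
theorem card_pairs (hC : IsSelfCent d) (hall : ∀ x : G, orderOf x = 2 → IsConj d.J x) :
    (Finset.univ.filter fun x => IsConj d.J x ∧ IsConj d.J (x * d.σ)).card = 4 := by
  have e : (Finset.univ.filter fun x => IsConj d.J x ∧ IsConj d.J (x * d.σ)) =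
      (Finset.range 4).image fun j => d.σ ^ j * d.τ := by
    ext x
    simp only [Finset.mem_filter, Finset.mem_univ, true_and, Finset.mem_image, Finset.mem_range]
    constructor
    · rintro ⟨h1, h2⟩
      have ho : ∀ {y : G}, IsConj d.J y → orderOf y = 2 := fun {y} hy => by
        obtain ⟨g, rfl⟩ := isConj_iff.1 hy
        rw [orderOf_conj, d.orderOf_J]
      have q1 := mul_self_eq_one (ho h1)
      have q2 := mul_self_eq_one (ho h2)
      obtain ⟨j, hj, rfl⟩ := inverting_cases hC (x := x) (by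
        rw [inv_eq_self (ho h1)]
        refine eq_inv_of_mul_eq_one_left ?_
        rw [← q2]
        simp only [mul_assoc])
      exact ⟨j, hj, rfl⟩
    · rintro ⟨j, -, rfl⟩
      refine ⟨hall _ (d.orderOf_refl j), hall _ ?_⟩
      rw [show d.σ ^ j * d.τ * d.σ = d.σ ^ j * (d.τ * d.σ * d.τ⁻¹) * d.τ by group, d.rel]
      rw [show d.σ ^ j * d.σ⁻¹ = d.σ ^ (j + 3) by
        rw [mul_inv_eq_iff_eq_mul, ← pow_succ, show j + 3 + 1 = j + 4 by omega, pow_add,
          show d.σ ^ 4 = 1 by rw [← orderOf_σ d, pow_orderOf_eq_one], mul_one]]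
      exact d.orderOf_refl _
  rw [e, Finset.card_image_of_injOn, Finset.card_range]
  intro i hi j hj h
  simp only [Finset.coe_range, Set.mem_Iio] at hi hj
  exact pow_injOn_Iio_orderOf (by rw [orderOf_σ]; exact hi) (by rw [orderOf_σ]; exact hj)
    (mul_right_cancel h)

theorem index_eq (a : G) : ((Subgroup.centralizer ({a} : Set G)).index : ℂ) =
    (Nat.card G : ℂ) / (Nat.card (Subgroup.centralizer ({a} : Set G)) : ℂ) := by
  rw [eq_div_iff (by exact_mod_cast Nat.card_pos.ne'), ← Nat.cast_mul, Subgroup.index_mul_card]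

open scoped Classical in
/-- Counting the pairs of involutions with product the element of order four. -/
theorem count_formula (hC : IsSelfCent d) (hall : ∀ x : G, orderOf x = 2 → IsConj d.J x)
    (b : DihBlock d M Complex.I) :
    (Nat.card G : ℂ) * (1 + (b.δ1 : ℂ) / (charDegree (b.χ1 : G → ℂ) : ℂ) +
      (b.δ2 : ℂ) / (charDegree (b.χ2 : G → ℂ) : ℂ) +
      (b.δ3 : ℂ) / (charDegree (b.χ3 : G → ℂ) : ℂ)) = 4 * (Nat.card d.H : ℂ) ^ 2 := by
  haveI := Fintype.ofFinite (IrrCharacter G)
  have h := BrauerCharacters.sum_weight_pairs d.J d.J (fun u => if u = d.σ then 1 else 0)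
  simp only [ite_mul, one_mul, zero_mul, Finset.sum_ite_eq', Finset.mem_univ, if_true] at h
  have key : ∀ i : DecidablePred fun x => IsConj d.J x ∧ IsConj d.J (x * d.σ),
      (@Finset.filter G _ i Finset.univ).card = 4 := fun i => by convert card_pairs hC hall
  rw [key] at h
  have hs : ∑ χ : IrrCharacter G, centralChar (χ : G → ℂ) d.J * conj ((χ : G → ℂ) d.J) *
      (χ : G → ℂ) d.σ = ∑ χ ∈ ({trivIrr G, b.χ1, b.χ2, b.χ3} : Finset (IrrCharacter G)),
      centralChar (χ : G → ℂ) d.J * conj ((χ : G → ℂ) d.J) * (χ : G → ℂ) d.σ := by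
    refine (Finset.sum_subset (Finset.subset_univ _) fun χ _ hχ => ?_).symm
    simp only [Finset.mem_insert, Finset.mem_singleton, not_or] at hχ
    rw [vanish hC b χ hχ.1 hχ.2.1 hχ.2.2.1 hχ.2.2.2, mul_zero]
  obtain ⟨e1, e2, e3⟩ := sigma_vals b
  obtain ⟨j1, j2, j3⟩ := J_vals b
  obtain ⟨d1, p1, -⟩ := BrauerCharacters.charDegree_spec b.χ1
  obtain ⟨d2, p2, -⟩ := BrauerCharacters.charDegree_spec b.χ2
  obtain ⟨d3, p3, -⟩ := BrauerCharacters.charDegree_spec b.χ3
  rw [hs, Finset.sum_insert, Finset.sum_insert, Finset.sum_insert, Finset.sum_singleton] at h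
  · simp only [centralChar, trivIrr_apply, e1, e2, e3, j1, j2, j3, d1, d2, d3, map_one, map_neg,
      map_intCast, index_eq] at h
    rw [show (Subgroup.centralizer ({d.J} : Set G)) = d.H from rfl] at h
    have hg : (Nat.card G : ℂ) ≠ 0 := by exact_mod_cast Nat.card_pos.ne'
    have hh : (Nat.card d.H : ℂ) ≠ 0 := by exact_mod_cast Nat.card_pos.ne'
    have n1 : (charDegree (b.χ1 : G → ℂ) : ℂ) ≠ 0 := by exact_mod_cast p1.ne'
    have n2 : (charDegree (b.χ2 : G → ℂ) : ℂ) ≠ 0 := by exact_mod_cast p2.ne'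
    have n3 : (charDegree (b.χ3 : G → ℂ) : ℂ) ≠ 0 := by exact_mod_cast p3.ne'
    have s1 : (b.δ1 : ℂ) * b.δ1 = 1 := by rcases b.hδ1 with q | q <;> rw [q] <;> norm_num
    have s2 : (b.δ2 : ℂ) * b.δ2 = 1 := by rcases b.hδ2 with q | q <;> rw [q] <;> norm_num
    have s3 : (b.δ3 : ℂ) * b.δ3 = 1 := by rcases b.hδ3 with q | q <;> rw [q] <;> norm_num
    push_cast at h
    field_simp at h
    have c1 : (b.δ1 : ℂ) ^ 3 = b.δ1 := by rw [pow_three, s1, mul_one]
    have c2 : (b.δ2 : ℂ) ^ 3 = b.δ2 := by rw [pow_three, s2, mul_one]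
    have c3 : (b.δ3 : ℂ) ^ 3 = b.δ3 := by rw [pow_three, s3, mul_one]
    simp only [c1, c2, c3] at h
    field_simp
    linear_combination -h
  · simp [b.h23]
  · simp [b.h12, b.h13]
  · simp [b.ne1.symm, b.ne2.symm, b.ne3.symm]

/-- Constancy of the principal characters on `v` times odd elements commuting with `v`. -/
theorem apply_mul_odd (hM : IsPModular 2 M) (hall : ∀ x : G, orderOf x = 2 → IsConj d.J x)
    {χ : IrrCharacter G} (hχ : χ ∈ principalBlock M G) {v u : G} (hv : orderOf v = 2)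
    (hu : Odd (orderOf u)) (hc : u * v = v * u) :
    (χ : G → ℂ) (u * v) = (χ : G → ℂ) d.J := by
  haveI := Blocks.isPrime_of_isPModular hM
  obtain ⟨g, hg⟩ := isConj_iff.1 (hall v hv).symm
  have hmem : g * u * g⁻¹ ∈ d.O := d.mem_O.2 ⟨mem_centralizer_singleton.2 (by
    rw [← hg, show g * u * g⁻¹ * (g * v * g⁻¹) = g * (u * v) * g⁻¹ by group, hc]
    group), by rw [orderOf_conj]; exact hu⟩
  have h := apply_mul_eq_apply hM hχ (z := d.J) (k := 1) (by rw [pow_one]; exact d.orderOf_J)
    (ne_one d.orderOf_J) d.O (fun x hx => d.O_le_H hx)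
    (fun c hc' n hn => d.conj_mem_O hc' hn)
    (fun h2 => Nat.not_even_iff_odd.2 d.odd_card_O (even_iff_two_dvd.2 h2)) hmem
  rw [← h, ← BrauerCharacters.apply_conj_elem χ (u * v) g, hc, ← hg]
  group

/-- Parity of the degree. -/
theorem odd_degree {χ : IrrCharacter G} {z : G} (hz : orderOf z = 2)
    (hval : (χ : G → ℂ) z = 1 ∨ (χ : G → ℂ) z = -1) : Odd (charDegree (χ : G → ℂ)) := by
  classical
  obtain ⟨m, hm⟩ := BrauerCharacters.exists_nat_sum_subgroup χ (Subgroup.zpowers z)
  rw [Nat.card_zpowers, hz] at hm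
  have e : (Finset.univ.filter fun u => u ∈ Subgroup.zpowers z) = ({1, z} : Finset G) := by
    ext u
    simp only [Finset.mem_filter, Finset.mem_univ, true_and, Finset.mem_insert,
      Finset.mem_singleton]
    constructor
    · intro hu
      obtain ⟨j, rfl⟩ := (mem_powers_iff_mem_zpowers (x := z)).2 hu
      simp only
      rw [← pow_mod_orderOf, hz]
      rcases Nat.mod_two_eq_zero_or_one j with h | h <;> simp [h]
    · rintro (rfl | rfl)
      · exact one_mem _
      · exact Subgroup.mem_zpowers _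
  simp only [ite_mul, one_mul, zero_mul, ← Finset.sum_filter, e] at hm
  rw [Finset.sum_pair (ne_one hz).symm, (BrauerCharacters.charDegree_spec χ).1] at hm
  push_cast at hm
  rcases hval with h | h <;> rw [h] at hm
  · have h' : ((charDegree (χ : G → ℂ) + 1 : ℕ) : ℂ) = ((2 * m : ℕ) : ℂ) := by
      push_cast; linear_combination hm
    have := Nat.cast_injective h'
    exact ⟨m - 1, by omega⟩
  · have h' : ((charDegree (χ : G → ℂ) : ℕ) : ℂ) = ((2 * m + 1 : ℕ) : ℂ) := by
      push_cast; linear_combination hm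
    exact ⟨m, Nat.cast_injective h'⟩

/-- Degrees of the three nontrivial characters are at least nine once `A` is nontrivial. -/
theorem nine_le_degree [IsSimpleGroup G] (hC : IsSelfCent d) (hM : IsPModular 2 M)
    (hall : ∀ x : G, orderOf x = 2 → IsConj d.J x) {χ : IrrCharacter G}
    (hχ : χ ∈ principalBlock M G) (h1 : χ ≠ trivIrr G)
    (hJ : (χ : G → ℂ) d.J = 1 ∨ (χ : G → ℂ) d.J = -1) (hA : fixPart d ≠ ⊥) :
    9 ≤ charDegree (χ : G → ℂ) := by
  have h8 : 8 ≤ charDegree (χ : G → ℂ) := by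
    refine eight_le_degree χ (fixPart d)
      ((P : Subgroup G) ⊓ Subgroup.centralizer ({d.τ} : Set G))
      (fun a ha c hc => O_comm hC (fixPart_le d ha) (fixPart_le d hc)) (odd_card_fixPart d) hA
      card_P_inf_τ ?_ ((χ : G → ℂ) d.J) ?_ ?_ ?_
    · intro a ha v hv
      rcases P_cases_comm hv.1 (mem_centralizer_singleton.1 hv.2) with h | h | h | h <;> rw [h]
      · simp
      · exact J_comm_O d (fixPart_le d ha)
      · exact ((mem_fixPart d).1 ha).2
      · rw [← mul_assoc, J_comm_O d (fixPart_le d ha), mul_assoc, ((mem_fixPart d).1 ha).2,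
          mul_assoc]
    · intro a ha v hv hv1
      have hv2 : orderOf v = 2 := by
        refine orderOf_eq_two_iff.2 ⟨?_, hv1⟩
        rcases P_cases_comm hv.1 (mem_centralizer_singleton.1 hv.2) with h | h | h | h <;> rw [h]
        · simp
        · exact mul_self_eq_one d.orderOf_J
        · exact mul_self_eq_one d.ordτ
        · rw [mul_assoc, ← mul_assoc d.τ, τ_comm_J, mul_assoc, mul_self_eq_one d.ordτ, mul_one,
            mul_self_eq_one d.orderOf_J]
      refine apply_mul_odd hM hall hχ hv2 (odd_of_mem_O d (fixPart_le d ha)) ?_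
      rcases P_cases_comm hv.1 (mem_centralizer_singleton.1 hv.2) with h | h | h | h <;> rw [h]
      · simp
      · exact J_comm_O d (fixPart_le d ha)
      · exact ((mem_fixPart d).1 ha).2
      · rw [← mul_assoc, J_comm_O d (fixPart_le d ha), mul_assoc, ((mem_fixPart d).1 ha).2,
          mul_assoc]
    · intro a ha
      rw [← σ_conj_inv hC (fixPart_le d ha), BrauerCharacters.apply_conj_elem]
    · exact fun g hg => SmallGroups.BrauerReynolds.eq_one_of_apply_eq h1 hg
  obtain ⟨k, hk⟩ := odd_degree d.orderOf_J hJ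
  omega

end CfsgLib.SelfCentFour
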