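import Cfsg.Agent.Lib.Involutions.DihedralData
import Mathlib.GroupTheory.FixedPointFree

/-!
# The centraliser of an involution above a self-centralising element of order four
-/

set_option autoImplicit false
set_option linter.unusedSectionVars false

namespace CfsgLib.SelfCentFour

open Cfsg CfsgLib CfsgLib.Involutions

variable {G : Type*} [Group G] [Finite G]

/-- An element of a finite group of odd order fixed by no inversion. -/
theorem eq_one_of_inv_eq {x : G} (ho : Odd (orderOf x)) (h : x⁻¹ = x) : x = 1 := by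
  refine orderOf_eq_one_iff.1 (Nat.eq_one_of_dvd_coprimes (Nat.coprime_two_left.2 ho)
    (orderOf_dvd_of_pow_eq_one ?_) dvd_rfl)
  rw [pow_two]
  nth_rewrite 1 [← h]
  exact inv_mul_cancel x

/-- In a group of odd order every element is a power of its square. -/
theorem exists_sq_pow {x : G} (ho : Odd (orderOf x)) : ∃ k : ℕ, (x * x) ^ k = x := by
  obtain ⟨a, ha⟩ := ho
  refine ⟨a + 1, ?_⟩
  rw [← pow_two, ← pow_mul, show 2 * (a + 1) = orderOf x + 1 by omega, pow_succ,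
    pow_orderOf_eq_one, one_mul]

section

variable {P : Sylow 2 G} (d : DihData P 3)

theorem orderOf_σ : orderOf d.σ = 4 := d.ordσ

theorem J_eq_sq : d.J = d.σ ^ 2 := rfl

theorem σ_sq_mul : d.σ * d.σ = d.J := (pow_two _).symm

theorem J_comm_O {x : G} (hx : x ∈ d.O) : x * d.J = d.J * x :=
  mem_centralizer_singleton.1 (d.O_le_H hx)

theorem odd_of_mem_O {x : G} (hx : x ∈ d.O) : Odd (orderOf x) := (d.mem_O.1 hx).2

/-- The element of order four is its own centraliser. -/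
def IsSelfCent : Prop := ∀ g : G, g * d.σ = d.σ * g → g ∈ Subgroup.zpowers d.σ

variable {d}

theorem eq_one_of_fixed (hC : IsSelfCent d) {x : G} (hx : x ∈ d.O)
    (h : d.σ * x * d.σ⁻¹ = x) : x = 1 :=
  d.eq_one_of_mem (Subgroup.zpowers_le.2 d.hσ (hC x (by
    nth_rewrite 1 [← h]
    rw [inv_mul_cancel_right]))) hx

/-- The element of order four inverts `O`. -/
theorem σ_conj_inv (hC : IsSelfCent d) {x : G} (hx : x ∈ d.O) : d.σ * x * d.σ⁻¹ = x⁻¹ := by
  let φ : d.O →* d.O :=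
    { toFun := fun y => ⟨d.σ * y * d.σ⁻¹, d.conj_mem_O d.σ_mem_H y.2⟩
      map_one' := Subtype.ext (by simp)
      map_mul' := fun a b => Subtype.ext (by
        show d.σ * ((a : G) * b) * d.σ⁻¹ = d.σ * a * d.σ⁻¹ * (d.σ * b * d.σ⁻¹)
        group) }
  have h1 : MonoidHom.FixedPointFree φ := fun y hy =>
    Subtype.ext (eq_one_of_fixed hC y.2 (congrArg Subtype.val hy))
  have h2 : Function.Involutive φ := fun y => Subtype.ext (by
    show d.σ * (d.σ * y * d.σ⁻¹) * d.σ⁻¹ = y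
    rw [show d.σ * (d.σ * (y : G) * d.σ⁻¹) * d.σ⁻¹ = d.σ * d.σ * y * (d.σ * d.σ)⁻¹ by group,
      σ_sq_mul, ← J_comm_O d y.2, mul_inv_cancel_right])
  exact congrArg Subtype.val (congrFun (MonoidHom.FixedPointFree.coe_eq_inv_of_involutive h1 h2)
    (⟨x, hx⟩ : d.O))

theorem O_comm (hC : IsSelfCent d) {x y : G} (hx : x ∈ d.O) (hy : y ∈ d.O) : x * y = y * x := by
  have h := σ_conj_inv hC (mul_mem hx hy)
  rw [show d.σ * (x * y) * d.σ⁻¹ = d.σ * x * d.σ⁻¹ * (d.σ * y * d.σ⁻¹) by group,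
    σ_conj_inv hC hx, σ_conj_inv hC hy, ← mul_inv_rev, inv_inj] at h
  exact h.symm

variable (d)

/-- The exchange of the two classes of reflections. -/
def swap : DihData P 3 where
  σ := d.σ
  τ := d.σ * d.τ
  hn := d.hn
  hσ := d.hσ
  hτ := mul_mem d.hσ d.hτ
  ordσ := d.ordσ
  ordτ := by simpa using d.orderOf_refl 1
  rel := by
    rw [show d.σ * d.τ * d.σ * (d.σ * d.τ)⁻¹ = d.σ * (d.τ * d.σ * d.τ⁻¹) * d.σ⁻¹ by group,
      d.rel, mul_inv_cancel, one_mul]
  cover := fun x hx => by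
    obtain ⟨j, rfl | rfl⟩ := d.cover x hx
    · exact ⟨j, Or.inl rfl⟩
    · refine ⟨j + 3, Or.inr ?_⟩
      rw [← mul_assoc, ← pow_succ, show j + 3 + 1 = j + 4 by omega, pow_add, show d.σ ^ 4 = 1 by
        rw [← orderOf_σ d, pow_orderOf_eq_one], mul_one]

@[simp] theorem swap_σ : (swap d).σ = d.σ := rfl

theorem swap_τ : (swap d).τ = d.σ * d.τ := rfl

theorem swap_J : (swap d).J = d.J := rfl

theorem swap_H : (swap d).H = d.H := rfl

theorem swap_O : (swap d).O = d.O := by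
  ext x
  rw [DihData.mem_O, DihData.mem_O, swap_H]

theorem isSelfCent_swap {d : DihData P 3} (hC : IsSelfCent d) : IsSelfCent (swap d) := hC

/-- The part of `O` fixed by the reflection. -/
noncomputable def fixPart : Subgroup G := d.O ⊓ Subgroup.centralizer ({d.τ} : Set G)

theorem mem_fixPart {x : G} : x ∈ fixPart d ↔ x ∈ d.O ∧ x * d.τ = d.τ * x :=
  and_congr Iff.rfl mem_centralizer_singleton

theorem fixPart_le : fixPart d ≤ d.O := inf_le_left

theorem odd_card_fixPart : Odd (Nat.card (fixPart d)) :=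
  d.odd_card_O.of_dvd_nat (Subgroup.card_dvd_of_le inf_le_left)

variable {d}

/-- The second part is inverted by the reflection. -/
theorem mem_fixPart_swap (hC : IsSelfCent d) {x : G} :
    x ∈ fixPart (swap d) ↔ x ∈ d.O ∧ d.τ * x * d.τ⁻¹ = x⁻¹ := by
  rw [mem_fixPart, swap_O, swap_τ]
  refine and_congr_right fun hx => ?_
  have hσ := σ_conj_inv hC (inv_mem hx)
  rw [inv_inv] at hσ
  constructor
  · intro h
    rw [show d.τ * x * d.τ⁻¹ = d.σ⁻¹ * (d.σ * d.τ * x * (d.σ * d.τ)⁻¹) * d.σ by group, ← h,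
      mul_inv_cancel_right]
    nth_rewrite 1 [← hσ]
    group
  · intro h
    have e : d.σ * d.τ * x * (d.σ * d.τ)⁻¹ = x := by
      rw [show d.σ * d.τ * x * (d.σ * d.τ)⁻¹ = d.σ * (d.τ * x * d.τ⁻¹) * d.σ⁻¹ by group, h, hσ]
    calc x * (d.σ * d.τ) = d.σ * d.τ * x * (d.σ * d.τ)⁻¹ * (d.σ * d.τ) := by rw [e]
      _ = _ := inv_mul_cancel_right _ _

theorem fixPart_inter (hC : IsSelfCent d) {x : G} (h1 : x ∈ fixPart d)
    (h2 : x ∈ fixPart (swap d)) : x = 1 := by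
  obtain ⟨hx, e1⟩ := (mem_fixPart d).1 h1
  have e2 := ((mem_fixPart_swap hC).1 h2).2
  rw [← e1, mul_inv_cancel_right] at e2
  exact eq_one_of_inv_eq (odd_of_mem_O d hx) e2.symm

/-- `O` is the product of the two parts. -/
theorem exists_decomp_O (hC : IsSelfCent d) {x : G} (hx : x ∈ d.O) :
    ∃ a ∈ fixPart d, ∃ c ∈ fixPart (swap d), a * c = x := by
  set y := d.τ * x * d.τ⁻¹ with hy
  have hyO : y ∈ d.O := d.conj_mem_O d.τ_mem_H hx
  have hτy : d.τ * y * d.τ⁻¹ = x := by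
    rw [hy, show d.τ * (d.τ * x * d.τ⁻¹) * d.τ⁻¹ = d.τ * d.τ * x * (d.τ * d.τ)⁻¹ by group,
      mul_self_eq_one d.ordτ, one_mul, inv_one, mul_one]
  obtain ⟨k, hk⟩ := exists_sq_pow (odd_of_mem_O d hx)
  have hA : (x * y) ^ k ∈ fixPart d := pow_mem ((mem_fixPart d).2 ⟨mul_mem hx hyO, by
    refine (mul_inv_eq_iff_eq_mul.1 ?_).symm
    rw [show d.τ * (x * y) * d.τ⁻¹ = y * (d.τ * y * d.τ⁻¹) by rw [hy]; group, hτy]
    exact O_comm hC hyO hx⟩) k
  have hB' : (x * y⁻¹) ^ k ∈ fixPart (swap d) := pow_mem ((mem_fixPart_swap hC).2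
    ⟨mul_mem hx (inv_mem hyO), by
      rw [show d.τ * (x * y⁻¹) * d.τ⁻¹ = y * (d.τ * y * d.τ⁻¹)⁻¹ by rw [hy]; group, hτy,
        mul_inv_rev, inv_inv]⟩) k
  refine ⟨_, hA, _, hB', ?_⟩
  have hc : Commute (x * y) (x * y⁻¹) :=
    O_comm hC (mul_mem hx hyO) (mul_mem hx (inv_mem hyO))
  have hxy : y * x = x * y := O_comm hC hyO hx
  rw [← hc.mul_pow, show x * y * (x * y⁻¹) = x * (y * x) * y⁻¹ by group, hxy, ← mul_assoc,
    mul_inv_cancel_right, hk]

theorem card_O_eq (hC : IsSelfCent d) :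
    Nat.card d.O = Nat.card (fixPart d) * Nat.card (fixPart (swap d)) := by
  have hB : fixPart (swap d) ≤ d.O := fun x hx => ((mem_fixPart_swap hC).1 hx).1
  rw [← Nat.card_prod]
  refine (Nat.card_eq_of_bijective (fun p : fixPart d × fixPart (swap d) =>
    (⟨(p.1 : G) * p.2, mul_mem (fixPart_le d p.1.2) (hB p.2.2)⟩ : d.O)) ⟨?_, ?_⟩).symm
  · rintro ⟨a, b⟩ ⟨a', b'⟩ h
    have h' : (a : G) * b = a' * b' := congrArg Subtype.val h
    have he : (a' : G)⁻¹ * a = b' * (b : G)⁻¹ := by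
      rw [eq_mul_inv_iff_mul_eq, mul_assoc, h', inv_mul_cancel_left]
    have h1 : (a' : G)⁻¹ * a = 1 :=
      fixPart_inter hC (mul_mem (inv_mem a'.2) a.2) (he ▸ mul_mem b'.2 (inv_mem b.2))
    refine Prod.ext (Subtype.ext (inv_mul_eq_one.1 h1).symm) (Subtype.ext ?_)
    exact (mul_inv_eq_one.1 (he ▸ h1)).symm
  · rintro ⟨x, hx⟩
    obtain ⟨a, ha, c, hc, he⟩ := exists_decomp_O hC hx
    exact ⟨(⟨a, ha⟩, ⟨c, hc⟩), Subtype.ext he⟩

theorem card_H_eq : Nat.card d.H = 8 * Nat.card d.O := by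
  rw [← d.card_P.trans (by norm_num : 2 * 2 ^ (3 - 1) = 8), ← Nat.card_prod]
  refine (Nat.card_eq_of_bijective (fun p : ↥(P : Subgroup G) × ↥d.O =>
    (⟨(p.2 : G) * p.1, mul_mem (d.O_le_H p.2.2) (d.P_le_H p.1.2)⟩ : d.H)) ⟨?_, ?_⟩).symm
  · rintro ⟨a, b⟩ ⟨a', b'⟩ h
    have h' : (b : G) * a = b' * a' := congrArg Subtype.val h
    have he := congrArg d.proj h'
    rw [d.proj_mul (d.O_le_H b.2) (d.P_le_H a.2), d.proj_mul (d.O_le_H b'.2) (d.P_le_H a'.2),
      d.proj_of_mem_O b.2, d.proj_of_mem_O b'.2, d.proj_of_mem_P a.2, d.proj_of_mem_P a'.2,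
      one_mul, one_mul] at he
    rw [he] at h'
    exact Prod.ext (Subtype.ext he) (Subtype.ext (mul_right_cancel h'))
  · rintro ⟨h, hh⟩
    obtain ⟨p, hp, hp'⟩ := d.exists_decomp hh
    exact ⟨(⟨p, hp⟩, ⟨_, hp'⟩), Subtype.ext (inv_mul_cancel_right h p)⟩

theorem τ_comm_J : d.τ * d.J = d.J * d.τ := d.J_commute d.hτ

/-- The 2-part of the centraliser of `⟨J, τ⟩`. -/
theorem P_cases_comm {p : G} (hp : p ∈ (P : Subgroup G)) (hc : p * d.τ = d.τ * p) :
    p = 1 ∨ p = d.J ∨ p = d.τ ∨ p = d.J * d.τ := by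
  have key : ∀ j : ℕ, d.σ ^ j * d.τ = d.τ * d.σ ^ j → d.σ ^ j = 1 ∨ d.σ ^ j = d.J := by
    intro j e
    rw [d.τ_mul_pow] at e
    have e1 : d.σ ^ j = (d.σ ^ j)⁻¹ := mul_right_cancel e
    rcases eq_or_ne (d.σ ^ j) 1 with h | h
    · exact Or.inl h
    · refine Or.inr (d.eq_J_of_pow (orderOf_eq_two_iff.2 ⟨?_, h⟩))
      nth_rewrite 2 [e1]
      exact mul_inv_cancel _
  obtain ⟨j, rfl | rfl⟩ := d.cover p hp
  · rcases key j hc with h | h
    · exact Or.inl h
    · exact Or.inr (Or.inl h)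
  · have e : d.σ ^ j * d.τ = d.τ * d.σ ^ j := by
      rw [← mul_assoc] at hc
      exact mul_right_cancel hc
    rcases key j e with h | h
    · exact Or.inr (Or.inr (Or.inl (by rw [h, one_mul])))
    · exact Or.inr (Or.inr (Or.inr (by rw [h])))

theorem J_ne_τ : d.J ≠ d.τ := fun h => d.τ_not_mem (h ▸ Subgroup.npow_mem_zpowers d.σ _)

open scoped Classical in
theorem card_P_inf_τ :
    Nat.card ((P : Subgroup G) ⊓ Subgroup.centralizer ({d.τ} : Set G) : Subgroup G) = 4 := by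
  have h1 : d.J ≠ 1 := ne_one d.orderOf_J
  have h2 : d.τ ≠ 1 := ne_one d.ordτ
  have h3 : d.J * d.τ ≠ 1 := fun e => J_ne_τ (by
    rw [mul_eq_one_iff_eq_inv, inv_eq_self d.ordτ] at e; exact e)
  have h4 : d.J * d.τ ≠ d.J := fun e => h2 (mul_eq_left.1 e)
  have h5 : d.J * d.τ ≠ d.τ := fun e => h1 (mul_eq_right.1 e)
  have e : (((P : Subgroup G) ⊓ Subgroup.centralizer ({d.τ} : Set G) : Subgroup G) : Set G) =
      ↑({1, d.J, d.τ, d.J * d.τ} : Finset G) := by
    ext p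
    simp only [SetLike.mem_coe, Subgroup.mem_inf, mem_centralizer_singleton, Finset.coe_insert,
      Finset.coe_singleton, Set.mem_insert_iff, Set.mem_singleton_iff]
    refine ⟨fun h => P_cases_comm h.1 h.2, ?_⟩
    rintro (rfl | rfl | rfl | rfl)
    · exact ⟨one_mem _, by simp⟩
    · exact ⟨d.J_mem, τ_comm_J.symm⟩
    · exact ⟨d.hτ, rfl⟩
    · refine ⟨mul_mem d.J_mem d.hτ, ?_⟩
      rw [← mul_assoc d.τ, τ_comm_J]
  rw [← SetLike.coe_sort_coe, e, Nat.card_coe_set_eq, Set.ncard_coe_finset]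
  rw [Finset.card_insert_of_notMem, Finset.card_insert_of_notMem, Finset.card_insert_of_notMem,
    Finset.card_singleton]
  · simpa using h5.symm
  · simp only [Finset.mem_insert, Finset.mem_singleton, not_or]
    exact ⟨J_ne_τ, h4.symm⟩
  · simp only [Finset.mem_insert, Finset.mem_singleton, not_or]
    exact ⟨h1.symm, h2.symm, h3.symm⟩

/-- An element of `H` commuting with `τ` is the product of a fixed point and an element of the
Klein group. -/
theorem exists_decomp_comm {h : G} (hh : h ∈ d.H) (hc : h * d.τ = d.τ * h) :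
    ∃ p ∈ (P : Subgroup G), p * d.τ = d.τ * p ∧ h * p⁻¹ ∈ fixPart d := by
  obtain ⟨h1, h2⟩ := d.proj_spec hh
  have e := congrArg d.proj hc
  rw [d.proj_mul hh d.τ_mem_H, d.proj_mul d.τ_mem_H hh, d.proj_of_mem_P d.hτ] at e
  refine ⟨_, h1, e, (mem_fixPart d).2 ⟨h2, ?_⟩⟩
  calc h * (d.proj h)⁻¹ * d.τ = h * d.τ * (d.proj h)⁻¹ := by
        rw [mul_assoc, mul_assoc, (Commute.inv_left e).eq]
    _ = d.τ * (h * (d.proj h)⁻¹) := by rw [hc, mul_assoc]

theorem card_cent_pair :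
    Nat.card (Subgroup.centralizer ({d.J, d.τ} : Set G)) = 4 * Nat.card (fixPart d) := by
  have hmem : ∀ {x : G}, x ∈ Subgroup.centralizer ({d.J, d.τ} : Set G) ↔
      x ∈ d.H ∧ x * d.τ = d.τ * x := by
    intro x
    simp only [Subgroup.mem_centralizer_iff, Set.mem_insert_iff, Set.mem_singleton_iff,
      forall_eq_or_imp, forall_eq, DihData.H]
    exact and_congr Iff.rfl eq_comm
  rw [← card_P_inf_τ (d := d), ← Nat.card_prod]
  refine (Nat.card_eq_of_bijective (fun p :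
    ((P : Subgroup G) ⊓ Subgroup.centralizer ({d.τ} : Set G) : Subgroup G) × fixPart d =>
    (⟨(p.2 : G) * p.1, hmem.2 ⟨mul_mem (d.O_le_H (fixPart_le d p.2.2)) (d.P_le_H p.1.2.1), by
      rw [mul_assoc, mem_centralizer_singleton.1 p.1.2.2, ← mul_assoc,
        ((mem_fixPart d).1 p.2.2).2, mul_assoc]⟩⟩ :
      Subgroup.centralizer ({d.J, d.τ} : Set G))) ⟨?_, ?_⟩).symm
  · rintro ⟨a, b⟩ ⟨a', b'⟩ h
    have h' : (b : G) * a = b' * a' := congrArg Subtype.val h
    have he := congrArg d.proj h'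
    rw [d.proj_mul (d.O_le_H (fixPart_le d b.2)) (d.P_le_H a.2.1),
      d.proj_mul (d.O_le_H (fixPart_le d b'.2)) (d.P_le_H a'.2.1),
      d.proj_of_mem_O (fixPart_le d b.2), d.proj_of_mem_O (fixPart_le d b'.2),
      d.proj_of_mem_P a.2.1, d.proj_of_mem_P a'.2.1, one_mul, one_mul] at he
    rw [he] at h'
    exact Prod.ext (Subtype.ext he) (Subtype.ext (mul_right_cancel h'))
  · rintro ⟨h, hh⟩
    obtain ⟨p, hp, hpc, hp'⟩ := exists_decomp_comm (hmem.1 hh).1 (hmem.1 hh).2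
    exact ⟨(⟨p, hp, mem_centralizer_singleton.2 hpc⟩, ⟨_, hp'⟩),
      Subtype.ext (inv_mul_cancel_right h p)⟩

theorem card_cent_pair' :
    Nat.card (Subgroup.centralizer ({d.J, d.σ * d.τ} : Set G)) =
      4 * Nat.card (fixPart (swap d)) := by
  rw [← card_cent_pair]
  rfl

end

end CfsgLib.SelfCentFour
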