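import Cfsg.Agent.Lib.SelfCentFour.Chars
import Cfsg.Agent.Lib.SelfCentFour.Arith

/-!
# The numerical relations
-/

set_option autoImplicit false
set_option linter.unusedSectionVars false
set_option linter.style.haveILetI false

open Cfsg CfsgLib.CharTheory CfsgLib.Involutions

namespace CfsgLib.SelfCentFour

universe u

variable {G : Type u} [Group G] [Fintype G] {P : Sylow 2 G} {d : DihData P 3}

theorem card_H_fix (hC : IsSelfCent d) :
    Nat.card d.H = 8 * (Nat.card (fixPart d) * Nat.card (fixPart (swap d))) := by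
  rw [card_H_eq, card_O_eq hC]

theorem signed {δ : ℤ} (hδ : δ = 1 ∨ δ = -1) (D : ℕ) (hD : 0 < D) :
    (1 : ℂ) / (((δ * D : ℤ) : ℂ)) = (δ : ℂ) / (D : ℂ) ∧ |δ * (D : ℤ)| = D := by
  rcases hδ with rfl | rfl
  · simp
  · simp [div_neg, neg_div]

theorem exists_rel [IsSimpleGroup G] (hC : IsSelfCent d)
    (hall : ∀ x : G, orderOf x = 2 → IsConj d.J x)
    (hne : fixPart d ≠ ⊥ ∨ fixPart (swap d) ≠ ⊥) :
    ∃ X Y Z : ℤ, Rel (Nat.card G) (Nat.card (fixPart d)) (Nat.card (fixPart (swap d))) X Y Z ∧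
      Odd X ∧ Odd Y ∧ Odd Z := by
  obtain ⟨M, hM⟩ := exists_isPModular Nat.prime_two
  obtain ⟨b⟩ := d.exists_dihBlock hM isPrimitiveRoot_I
  obtain ⟨j1, j2, j3⟩ := J_vals b
  have hconj : IsConj d.J d.τ ∧ IsConj d.J (d.σ * d.τ) :=
    ⟨hall _ d.ordτ, hall _ (by simpa using d.orderOf_refl 1)⟩
  have m1 : b.χ1 ∈ principalBlock M G := (b.mem _).2 (Or.inr (Or.inl rfl))
  have m2 : b.χ2 ∈ principalBlock M G := (b.mem _).2 (Or.inr (Or.inr (Or.inl rfl)))
  have m3 : b.χ3 ∈ principalBlock M G := (b.mem _).2 (Or.inr (Or.inr (Or.inr (Or.inl rfl))))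
  have v1 : (b.χ1 : G → ℂ) d.J = 1 ∨ (b.χ1 : G → ℂ) d.J = -1 := by
    rcases b.hδ1 with q | q <;> rw [j1, q] <;> simp
  have v2 : (b.χ2 : G → ℂ) d.J = 1 ∨ (b.χ2 : G → ℂ) d.J = -1 := by
    rcases b.hδ2 with q | q <;> rw [j2, q] <;> simp
  have v3 : (b.χ3 : G → ℂ) d.J = 1 ∨ (b.χ3 : G → ℂ) d.J = -1 := by
    rcases b.hδ3 with q | q <;> rw [j3, q] <;> simp
  have nine : ∀ {χ : IrrCharacter G}, χ ∈ principalBlock M G → χ ≠ trivIrr G →
      ((χ : G → ℂ) d.J = 1 ∨ (χ : G → ℂ) d.J = -1) → 9 ≤ charDegree (χ : G → ℂ) := by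
    intro χ hm h1 hv
    rcases hne with h | h
    · exact nine_le_degree hC hM hall hm h1 hv h
    · exact nine_le_degree (d := swap d) (isSelfCent_swap hC) hM hall hm h1 hv h
  obtain ⟨e1, p1, -⟩ := BrauerCharacters.charDegree_spec b.χ1
  obtain ⟨e2, p2, -⟩ := BrauerCharacters.charDegree_spec b.χ2
  obtain ⟨e3, p3, -⟩ := BrauerCharacters.charDegree_spec b.χ3
  obtain ⟨s1, a1⟩ := signed b.hδ1 _ p1
  obtain ⟨s2, a2⟩ := signed b.hδ2 _ p2
  obtain ⟨s3, a3⟩ := signed b.hδ3 _ p3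
  have hH := card_H_fix hC
  have oddm : ∀ {δ : ℤ} {D : ℕ}, δ = 1 ∨ δ = -1 → Odd D → Odd (δ * (D : ℤ)) := by
    rintro δ D (rfl | rfl) hD
    · simpa using (Int.odd_coe_nat D).2 hD
    · simpa using ((Int.odd_coe_nat D).2 hD).neg
  refine ⟨b.δ1 * charDegree (b.χ1 : G → ℂ), b.δ2 * charDegree (b.χ2 : G → ℂ),
    b.δ3 * charDegree (b.χ3 : G → ℂ),
    ⟨by rw [a1]; exact_mod_cast nine m1 b.ne1 v1, by rw [a2]; exact_mod_cast nine m2 b.ne2 v2,
      by rw [a3]; exact_mod_cast nine m3 b.ne3 v3, ?_, ?_, ?_⟩,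
    oddm b.hδ1 (odd_degree d.orderOf_J v1), oddm b.hδ2 (odd_degree d.orderOf_J v2),
    oddm b.hδ3 (odd_degree d.orderOf_J v3)⟩
  · have h := b.reg23 1 (by rw [orderOf_one]; exact odd_one)
    rw [e1, e2, e3] at h
    apply Int.cast_injective (α := ℂ)
    push_cast
    linear_combination h
  · have h := count_formula hC hall b
    rw [← s1, ← s2, ← s3, hH] at h
    apply Rat.cast_injective (α := ℂ)
    push_cast at h ⊢
    linear_combination h
  · obtain ⟨-, h⟩ := DihData.order_formula d hM isPrimitiveRoot_I hconj b.χ1 m1 b.ne1 b.δ1 b.hδ1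
      b.val1
    rw [card_cent_pair, card_cent_pair', hH] at h
    push_cast at h ⊢
    have ha : (Nat.card (fixPart d) : ℚ) ≠ 0 := by exact_mod_cast Nat.card_pos.ne'
    have hb : (Nat.card (fixPart (swap d)) : ℚ) ≠ 0 := by exact_mod_cast Nat.card_pos.ne'
    field_simp at h
    rcases b.hδ1 with q | q <;> rw [q] at h ⊢ <;> push_cast at h ⊢
    · linear_combination h / 16
    · linear_combination h / 16

end CfsgLib.SelfCentFour
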