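import Cfsg.Agent.Lib.BrauerCharacters.ClassMul

/-!
# Pairs of a normal set whose product falls into a trivial-intersection set
-/

set_option autoImplicit false

namespace CfsgLib.SelfCentFour

open Cfsg CfsgLib.CharTheory

variable {G : Type*} [Group G] [Fintype G]

open scoped Classical in
/-- Summing a class function over the products of two elements of a normal set, when its support
among these products is conjugate into a trivial-intersection set `S` of `C`. -/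
theorem card_mul_sum_pairs (T : Finset G) (hT : ∀ g, ∀ u ∈ T, g * u * g⁻¹ ∈ T) {F : G → ℂ}
    (hF : IsClassFunction G F) (C : Subgroup G) (S : Set G)
    (hS : ∀ c ∈ C, ∀ x ∈ S, c * x * c⁻¹ ∈ S) (hTI : ∀ g, ∀ x ∈ S, g * x * g⁻¹ ∈ S → g ∈ C)
    (hsupp : ∀ u ∈ T, ∀ v ∈ T, F (u * v) ≠ 0 → ∃ g, g * (u * v) * g⁻¹ ∈ S) :
    (Nat.card C : ℂ) * ∑ p ∈ T ×ˢ T, F (p.1 * p.2) =
      (Nat.card G : ℂ) * ∑ p ∈ (T ×ˢ T).filter (fun p => p.1 * p.2 ∈ S), F (p.1 * p.2) := by
  have h1 : ∀ g : G, ∑ p ∈ T ×ˢ T, (if g * (p.1 * p.2) * g⁻¹ ∈ S then F (p.1 * p.2) else 0) =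
      ∑ p ∈ (T ×ˢ T).filter (fun p => p.1 * p.2 ∈ S), F (p.1 * p.2) := by
    intro g
    rw [Finset.sum_filter]
    refine Finset.sum_equiv ((MulAut.conj g).toEquiv.prodCongr (MulAut.conj g).toEquiv)
      (fun p => ?_) fun p _ => ?_
    · simp only [Finset.mem_product, Equiv.prodCongr_apply, Prod.map_fst, Prod.map_snd]
      show _ ↔ g * p.1 * g⁻¹ ∈ T ∧ g * p.2 * g⁻¹ ∈ T
      refine ⟨fun h => ⟨hT g _ h.1, hT g _ h.2⟩, fun h => ⟨?_, ?_⟩⟩
      · have := hT g⁻¹ _ h.1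
        rwa [show g⁻¹ * (g * p.1 * g⁻¹) * g⁻¹⁻¹ = p.1 by group] at this
      · have := hT g⁻¹ _ h.2
        rwa [show g⁻¹ * (g * p.2 * g⁻¹) * g⁻¹⁻¹ = p.2 by group] at this
    · show _ = if g * p.1 * g⁻¹ * (g * p.2 * g⁻¹) ∈ S then F (g * p.1 * g⁻¹ * (g * p.2 * g⁻¹))
        else 0
      rw [show g * p.1 * g⁻¹ * (g * p.2 * g⁻¹) = g * (p.1 * p.2) * g⁻¹ by group, hF]
  have h2 : ∀ p ∈ T ×ˢ T,
      ∑ g : G, (if g * (p.1 * p.2) * g⁻¹ ∈ S then F (p.1 * p.2) else 0) =
        (Nat.card C : ℂ) * F (p.1 * p.2) := by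
    intro p hp
    obtain ⟨hu, hv⟩ := Finset.mem_product.1 hp
    set x := p.1 * p.2 with hx
    by_cases h0 : F x = 0
    · simp [h0]
    obtain ⟨g0, hg0⟩ := hsupp _ hu _ hv h0
    rw [← Finset.sum_filter, Finset.sum_const, nsmul_eq_mul, Nat.card_eq_fintype_card,
      Fintype.card_subtype]
    congr 2
    refine Finset.card_bij (fun g _ => g * g0⁻¹) (fun g hg => ?_)
      (fun a _ b _ h => mul_right_cancel h) fun y hy => ?_
    · simp only [Finset.mem_filter, Finset.mem_univ, true_and] at hg ⊢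
      refine hTI _ _ hg0 ?_
      rwa [show g * g0⁻¹ * (g0 * x * g0⁻¹) * (g * g0⁻¹)⁻¹ = g * x * g⁻¹ by group]
    · simp only [Finset.mem_filter, Finset.mem_univ, true_and] at hy
      refine ⟨y * g0, ?_, mul_inv_cancel_right y g0⟩
      simp only [Finset.mem_filter, Finset.mem_univ, true_and]
      rw [show y * g0 * x * (y * g0)⁻¹ = y * (g0 * x * g0⁻¹) * y⁻¹ by group]
      exact hS _ hy _ hg0
  calc (Nat.card C : ℂ) * ∑ p ∈ T ×ˢ T, F (p.1 * p.2)
      = ∑ p ∈ T ×ˢ T, ∑ g : G,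
          (if g * (p.1 * p.2) * g⁻¹ ∈ S then F (p.1 * p.2) else 0) := by
        rw [Finset.mul_sum]
        exact Finset.sum_congr rfl fun p hp => (h2 p hp).symm
    _ = _ := by
        rw [Finset.sum_comm, Finset.sum_congr rfl fun g _ => h1 g, Finset.sum_const,
          Finset.card_univ, nsmul_eq_mul, Nat.card_eq_fintype_card]

open scoped Classical in
/-- The class sum squared, read off at a character: `∑ χ(uv) = (|T| χ(a))² / χ(1)`. -/
theorem sum_pairs_mul (χ : IrrCharacter G) (a : G) :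
    ∑ p ∈ (Finset.univ.filter (IsConj a)) ×ˢ (Finset.univ.filter (IsConj a)),
        (χ : G → ℂ) (p.1 * p.2) =
      (((Finset.univ.filter (IsConj a)).card : ℂ) * (χ : G → ℂ) a) ^ 2 / (χ : G → ℂ) 1 := by
  set T := Finset.univ.filter (IsConj a) with hT
  have hidx : ((Subgroup.centralizer ({a} : Set G)).index : ℂ) = (T.card : ℂ) := by
    rw [← CharTheory.card_isConj, Nat.card_eq_fintype_card, Fintype.card_subtype, hT]
  have hconst : ∀ y ∈ T, (χ : G → ℂ) y = (χ : G → ℂ) a := by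
    intro y hy
    obtain ⟨g, hg⟩ := isConj_iff.1 (Finset.mem_filter.1 hy).2
    rw [← hg, BrauerCharacters.apply_conj_elem]
  rw [Finset.sum_product, Finset.sum_comm]
  rw [Finset.sum_congr rfl fun y hy =>
    (BrauerCharacters.sum_isConj_mul χ a y).trans (by rw [hconst y hy]), Finset.sum_const,
    nsmul_eq_mul]
  rw [centralChar, hidx]
  ring

end CfsgLib.SelfCentFour
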