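import Cfsg.Agent.Lib.SelfCentFour.CaseOne

/-!
# The three odd centralisers lie in one abelian subgroup
-/

set_option autoImplicit false
set_option linter.unusedSectionVars false
set_option linter.style.haveILetI false

namespace CfsgLib.SelfCentFour

open Cfsg CfsgLib CfsgLib.Involutions

universe u

variable {G : Type u} [Group G] [Finite G] {P : Sylow 2 G} {d : DihData P 3}
  (hC : IsSelfCent d) (hall : ∀ x : G, orderOf x = 2 → IsConj d.J x)
  (hA : fixPart d ≠ ⊥) (hB : fixPart (swap d) ≠ ⊥)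
include hC hall hA hB

/-- Conjugation by an element of `H` preserves the subgroup. -/
theorem sigPart_conj_H {h y : G} (hh : h ∈ d.H) (hy : y ∈ sigPart d) :
    h * y * h⁻¹ ∈ sigPart d := by
  obtain ⟨hyo, hyc⟩ := (mem_sigPart hC hall hA hB).1 hy
  refine (mem_sigPart hC hall hA hB).2 ⟨odd_conj hyo, fun o ho => ?_⟩
  have h' := d.conj_mem_O (inv_mem hh) ho
  have := comm_conj (g := h) (hyc _ h')
  rwa [show h * (h⁻¹ * o * h⁻¹⁻¹) * h⁻¹ = o by group] at this

/-- Odd elements commuting with `τ` lie in the subgroup. -/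
theorem odd_cent_τ_mem {y : G} (hy : Odd (orderOf y)) (hyτ : y * d.τ = d.τ * y) :
    y ∈ sigPart d := by
  haveI := Fintype.ofFinite G
  obtain ⟨g, g1, g2, g3, gA⟩ := exists_three hC hall
  -- an element of the subgroup commuting with `τ` outside `O`
  have hA' : fixPart (swap (swap d)) ≠ ⊥ := by
    intro h
    obtain ⟨a0, ha0, ha01⟩ := (fixPart d).bot_or_exists_ne_one.resolve_left hA
    refine ha01 ?_
    have hmem : a0 ∈ fixPart (swap (swap d)) := by
      rw [mem_fixPart, swap_O, swap_O, swap_τ, swap_σ, swap_τ,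
        show d.σ * (d.σ * d.τ) = d.J * d.τ by rw [← mul_assoc, σ_sq_mul]]
      exact ⟨fixPart_le d ha0, by
        rw [← mul_assoc, J_comm_O d (fixPart_le d ha0), mul_assoc, ((mem_fixPart d).1 ha0).2,
          mul_assoc]⟩
    rwa [h, Subgroup.mem_bot] at hmem
  obtain ⟨z0, hz0, hz0c, hz0B, hz0O⟩ :=
    exists_extra (d := swap d) (isSelfCent_swap hC) hall hB hA'
  rw [swap_σ, swap_τ, show d.σ * (d.σ * d.τ) = d.J * d.τ by rw [← mul_assoc, σ_sq_mul]] at hz0c
  obtain ⟨z, hz⟩ : ∃ z, z = d.σ * z0 * d.σ⁻¹ := ⟨_, rfl⟩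
  have hσστ : d.σ * (d.J * d.τ) * d.σ⁻¹ = d.τ := by
    have e : d.σ * d.τ * d.σ⁻¹ = d.J * d.τ := by
      have := d.conj_refl 1 0
      rwa [pow_one, pow_zero, one_mul, add_zero, mul_one, ← J_eq_sq] at this
    rw [show d.σ * (d.J * d.τ) * d.σ⁻¹ = d.σ * d.J * d.σ⁻¹ * (d.σ * d.τ * d.σ⁻¹) by group, e,
      d.J_commute d.hσ, mul_inv_cancel_right, ← mul_assoc, mul_self_eq_one d.orderOf_J, one_mul]
  have hzo : Odd (orderOf z) := hz ▸ odd_conj hz0
  have hzτ : z * d.τ = d.τ * z := by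
    have := comm_conj (g := d.σ) hz0c
    rwa [hσστ, ← hz] at this
  have hzB : ∀ x ∈ fixPart (swap d), z * x = x * z := by
    intro x hx
    have hxO := ((mem_fixPart_swap hC).1 hx).1
    have := comm_conj (g := d.σ) (hz0B _ (inv_mem hx))
    rwa [σ_conj_inv hC (inv_mem hxO), inv_inv, ← hz] at this
  have hzA : ∀ a ∈ fixPart d, z * a = a * z := fun a ha =>
    odd_comm hC hall d.ordτ hzo (odd_of_mem_O d (fixPart_le d ha)) hzτ ((mem_fixPart d).1 ha).2
  have hzO : z ∉ d.O := fun h => by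
    refine hz0O ?_
    rw [swap_O]
    have := d.conj_mem_O (inv_mem d.σ_mem_H) h
    rwa [hz, show d.σ⁻¹ * (d.σ * z0 * d.σ⁻¹) * d.σ⁻¹⁻¹ = z0 by group] at this
  have hzS : z ∈ sigPart d := (mem_sigPart hC hall hA hB).2 ⟨hzo, fun o ho => by
    obtain ⟨a, ha, b, hb, rfl⟩ := exists_decomp_O hC ho
    rw [← mul_assoc, hzA a ha, mul_assoc, hzB b hb, mul_assoc]⟩
  -- an element of `g B g⁻¹` in the subgroup
  have gi1 : g⁻¹ * d.τ * g⁻¹⁻¹ = d.J := by rw [← g1]; group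
  have gi3 : g⁻¹ * d.J * g⁻¹⁻¹ = d.J * d.τ := by
    rw [show g⁻¹ * d.J * g⁻¹⁻¹ = g⁻¹ * (g * (d.J * d.τ) * g⁻¹) * g by rw [g3, inv_inv]]
    group
  have hgz : g⁻¹ * z * g⁻¹⁻¹ ∈ d.O := mem_O_iff.2 ⟨odd_conj hzo, by
    have := comm_conj (g := g⁻¹) hzτ
    rwa [gi1] at this⟩
  obtain ⟨a, ha, b, hb, hab⟩ := exists_decomp_O hC hgz
  have hzeq : a * (g * b * g⁻¹) = z := by
    nth_rewrite 1 [← gA a ha]
    rw [show g * a * g⁻¹ * (g * b * g⁻¹) = g * (a * b) * g⁻¹ by group, hab]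
    group
  have hb1 : b ≠ 1 := fun e => hzO (by
    rw [← hzeq, e, mul_one, mul_inv_cancel, mul_one]; exact fixPart_le d ha)
  have haS : a ∈ sigPart d := (mem_sigPart hC hall hA hB).2
    ⟨odd_of_mem_O d (fixPart_le d ha), fun o ho => O_comm hC (fixPart_le d ha) ho⟩
  have hbS : g * b * g⁻¹ ∈ sigPart d := by
    have := mul_mem (inv_mem haS) hzS
    rwa [← hzeq, inv_mul_cancel_left] at this
  have hgB : ∀ x ∈ fixPart (swap d), g⁻¹ * x * g⁻¹⁻¹ ∈ sigPart d := by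
    intro x hx
    have hxO := ((mem_fixPart_swap hC).1 hx).1
    refine (mem_sigPart hC hall hA hB).2 ⟨odd_conj (odd_of_mem_O d hxO), ?_⟩
    refine centralizes_O hC hall hA hB hb hb1 (odd_conj (odd_of_mem_O d hxO)) ?_ ?_
    · intro c hc
      have := comm_conj (g := g⁻¹) (O_comm hC hxO (fixPart_le d hc))
      rwa [show g⁻¹ * c * g⁻¹⁻¹ = c by nth_rewrite 1 [← gA c hc]; group] at this
    · have := comm_conj (g := g⁻¹) (((mem_sigPart hC hall hA hB).1 hbS).2 x hxO).symm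
      rwa [show g⁻¹ * (g * b * g⁻¹) * g⁻¹⁻¹ = b by group] at this
  have hgO : ∀ o ∈ d.O, g⁻¹ * o * g⁻¹⁻¹ ∈ sigPart d := by
    intro o ho
    obtain ⟨c, hc, x, hx, rfl⟩ := exists_decomp_O hC ho
    rw [show g⁻¹ * (c * x) * g⁻¹⁻¹ = g⁻¹ * c * g⁻¹⁻¹ * (g⁻¹ * x * g⁻¹⁻¹) by group,
      show g⁻¹ * c * g⁻¹⁻¹ = c by nth_rewrite 1 [← gA c hc]; group]
    exact mul_mem ((mem_sigPart hC hall hA hB).2
      ⟨odd_of_mem_O d (fixPart_le d hc), fun o' ho' => O_comm hC (fixPart_le d hc) ho'⟩) (hgB x hx)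
  have hJτ : ∀ w, Odd (orderOf w) → w * (d.J * d.τ) = d.J * d.τ * w → w ∈ sigPart d := by
    intro w hw hwc
    have : g * w * g⁻¹ ∈ d.O := mem_O_iff.2 ⟨odd_conj hw, by
      have := comm_conj (g := g) hwc
      rwa [g3] at this⟩
    have := hgO _ this
    rwa [show g⁻¹ * (g * w * g⁻¹) * g⁻¹⁻¹ = w by group] at this
  have hw : d.σ⁻¹ * y * d.σ⁻¹⁻¹ ∈ sigPart d := hJτ _ (odd_conj hy) (by
    have := comm_conj (g := d.σ⁻¹) hyτ
    rwa [show d.σ⁻¹ * d.τ * d.σ⁻¹⁻¹ = d.J * d.τ by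
      nth_rewrite 1 [← hσστ]
      group] at this)
  have := sigPart_conj_H hC hall hA hB d.σ_mem_H hw
  rwa [show d.σ * (d.σ⁻¹ * y * d.σ⁻¹⁻¹) * d.σ⁻¹ = y by group] at this

/-- Odd elements commuting with `Jτ` lie in the subgroup. -/
theorem odd_cent_Jτ_mem {y : G} (hy : Odd (orderOf y))
    (hyc : y * (d.J * d.τ) = d.J * d.τ * y) : y ∈ sigPart d := by
  haveI := Fintype.ofFinite G
  have e : d.σ * (d.J * d.τ) * d.σ⁻¹ = d.τ := by
    have e : d.σ * d.τ * d.σ⁻¹ = d.J * d.τ := by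
      have := d.conj_refl 1 0
      rwa [pow_one, pow_zero, one_mul, add_zero, mul_one, ← J_eq_sq] at this
    rw [show d.σ * (d.J * d.τ) * d.σ⁻¹ = d.σ * d.J * d.σ⁻¹ * (d.σ * d.τ * d.σ⁻¹) by group, e,
      d.J_commute d.hσ, mul_inv_cancel_right, ← mul_assoc, mul_self_eq_one d.orderOf_J, one_mul]
  have h1 := comm_conj (g := d.σ) hyc
  rw [e] at h1
  have := sigPart_conj_H hC hall hA hB (inv_mem d.σ_mem_H)
    (odd_cent_τ_mem hC hall hA hB (odd_conj hy) h1)
  rwa [show d.σ⁻¹ * (d.σ * y * d.σ⁻¹) * d.σ⁻¹⁻¹ = y by group] at this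

/-- The generators: odd elements commuting with one of `J, τ, Jτ`. -/
theorem odd_cent_mem {v y : G} (hv : v = d.J ∨ v = d.τ ∨ v = d.J * d.τ) (hy : Odd (orderOf y))
    (hyv : y * v = v * y) : y ∈ sigPart d := by
  rcases hv with rfl | rfl | rfl
  · exact (mem_sigPart hC hall hA hB).2 ⟨hy, fun o ho => O_comm hC (mem_O_iff.2 ⟨hy, hyv⟩) ho⟩
  · exact odd_cent_τ_mem hC hall hA hB hy hyv
  · exact odd_cent_Jτ_mem hC hall hA hB hy hyv

theorem odd_card_sigPart : Odd (Nat.card (sigPart d)) := by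
  by_contra h
  haveI : Fact (Nat.Prime 2) := ⟨Nat.prime_two⟩
  obtain ⟨x, hx⟩ := exists_prime_orderOf_dvd_card' (G := sigPart d) 2
    (even_iff_two_dvd.1 (Nat.not_odd_iff_even.1 h))
  have := ((mem_sigPart hC hall hA hB).1 x.2).1
  rw [Subgroup.orderOf_coe, hx] at this
  exact absurd this (by decide)

theorem sigPart_le_iff {K : Subgroup G}
    (h : ∀ v, (v = d.J ∨ v = d.τ ∨ v = d.J * d.τ) → ∀ z, Odd (orderOf z) → z * v = v * z → z ∈ K) :
    sigPart d ≤ K := by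
  set V := (P : Subgroup G) ⊓ Subgroup.centralizer ({d.τ} : Set G) with hV
  haveI : IsMulCommutative V := klein_comm
  have hnorm : V ≤ Subgroup.normalizer (sigPart d : Set G) := by
    intro v hv
    rw [Subgroup.mem_normalizer_iff]
    refine fun z => ⟨fun hz => sigPart_conj_H hC hall hA hB (d.P_le_H hv.1) hz, fun hz => ?_⟩
    have := sigPart_conj_H hC hall hA hB (inv_mem (d.P_le_H hv.1)) hz
    rwa [show v⁻¹ * (v * z * v⁻¹) * v⁻¹⁻¹ = z by group] at this
  have hcop : (Nat.card V).Coprime (Nat.card (sigPart d)) := by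
    rw [hV, card_P_inf_τ]
    exact (Nat.coprime_two_left.2 (odd_card_sigPart hC hall hA hB)).pow_left 2
  rw [← CoprimeAction.iSup_centralizers_eq (K := sigPart d) klein_not_cyclic hnorm hcop]
  refine iSup₂_le fun v hv z hz => ?_
  obtain ⟨hzS, hzv⟩ := Subgroup.mem_inf.1 hz
  refine h v ?_ z ((mem_sigPart hC hall hA hB).1 hzS).1 (mem_centralizer_singleton.1 hzv)
  rcases P_cases_comm hv.1.1 (mem_centralizer_singleton.1 hv.1.2) with e | e | e | e
  · exact absurd e hv.2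
  · exact Or.inl e
  · exact Or.inr (Or.inl e)
  · exact Or.inr (Or.inr e)

/-- An element permuting the three involutions normalises the subgroup. -/
theorem three_normalizes {g : G} (g1 : g * d.J * g⁻¹ = d.τ) (g2 : g * d.τ * g⁻¹ = d.J * d.τ)
    (g3 : g * (d.J * d.τ) * g⁻¹ = d.J) {y : G} (hy : y ∈ sigPart d) :
    g * y * g⁻¹ ∈ sigPart d := by
  have hle : sigPart d ≤ (sigPart d).comap (MulAut.conj g).toMonoidHom := by
    refine sigPart_le_iff hC hall hA hB fun v hv z hz hzv => ?_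
    show g * z * g⁻¹ ∈ sigPart d
    refine odd_cent_mem hC hall hA hB ?_ (odd_conj hz) (comm_conj hzv)
    rcases hv with rfl | rfl | rfl
    · exact Or.inr (Or.inl g1)
    · exact Or.inr (Or.inr g2)
    · exact Or.inl g3
  exact hle hy

theorem sigPart_comm {x y : G} (hx : x ∈ sigPart d) (hy : y ∈ sigPart d) : x * y = y * x := by
  haveI := Fintype.ofFinite G
  have base : ∀ o ∈ d.O, ∀ z ∈ sigPart d, o * z = z * o := fun o ho z hz =>
    (((mem_sigPart hC hall hA hB).1 hz).2 o ho).symm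
  have key : ∀ v, (v = d.J ∨ v = d.τ ∨ v = d.J * d.τ) → ∀ w, Odd (orderOf w) → w * v = v * w →
      ∀ z ∈ sigPart d, w * z = z * w := by
    intro v hv w hw hwv
    obtain ⟨g, g1, g2, g3, -⟩ := exists_three hC hall
    obtain ⟨c, hc, hcn⟩ : ∃ c, c * v * c⁻¹ = d.J ∧
        ∀ z ∈ sigPart d, c * z * c⁻¹ ∈ sigPart d := by
      have hn := fun z hz => three_normalizes hC hall hA hB g1 g2 g3 (y := z) hz
      rcases hv with rfl | rfl | rfl
      · exact ⟨1, by group, fun z hz => by simpa using hz⟩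
      · refine ⟨g * g, ?_, fun z hz => ?_⟩
        · rw [show g * g * d.τ * (g * g)⁻¹ = g * (g * d.τ * g⁻¹) * g⁻¹ by group, g2, g3]
        · rw [show g * g * z * (g * g)⁻¹ = g * (g * z * g⁻¹) * g⁻¹ by group]
          exact hn _ (hn z hz)
      · exact ⟨g, g3, hn⟩
    intro z hz
    have hwO : c * w * c⁻¹ ∈ d.O := mem_O_iff.2 ⟨odd_conj hw, hc ▸ comm_conj hwv⟩
    have := comm_conj (g := c⁻¹) (base _ hwO _ (hcn z hz))
    simpa [mul_assoc] using this
  have h1 : sigPart d ≤ Subgroup.centralizer (sigPart d : Set G) :=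
    sigPart_le_iff hC hall hA hB fun v hv z hz hzv =>
      Subgroup.mem_centralizer_iff.2 fun q hq => (key v hv z hz hzv q hq).symm
  exact (Subgroup.mem_centralizer_iff.1 (h1 hx) y hy).symm

end CfsgLib.SelfCentFour
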