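import Cfsg.Agent.Lib.SelfCentFour.Local
import Cfsg.Agent.Lib.SelfCentFour.OddPart
import Cfsg.Agent.Lib.CoprimeAction.Abelian

/-!
# The signalizer of the central involution
-/

set_option autoImplicit false
set_option linter.unusedSectionVars false
set_option linter.style.haveILetI false

namespace CfsgLib.SelfCentFour

open Cfsg CfsgLib CfsgLib.Involutions

variable {G : Type*} [Group G] [Finite G] {P : Sylow 2 G} {d : DihData P 3}

theorem odd_conj {g x : G} (h : Odd (orderOf x)) : Odd (orderOf (g * x * g⁻¹)) := by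
  rwa [orderOf_conj]

theorem comm_conj {g x v : G} (h : x * v = v * x) :
    g * x * g⁻¹ * (g * v * g⁻¹) = g * v * g⁻¹ * (g * x * g⁻¹) := by
  rw [show g * x * g⁻¹ * (g * v * g⁻¹) = g * (x * v) * g⁻¹ by group, h]
  group

theorem mem_O_iff {x : G} : x ∈ d.O ↔ Odd (orderOf x) ∧ x * d.J = d.J * x := by
  rw [d.mem_O, and_comm]
  exact and_congr Iff.rfl mem_centralizer_singleton

/-- The elements of odd order centralising `O` generate this subgroup. -/
def sigPart (d : DihData P 3) : Subgroup G :=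
  Subgroup.closure {x | Odd (orderOf x) ∧ ∀ o ∈ d.O, x * o = o * x}

theorem sigPart_swap : sigPart (swap d) = sigPart d := by
  unfold sigPart
  rw [swap_O]

theorem J_conj_O {x : G} (hx : x ∈ d.O) : d.J * x * d.J⁻¹ = x := by
  rw [← J_comm_O d hx, mul_inv_cancel_right]

theorem τ_conj_fix {x : G} (hx : x ∈ fixPart d) : d.τ * x * d.τ⁻¹ = x := by
  rw [← ((mem_fixPart d).1 hx).2, mul_inv_cancel_right]

theorem swap_fix_σ_comm (hC : IsSelfCent d) {x : G} (hx : x ∈ fixPart (swap d)) :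
    d.σ * d.τ * x * (d.σ * d.τ)⁻¹ = x := by
  have := τ_conj_fix hx
  rwa [swap_τ] at this

theorem στ_conj_fix (hC : IsSelfCent d) {x : G} (hx : x ∈ fixPart d) :
    d.σ * d.τ * x * (d.σ * d.τ)⁻¹ = x⁻¹ := by
  rw [show d.σ * d.τ * x * (d.σ * d.τ)⁻¹ = d.σ * (d.τ * x * d.τ⁻¹) * d.σ⁻¹ by group,
    τ_conj_fix hx, σ_conj_inv hC (fixPart_le d hx)]

/-- A 2-element of `H` centralising a non-trivial element of each part is `1` or `J`. -/
theorem two_elem_cases (hC : IsSelfCent d) {y a x : G} (ha : a ∈ fixPart d) (ha1 : a ≠ 1)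
    (hx : x ∈ fixPart (swap d)) (hx1 : x ≠ 1) (hy : y ∈ d.H) (hy2 : ∃ k, orderOf y = 2 ^ k)
    (hya : y * a = a * y) (hyx : y * x = x * y) : y = 1 ∨ y = d.J := by
  obtain ⟨hxO, hxτ⟩ := (mem_fixPart_swap hC).1 hx
  have haO := fixPart_le d ha
  obtain ⟨hp, ho⟩ := d.proj_spec hy
  have hconj : ∀ z ∈ d.O, y * z = z * y → d.proj y * z * (d.proj y)⁻¹ = z := by
    intro z hz hyz
    set o := y * (d.proj y)⁻¹ with hoe
    have hzo := O_comm hC hz ho
    rw [show d.proj y = o⁻¹ * y by rw [hoe, mul_inv_rev, inv_inv, inv_mul_cancel_right],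
      show o⁻¹ * y * z * (o⁻¹ * y)⁻¹ = o⁻¹ * (y * z * y⁻¹) * o by group, hyz,
      mul_inv_cancel_right, mul_assoc, hzo, inv_mul_cancel_left]
  have pa := hconj a haO hya
  have px := hconj x hxO hyx
  have hne : ∀ z ∈ d.O, z ≠ 1 → z⁻¹ ≠ z := fun z hz hz1 e =>
    hz1 (eq_one_of_inv_eq (odd_of_mem_O d hz) e)
  have hpj : d.proj y = 1 ∨ d.proj y = d.J := by
    have hJm : ∀ (m : ℕ) (q z : G), d.J ^ m * q * z * (d.J ^ m * q)⁻¹ =
        d.J ^ m * (q * z * q⁻¹) * (d.J ^ m)⁻¹ := fun m q z => by group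
    have hJz : ∀ (m : ℕ), ∀ z ∈ d.O, d.J ^ m * z * (d.J ^ m)⁻¹ = z := fun m z hz => by
      have : Commute z d.J := J_comm_O d hz
      rw [← (this.pow_right m).eq, mul_inv_cancel_right]
    obtain ⟨j, hj | hj⟩ := d.cover _ hp <;> obtain ⟨m, rfl | rfl⟩ := Nat.even_or_odd' j <;>
      rw [hj] at pa px ⊢
    · rw [pow_mul, ← J_eq_sq]
      rcases Nat.even_or_odd' m with ⟨i, rfl | rfl⟩
      · left; rw [pow_mul, pow_two, mul_self_eq_one d.orderOf_J, one_pow]
      · right; rw [pow_succ, pow_mul, pow_two, mul_self_eq_one d.orderOf_J, one_pow, one_mul]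
    · exfalso
      rw [pow_succ, pow_mul, ← J_eq_sq, hJm, σ_conj_inv hC haO,
        hJz m _ (inv_mem haO)] at pa
      exact hne a haO ha1 pa
    · exfalso
      rw [pow_mul, ← J_eq_sq, hJm, hxτ, hJz m _ (inv_mem hxO)] at px
      exact hne x hxO hx1 px
    · exfalso
      rw [pow_succ, pow_mul, ← J_eq_sq, mul_assoc (d.J ^ m), hJm, στ_conj_fix hC ha,
        hJz m _ (inv_mem haO)] at pa
      exact hne a haO ha1 pa
  obtain ⟨k, hk⟩ := hy2
  have hcy : Commute (y * (d.proj y)⁻¹) (d.proj y) := by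
    rcases hpj with e | e <;> rw [e]
    · exact Commute.one_right _
    · exact J_comm_O d (e ▸ ho)
  have hsq : d.proj y ^ 2 = 1 := by
    rcases hpj with e | e <;> rw [e, pow_two]
    · rw [one_mul]
    · exact mul_self_eq_one d.orderOf_J
  have hk' : (y * (d.proj y)⁻¹) ^ (2 ^ (k + 1)) = 1 := by
    have : y ^ (2 ^ (k + 1)) = 1 := by rw [pow_succ, pow_mul, ← hk, pow_orderOf_eq_one, one_pow]
    rw [← inv_mul_cancel_right y (d.proj y), hcy.mul_pow] at this
    rwa [pow_succ' 2 k, pow_mul (d.proj y), hsq, one_pow, mul_one, ← pow_succ'] at this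
  have h1 : y * (d.proj y)⁻¹ = 1 := orderOf_eq_one_iff.1 (Nat.eq_one_of_dvd_coprimes
    ((Nat.coprime_two_left.2 (odd_of_mem_O d ho)).pow_left (k + 1))
    (orderOf_dvd_of_pow_eq_one hk') dvd_rfl)
  rw [mul_inv_eq_one.1 h1]
  exact hpj

/-- Elements of odd order commuting with one involution commute. -/
theorem odd_comm (hC : IsSelfCent d) (hall : ∀ x : G, orderOf x = 2 → IsConj d.J x) {v y z : G}
    (hv : orderOf v = 2) (hy : Odd (orderOf y)) (hz : Odd (orderOf z)) (hyv : y * v = v * y)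
    (hzv : z * v = v * z) : y * z = z * y := by
  obtain ⟨g, hg⟩ := isConj_iff.1 (hall v hv).symm
  have hm : ∀ {w : G}, Odd (orderOf w) → w * v = v * w → g * w * g⁻¹ ∈ d.O := fun {w} hw hwv =>
    mem_O_iff.2 ⟨odd_conj hw, hg ▸ comm_conj hwv⟩
  have h := comm_conj (g := g⁻¹) (O_comm hC (hm hy hyv) (hm hz hzv))
  simpa [mul_assoc] using h

/-- The four elements of the Klein group of `τ` square to one. -/
theorem klein_facts {v : G} (hv : v ∈ (P : Subgroup G) ⊓ Subgroup.centralizer ({d.τ} : Set G)) :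
    v * v = 1 ∧ v * d.J = d.J * v ∧ v * d.τ = d.τ * v := by
  refine ⟨?_, d.J_commute hv.1, mem_centralizer_singleton.1 hv.2⟩
  rcases P_cases_comm hv.1 (mem_centralizer_singleton.1 hv.2) with e | e | e | e <;> rw [e]
  · rw [one_mul]
  · exact mul_self_eq_one d.orderOf_J
  · exact mul_self_eq_one d.ordτ
  · exact d.refl_sq 2

/-- The Klein group of `τ` is not cyclic. -/
theorem klein_not_cyclic :
    ¬ IsCyclic ((P : Subgroup G) ⊓ Subgroup.centralizer ({d.τ} : Set G) : Subgroup G) := by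
  intro h
  obtain ⟨v, hv⟩ := h.exists_generator
  have h4 := orderOf_eq_card_of_forall_mem_zpowers hv
  rw [card_P_inf_τ] at h4
  have h2 : orderOf v ≤ 2 := Nat.le_of_dvd two_pos (orderOf_dvd_of_pow_eq_one (Subtype.ext (by
    rw [pow_two]; exact (klein_facts v.2).1)))
  omega

theorem klein_comm :
    IsMulCommutative ((P : Subgroup G) ⊓ Subgroup.centralizer ({d.τ} : Set G) : Subgroup G) := by
  refine ⟨⟨fun a b => ?_⟩⟩
  have hsq : ∀ y : ((P : Subgroup G) ⊓ Subgroup.centralizer ({d.τ} : Set G) : Subgroup G),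
      y⁻¹ = y := fun y => inv_eq_of_mul_eq_one_left (Subtype.ext (klein_facts y.2).1)
  rw [← hsq (a * b), mul_inv_rev, hsq, hsq]

variable (hC : IsSelfCent d) (hall : ∀ x : G, orderOf x = 2 → IsConj d.J x)
  (hA : fixPart d ≠ ⊥) (hB : fixPart (swap d) ≠ ⊥)
include hC hall hA hB

/-- An element of odd order centralising `A` and a non-trivial element of `B` centralises `O`. -/
theorem centralizes_O {x : G} (hx : x ∈ fixPart (swap d)) (hx1 : x ≠ 1) {y : G}
    (hy : Odd (orderOf y)) (hya : ∀ a ∈ fixPart d, y * a = a * y) (hyx : y * x = x * y) :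
    ∀ o ∈ d.O, y * o = o * y := by
  haveI : Fact (Nat.Prime 2) := ⟨Nat.prime_two⟩
  obtain ⟨hxO, hxτ⟩ := (mem_fixPart_swap hC).1 hx
  set K := Subgroup.centralizer ((fixPart d : Set G) ∪ {x}) with hK
  have hmem : ∀ {w : G}, w ∈ K ↔ (∀ a ∈ fixPart d, w * a = a * w) ∧ w * x = x * w := by
    intro w
    rw [hK, Subgroup.mem_centralizer_iff]
    constructor
    · intro h
      exact ⟨fun a ha => (h a (Or.inl ha)).symm, (h x (Or.inr rfl)).symm⟩
    · rintro ⟨h1, h2⟩ a (ha | rfl)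
      · exact (h1 a ha).symm
      · exact h2.symm
  obtain ⟨a0, ha0, ha01⟩ := (fixPart d).bot_or_exists_ne_one.resolve_left hA
  obtain ⟨R, hRK, hRodd, -, hR⟩ := exists_oddPart K (t := d.J)
    (hmem.2 ⟨fun a ha => (J_comm_O d (fixPart_le d ha)).symm, (J_comm_O d hxO).symm⟩) d.orderOf_J
    (fun w hw hwJ hw2 => two_elem_cases hC ha0 ha01 hx hx1
      (mem_centralizer_singleton.2 hwJ) hw2 ((hmem.1 hw).1 a0 ha0) (hmem.1 hw).2)
  -- the Klein group of the other class of reflections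
  set V := (P : Subgroup G) ⊓ Subgroup.centralizer ({(swap d).τ} : Set G) with hV
  haveI : IsMulCommutative V := klein_comm
  have hVA : ∀ v ∈ V, (∀ a ∈ fixPart d, v * a * v⁻¹ ∈ fixPart d) ∧ v * x * v⁻¹ = x := by
    intro v hv
    rcases P_cases_comm hv.1 (mem_centralizer_singleton.1 hv.2) with e | e | e | e <;> rw [e]
    · exact ⟨fun a ha => by simpa using ha, by simp⟩
    · rw [swap_J]
      exact ⟨fun a ha => by rw [J_conj_O (fixPart_le d ha)]; exact ha, J_conj_O hxO⟩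
    · rw [swap_τ]
      exact ⟨fun a ha => by rw [στ_conj_fix hC ha]; exact inv_mem ha, swap_fix_σ_comm hC hx⟩
    · rw [swap_J, swap_τ]
      have e' : ∀ z : G, d.J * (d.σ * d.τ) * z * (d.J * (d.σ * d.τ))⁻¹ =
          d.J * (d.σ * d.τ * z * (d.σ * d.τ)⁻¹) * d.J⁻¹ := fun z => by group
      refine ⟨fun a ha => ?_, ?_⟩
      · rw [e', στ_conj_fix hC ha, J_conj_O (inv_mem (fixPart_le d ha))]; exact inv_mem ha
      · rw [e', swap_fix_σ_comm hC hx, J_conj_O hxO]
  have hnorm : V ≤ Subgroup.normalizer (R : Set G) := by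
    have hone : ∀ v ∈ V, ∀ z ∈ R, v * z * v⁻¹ ∈ R := by
      intro v hv z hz
      obtain ⟨hzK, hzo⟩ := (hR z).1 hz
      obtain ⟨hva, hvx⟩ := hVA v hv
      refine (hR _).2 ⟨hmem.2 ⟨fun a ha => ?_, ?_⟩, odd_conj hzo⟩
      · have hb := (hVA v⁻¹ (inv_mem hv)).1 a ha
        have := comm_conj (g := v) ((hmem.1 hzK).1 _ hb)
        simpa [mul_assoc] using this
      · have := comm_conj (g := v) (hmem.1 hzK).2
        rwa [hvx] at this
    intro v hv
    rw [Subgroup.mem_normalizer_iff]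
    refine fun z => ⟨fun hz => hone v hv z hz, fun hz => ?_⟩
    have := hone v⁻¹ (inv_mem hv) _ hz
    rwa [show v⁻¹ * (v * z * v⁻¹) * v⁻¹⁻¹ = z by group] at this
  have hcop : (Nat.card V).Coprime (Nat.card R) := by
    rw [hV, card_P_inf_τ]
    exact (Nat.coprime_two_left.2 hRodd).pow_left 2
  have hgen := CoprimeAction.iSup_centralizers_eq (K := R) klein_not_cyclic hnorm hcop
  have hRB : R ≤ Subgroup.centralizer (fixPart (swap d) : Set G) := by
    rw [← hgen]
    refine iSup₂_le fun v hv z hz => ?_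
    obtain ⟨hzR, hzv⟩ := Subgroup.mem_inf.1 hz
    have hzv' := mem_centralizer_singleton.1 hzv
    have hv2 : orderOf v = 2 := orderOf_eq_two_iff.2 ⟨(klein_facts hv.1).1, hv.2⟩
    rw [Subgroup.mem_centralizer_iff]
    intro b hb
    have hbO := ((mem_fixPart_swap hC).1 hb).1
    have hbv : b * v = v * b := by
      rcases P_cases_comm hv.1.1 (mem_centralizer_singleton.1 hv.1.2) with e | e | e | e <;> rw [e]
      · simp
      · rw [swap_J]; exact J_comm_O d hbO
      · exact ((mem_fixPart (swap d)).1 hb).2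
      · rw [swap_J, ← mul_assoc, J_comm_O d hbO, mul_assoc, ((mem_fixPart (swap d)).1 hb).2,
          mul_assoc]
    exact odd_comm hC hall hv2 (odd_of_mem_O d hbO) ((hR z).1 hzR).2 hbv hzv'
  intro o ho
  obtain ⟨a, ha, b, hb, rfl⟩ := exists_decomp_O hC ho
  have hyb : b * y = y * b :=
    Subgroup.mem_centralizer_iff.1 (hRB ((hR y).2 ⟨hmem.2 ⟨hya, hyx⟩, hy⟩)) b hb
  rw [← mul_assoc, hya a ha, mul_assoc, ← hyb, mul_assoc]

/-- The subgroup is exactly the set of odd elements centralising `O`. -/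
theorem mem_sigPart {y : G} :
    y ∈ sigPart d ↔ Odd (orderOf y) ∧ ∀ o ∈ d.O, y * o = o * y := by
  obtain ⟨a0, ha0, ha01⟩ := (fixPart d).bot_or_exists_ne_one.resolve_left hA
  obtain ⟨b0, hb0, hb01⟩ := (fixPart (swap d)).bot_or_exists_ne_one.resolve_left hB
  have hb0O := ((mem_fixPart_swap hC).1 hb0).1
  set K := Subgroup.centralizer (d.O : Set G) with hK
  obtain ⟨R, hRK, -, -, hR⟩ := exists_oddPart K (t := d.J)
    (Subgroup.mem_centralizer_iff.2 fun o ho => J_comm_O d ho) d.orderOf_J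
    (fun w hw hwJ hw2 => two_elem_cases hC ha0 ha01 hb0 hb01
      (mem_centralizer_singleton.2 hwJ) hw2 (Subgroup.mem_centralizer_iff.1 hw a0
        (fixPart_le d ha0)).symm (Subgroup.mem_centralizer_iff.1 hw b0 hb0O).symm)
  refine ⟨fun h => ?_, fun h => Subgroup.subset_closure h⟩
  have : sigPart d ≤ R := (Subgroup.closure_le R).2 fun z hz =>
    (hR z).2 ⟨Subgroup.mem_centralizer_iff.2 fun o ho => (hz.2 o ho).symm, hz.1⟩
  obtain ⟨h1, h2⟩ := (hR y).1 (this h)
  exact ⟨h2, fun o ho => (Subgroup.mem_centralizer_iff.1 h1 o ho).symm⟩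

end CfsgLib.SelfCentFour
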