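import Cfsg.Agent.Lib.SelfCentFour.Chars
import Cfsg.Agent.Lib.SelfCentFour.Pairs
import Cfsg.Agent.Lib.SelfCentFour.Numbers
import Cfsg.Agent.Lib.CharTheory.Linear

/-!
# A group with a subgroup of index two containing one class of reflections
-/

set_option autoImplicit false
set_option linter.unusedSectionVars false
set_option linter.style.haveILetI false

open scoped ComplexConjugate
open Cfsg CfsgLib.CharTheory CfsgLib.Involutions

namespace CfsgLib.SelfCentFour

universe u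

variable {G : Type u} [Group G] [Fintype G] {P : Sylow 2 G} {d : DihData P 3}

theorem σ_four : d.σ ^ 4 = 1 := by rw [← orderOf_σ d, pow_orderOf_eq_one]

section

variable (X : Subgroup G) (hX : X.index = 2) (hσ : d.σ ∉ X) (hτ : d.τ ∈ X)
include hX hσ

theorem J_mem_X : d.J ∈ X := by
  rw [← σ_sq_mul d]
  exact Subgroup.mul_self_mem_of_index_two hX _

include hτ in
theorem στ_not_mem : d.σ * d.τ ∉ X := fun h => hσ ((X.mul_mem_cancel_right hτ).1 h)

include hτ in
/-- The elements of `P` in `X`. -/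
theorem P_cases_mem {p : G} (hp : p ∈ (P : Subgroup G)) (hpX : p ∈ X) :
    p = 1 ∨ p = d.J ∨ p = d.τ ∨ p = d.J * d.τ := by
  refine P_cases_comm hp ?_
  have hev : ∀ j : ℕ, d.σ ^ j ∈ X → d.σ ^ j * d.τ = d.τ * d.σ ^ j := by
    intro j hj
    rcases Nat.even_or_odd' j with ⟨i, rfl | rfl⟩
    · rw [pow_mul, show d.σ ^ 2 = d.J from rfl]
      exact ((show Commute d.τ d.J from τ_comm_J).pow_right i).eq.symm
    · exfalso
      refine hσ ((X.mul_mem_cancel_left ?_).1 (pow_succ d.σ (2 * i) ▸ hj))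
      rw [pow_mul]
      exact pow_mem (J_mem_X X hX hσ) i
  obtain ⟨j, rfl | rfl⟩ := d.cover p hp
  · exact hev j hpX
  · rw [← mul_assoc d.τ, ← hev j ((X.mul_mem_cancel_right hτ).1 hpX)]

variable (h1 : IsConj d.J d.τ) (h2 : IsConj d.J (d.J * d.τ))
include hτ h1 h2

theorem isConj_of_mem {x : G} (hx : orderOf x = 2) (hxX : x ∈ X) : IsConj d.J x := by
  haveI : Fact (Nat.Prime 2) := ⟨Nat.prime_two⟩
  haveI := Subgroup.normal_of_index_eq_two hX
  obtain ⟨c, hc⟩ := exists_conj_mem_of_involution P hx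
  refine IsConj.trans ?_ (isConj_iff.2 ⟨c, rfl⟩ : IsConj x _).symm
  rcases P_cases_mem X hX hσ hτ hc ((inferInstance : X.Normal).conj_mem x hxX c) with
    h | h | h | h
  · exact absurd (conj_eq_one_iff.1 h) (ne_one hx)
  · rw [h]
  · rwa [h]
  · rwa [h]

theorem mem_of_isConj {x : G} (h : IsConj d.J x) : x ∈ X := by
  haveI := Subgroup.normal_of_index_eq_two hX
  obtain ⟨g, rfl⟩ := isConj_iff.1 h
  exact (inferInstance : X.Normal).conj_mem _ (J_mem_X X hX hσ) g

omit h1 h2 in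
theorem isConj_of_not_mem {x : G} (hx : orderOf x = 2) (hxX : x ∉ X) :
    IsConj (d.σ * d.τ) x := by
  haveI : Fact (Nat.Prime 2) := ⟨Nat.prime_two⟩
  haveI := Subgroup.normal_of_index_eq_two hX
  obtain ⟨c, hc⟩ := exists_conj_mem_of_involution P hx
  have hcX : c * x * c⁻¹ ∉ X := fun h => hxX (by
    have := (inferInstance : X.Normal).conj_mem _ h c⁻¹
    rwa [show c⁻¹ * (c * x * c⁻¹) * c⁻¹⁻¹ = x by group] at this)
  refine IsConj.trans ?_ (isConj_iff.2 ⟨c, rfl⟩ : IsConj x _).symm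
  rcases d.involution_cases hc ((orderOf_conj c x).trans hx) with h | ⟨j, h⟩
  · exact absurd (h ▸ J_mem_X X hX hσ) hcX
  · rw [h] at hcX ⊢
    rcases Nat.even_or_odd' j with ⟨m, rfl | rfl⟩
    · exact absurd (mul_mem (by rw [pow_mul]; exact pow_mem (J_mem_X X hX hσ) m) hτ) hcX
    · refine isConj_iff.2 ⟨d.σ ^ m, ?_⟩
      have := d.conj_refl m 1
      rwa [pow_one] at this

open scoped Classical in
theorem card_pairs_two (hC : IsSelfCent d) :
    (Finset.univ.filter fun x => IsConj d.J x ∧ IsConj (d.σ * d.τ) (x * d.σ)).card = 2 := by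
  have e : (Finset.univ.filter fun x => IsConj d.J x ∧ IsConj (d.σ * d.τ) (x * d.σ)) =
      ({d.τ, d.J * d.τ} : Finset G) := by
    ext x
    simp only [Finset.mem_filter, Finset.mem_univ, true_and, Finset.mem_insert,
      Finset.mem_singleton]
    constructor
    · rintro ⟨q1, q2⟩
      have ho : ∀ {y z : G}, orderOf y = 2 → IsConj y z → orderOf z = 2 := fun {y z} hy h => by
        obtain ⟨g, rfl⟩ := isConj_iff.1 h
        rw [orderOf_conj, hy]
      have o1 := ho d.orderOf_J q1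
      have o2 := ho (by simpa using d.orderOf_refl 1) q2
      obtain ⟨j, -, rfl⟩ := inverting_cases hC (x := x) (by
        rw [inv_eq_self o1]
        refine eq_inv_of_mul_eq_one_left ?_
        rw [← mul_self_eq_one o2]
        simp only [mul_assoc])
      rcases P_cases_mem X hX hσ hτ (mul_mem (pow_mem d.hσ j) d.hτ)
        (mem_of_isConj X hX hσ hτ h1 h2 q1) with h | h | h | h
      · exact absurd h (ne_one o1)
      · exact absurd (h ▸ Subgroup.npow_mem_zpowers d.σ _) (d.refl_not_mem j)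
      · exact Or.inl h
      · exact Or.inr h
    · intro hx
      obtain ⟨q1, hxX, j, rfl⟩ : IsConj d.J x ∧ x ∈ X ∧ ∃ j : ℕ, x = d.σ ^ j * d.τ := by
        rcases hx with rfl | rfl
        · exact ⟨h1, hτ, 0, by simp⟩
        · exact ⟨h2, mul_mem (J_mem_X X hX hσ) hτ, 2, rfl⟩
      refine ⟨q1, isConj_of_not_mem X hX hσ hτ ?_ ?_⟩
      · rw [show d.σ ^ j * d.τ * d.σ = d.σ ^ j * (d.τ * d.σ * d.τ⁻¹) * d.τ by group, d.rel]
        rw [show d.σ ^ j * d.σ⁻¹ = d.σ ^ (j + 3) by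
          rw [mul_inv_eq_iff_eq_mul, ← pow_succ, show j + 3 + 1 = j + 4 by omega, pow_add,
            σ_four, mul_one]]
        exact d.orderOf_refl _
      · exact fun h => hσ ((X.mul_mem_cancel_left hxX).1 h)
  rw [e, Finset.card_pair]
  exact fun h => ne_one d.orderOf_J (mul_eq_right.1 h.symm)

open scoped Classical in
/-- The count of involutions outside `X` times those inside. -/
theorem first_equation (hC : IsSelfCent d) {M : Ideal AlgInt} (b : DihBlock d M Complex.I) :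
    (Nat.card G : ℂ) * ((b.δ1 : ℂ) * (charDegree (b.χ1 : G → ℂ) : ℂ) - 1) =
      (Nat.card d.H : ℂ) * (Nat.card (Subgroup.centralizer ({d.σ * d.τ} : Set G)) : ℂ) *
        ((b.δ1 : ℂ) * (charDegree (b.χ1 : G → ℂ) : ℂ)) := by
  haveI := Fintype.ofFinite (IrrCharacter G)
  let μ : G →* ℂˣ :=
    { toFun := fun x => if x ∈ X then 1 else -1
      map_one' := if_pos (one_mem X)
      map_mul' := fun x y => by
        by_cases hx : x ∈ X <;> by_cases hy : y ∈ X <;>
          simp [hx, hy, Subgroup.mul_mem_iff_of_index_two hX] }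
  let lam : IrrCharacter G := ⟨_, isIrrCharacter_linear μ⟩
  have hl : ∀ x, (lam : G → ℂ) x = if x ∈ X then 1 else -1 := by
    intro x
    show ((μ x : ℂˣ) : ℂ) = _
    by_cases hx : x ∈ X <;> simp [μ, hx]
  have lσ : (lam : G → ℂ) d.σ = -1 := by rw [hl, if_neg hσ]
  have lJ : (lam : G → ℂ) d.J = 1 := by rw [hl, if_pos (J_mem_X X hX hσ)]
  have lS : (lam : G → ℂ) (d.σ * d.τ) = -1 := by
    rw [hl, if_neg (στ_not_mem X hX hσ hτ)]
  have l1 : (lam : G → ℂ) 1 = 1 := by rw [hl, if_pos (one_mem X)]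
  obtain ⟨e1, e2, e3⟩ := sigma_vals b
  obtain ⟨j1, j2, j3⟩ := J_vals b
  have hreg := b.reg23 1 (by rw [orderOf_one]; exact odd_one)
  -- the sign character is the second or the third
  have hne1 : lam ≠ trivIrr G := fun h => by
    rw [h, trivIrr_apply] at lσ; norm_num at lσ
  have hneχ1 : lam ≠ b.χ1 := fun h => by
    rw [h, e1] at lσ; rw [h, j1, lσ] at lJ; norm_num at lJ
  obtain ⟨ξ, δ, hδ, hset, xσ, xJ, xdeg, hd1, hd2, hd3⟩ : ∃ (ξ : IrrCharacter G) (δ : ℤ),
      (δ = 1 ∨ δ = -1) ∧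
      (∀ χ : IrrCharacter G, χ ≠ trivIrr G → χ ≠ b.χ1 → χ ≠ lam → χ ≠ ξ →
        (χ : G → ℂ) d.σ = 0) ∧
      (ξ : G → ℂ) d.σ = δ ∧ (ξ : G → ℂ) d.J = -(δ : ℂ) ∧
      (b.δ1 : ℂ) * (b.χ1 : G → ℂ) 1 = -((δ : ℂ) * (ξ : G → ℂ) 1) ∧
      ξ ≠ trivIrr G ∧ ξ ≠ b.χ1 ∧ ξ ≠ lam := by
    have hv := vanish hC b lam hne1 hneχ1
    by_cases q2 : lam = b.χ2
    · refine ⟨b.χ3, b.δ3, b.hδ3, fun χ a1 a2 a3 a4 => vanish hC b χ a1 a2 (q2 ▸ a3) a4, e3, j3, ?_,
        b.ne3, b.h13.symm, q2 ▸ b.h23.symm⟩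
      rw [← q2, l1] at hreg
      rw [← q2, lσ] at e2
      linear_combination hreg + e2
    · by_cases q3 : lam = b.χ3
      · refine ⟨b.χ2, b.δ2, b.hδ2, fun χ a1 a2 a3 a4 => vanish hC b χ a1 a2 a4 (q3 ▸ a3), e2, j2,
          ?_, b.ne2, b.h12.symm, q3 ▸ b.h23⟩
        rw [← q3, l1] at hreg
        rw [← q3, lσ] at e3
        linear_combination hreg + e3
      · exact absurd (hv q2 q3) (by rw [lσ]; norm_num)
  -- sums reduce to four characters
  have hred : ∀ f : IrrCharacter G → ℂ, ∑ χ : IrrCharacter G, f χ * (χ : G → ℂ) d.σ =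
      f (trivIrr G) - f lam + f b.χ1 * b.δ1 + f ξ * δ := by
    intro f
    rw [← Finset.sum_subset (Finset.subset_univ
      ({trivIrr G, lam, b.χ1, ξ} : Finset (IrrCharacter G)))]
    · rw [Finset.sum_insert, Finset.sum_insert, Finset.sum_insert, Finset.sum_singleton, lσ, e1, xσ,
        trivIrr_apply]
      · ring
      · simpa using hd2.symm
      · simpa [hneχ1] using hd3.symm
      · simpa [b.ne1.symm, hne1.symm] using hd1.symm
    · intro χ _ hχ
      simp only [Finset.mem_insert, Finset.mem_singleton, not_or] at hχ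
      rw [hset χ hχ.1 hχ.2.2.1 hχ.2.1 hχ.2.2.2, mul_zero]
  -- orthogonality of the columns
  have horth : 2 + (b.δ1 : ℂ) * conj ((b.χ1 : G → ℂ) (d.σ * d.τ)) +
      (δ : ℂ) * conj ((ξ : G → ℂ) (d.σ * d.τ)) = 0 := by
    have hh := CharTheory.sum_mul_conj d.σ (d.σ * d.τ)
    have hnc : ¬ IsConj d.σ (d.σ * d.τ) := fun h => by
      obtain ⟨g, hg⟩ := isConj_iff.1 h
      have := congrArg orderOf hg
      rw [orderOf_conj, orderOf_σ, show orderOf (d.σ * d.τ) = 2 by simpa using d.orderOf_refl 1]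
        at this
      omega
    rw [if_neg hnc, Finset.sum_congr rfl fun χ _ => mul_comm _ _, hred] at hh
    simp only [trivIrr_apply, map_one, lS, map_neg] at hh
    linear_combination hh
  -- counting
  have h := BrauerCharacters.sum_weight_pairs d.J (d.σ * d.τ) (fun u => if u = d.σ then 1 else 0)
  simp only [ite_mul, one_mul, zero_mul, Finset.sum_ite_eq', Finset.mem_univ, if_true] at h
  have key : ∀ i : DecidablePred fun x => IsConj d.J x ∧ IsConj (d.σ * d.τ) (x * d.σ),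
      (@Finset.filter G _ i Finset.univ).card = 2 := fun i => by
    convert card_pairs_two X hX hσ hτ h1 h2 hC
  rw [key, hred] at h
  obtain ⟨d1, p1, -⟩ := BrauerCharacters.charDegree_spec b.χ1
  simp only [centralChar, trivIrr_apply, lJ, lS, l1, j1, xJ, d1, map_one, map_neg, index_eq] at h
  rw [show (Subgroup.centralizer ({d.J} : Set G)) = d.H from rfl] at h
  rw [d1] at xdeg
  have hg : (Nat.card G : ℂ) ≠ 0 := by exact_mod_cast Nat.card_pos.ne'
  have hh : (Nat.card d.H : ℂ) ≠ 0 := by exact_mod_cast Nat.card_pos.ne'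
  have hs : (Nat.card (Subgroup.centralizer ({d.σ * d.τ} : Set G)) : ℂ) ≠ 0 := by
    exact_mod_cast Nat.card_pos.ne'
  have n1 : (charDegree (b.χ1 : G → ℂ) : ℂ) ≠ 0 := by exact_mod_cast p1.ne'
  have n2 : (ξ : G → ℂ) 1 ≠ 0 := by
    obtain ⟨q, q', -⟩ := BrauerCharacters.charDegree_spec ξ
    rw [q]; exact_mod_cast q'.ne'
  have s1 : (b.δ1 : ℂ) ^ 2 = 1 := by rcases b.hδ1 with q | q <;> rw [q] <;> norm_num
  have s3 : (δ : ℂ) ^ 2 = 1 := by rcases hδ with q | q <;> rw [q] <;> norm_num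
  set D := (charDegree (b.χ1 : G → ℂ) : ℂ)
  set E := conj ((b.χ1 : G → ℂ) (d.σ * d.τ))
  set E' := conj ((ξ : G → ℂ) (d.σ * d.τ))
  have key2 : E / D - E' / (ξ : G → ℂ) 1 = -2 / ((b.δ1 : ℂ) * D) := by
    have hb0 : (b.δ1 : ℂ) ≠ 0 := fun e => by simp [e] at s1
    have hd0 : (δ : ℂ) ≠ 0 := fun e => by simp [e] at s3
    have hξ : (ξ : G → ℂ) 1 = -((δ : ℂ) * ((b.δ1 : ℂ) * D)) := by
      linear_combination (δ : ℂ) * xdeg - (ξ : G → ℂ) 1 * s3
    rw [hξ]
    field_simp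
    linear_combination (δ : ℂ) * horth - E' * s3
  rw [show ((2 : ℕ) : ℂ) = 2 by norm_num] at h
  have hb0 : (b.δ1 : ℂ) ≠ 0 := fun e => by simp [e] at s1
  have h' : (2 : ℂ) = (Nat.card G : ℂ) / (Nat.card (Subgroup.centralizer ({d.σ * d.τ} : Set G)) : ℂ) /
      (Nat.card G : ℂ) * ((Nat.card G : ℂ) / (Nat.card d.H : ℂ) * (2 + (E / D - E' / (ξ : G → ℂ) 1))) := by
    linear_combination h + (Nat.card G : ℂ) /
      (Nat.card (Subgroup.centralizer ({d.σ * d.τ} : Set G)) : ℂ) / (Nat.card G : ℂ) *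
        ((Nat.card G : ℂ) / (Nat.card d.H : ℂ)) * (E / D * s1 - E' / (ξ : G → ℂ) 1 * s3)
  rw [key2] at h'
  field_simp at h'
  linear_combination (-1 : ℂ) * h'

end

end CfsgLib.SelfCentFour
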